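/-
Root elements `v ↦ v + B(v,e) w + B(v,w) e + c B(v,e) e` of a characteristic-two symplectic space,
root data `κ` at a vector `e` for a subgroup `L` of the isometry group.
-/
import Mathlib
import Cfsg.Agent.Lib.Classical.Alt

set_option autoImplicit false
set_option linter.unusedSectionVars false
set_option linter.unusedVariables false

namespace Cfsg.Agent.Lib.SpRoot

open Cfsg.Agent.Lib.Classical.Alt

theorem V_add_self (F : Type*) {V : Type*} [Field F] [CharP F 2] [AddCommGroup V] [Module F V] (v : V) : v + v = 0 := by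
  have h : (2 : F) • v = 0 := by
    rw [CharTwo.two_eq_zero, zero_smul]
  rw [two_smul] at h
  exact h

theorem V_add_cancel (F : Type*) {V : Type*} [Field F] [CharP F 2] [AddCommGroup V] [Module F V] (u v : V) : u + v + v = u := by
  rw [add_assoc, V_add_self F, add_zero]

theorem V_eq_of_add_eq_zero (F : Type*) {V : Type*} [Field F] [CharP F 2] [AddCommGroup V] [Module F V] {u v : V} (h : u + v = 0) : u = v := by
  have := congrArg (· + v) h
  simpa [V_add_cancel F] using this

theorem V_neg (F : Type*) {V : Type*} [Field F] [CharP F 2] [AddCommGroup V] [Module F V] (v : V) : -v = v := by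
  have h := V_add_self F v
  exact neg_eq_of_add_eq_zero_right h

theorem V_sub (F : Type*) {V : Type*} [Field F] [CharP F 2] [AddCommGroup V] [Module F V] (u v : V) : u - v = u + v := by
  rw [sub_eq_add_neg, V_neg F]

variable {F V : Type*} [Field F] [CharP F 2] [AddCommGroup V] [Module F V]

variable {B : LinearMap.BilinForm F V}

theorem B_comm (hA : B.IsAlt) (u v : V) : B u v = B v u := by
  have := hA.neg_eq u v
  rw [← this, CharTwo.neg_eq]

theorem B_zero_comm (hA : B.IsAlt) {u v : V} (h : B u v = 0) : B v u = 0 := by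
  rw [B_comm hA, h]

variable (B) in
/-- `v ↦ v + B(v,e) w + B(v,w) e + c B(v,e) e`. -/
def rootVec (e w : V) (c : F) (v : V) : V := v + B v e • w + B v w • e + (c * B v e) • e

theorem rootVec_comp (hA : B.IsAlt) {e w w' : V} (c c' : F) (hw : B w e = 0) (hw' : B w' e = 0)
    (v : V) :
    rootVec B e w c (rootVec B e w' c' v) = rootVec B e (w + w') (c + c' + B w w') v := by
  have hee : B e e = 0 := hA e
  have hew := B_zero_comm hA hw
  have hew' := B_zero_comm hA hw'
  have h1 : B w' w = B w w' := B_comm hA _ _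
  simp only [rootVec, map_add, map_smul, LinearMap.add_apply, LinearMap.smul_apply, smul_eq_mul,
    hw, hw', hee, hew, hew', h1, smul_add, mul_zero, add_zero, zero_add, smul_zero, zero_smul]
  match_scalars <;> grind

theorem rootVec_shift (hA : B.IsAlt) (e w : V) (c t : F) (v : V) :
    rootVec B e (w + t • e) c v = rootVec B e w c v := by
  have hee : B e e = 0 := hA e
  simp only [rootVec, map_add, map_smul, LinearMap.add_apply, LinearMap.smul_apply, smul_eq_mul,
    smul_add]
  match_scalars <;> grind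

theorem rootVec_scale (s : F) (e w : V) (c : F) (v : V) :
    rootVec B (s • e) w c v = rootVec B e (s • w) (s ^ 2 * c) v := by
  simp only [rootVec, map_smul, smul_eq_mul, smul_add]
  match_scalars <;> ring

/-- An isometry conjugates root elements to root elements. -/
theorem apply_rootVec (g : V ≃ₗ[F] V) (hg : g ∈ isomGroup B) (e w : V) (c : F) (v : V) :
    g (rootVec B e w c v) = rootVec B (g e) (g w) c (g v) := by
  simp only [rootVec, map_add, map_smul, hg v e, hg v w]

variable (B) in
/-- The root element with parameters `e, w, c` lies in `L`. -/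
def HasRoot (L : Subgroup (V ≃ₗ[F] V)) (e w : V) (c : F) : Prop :=
  ∃ g ∈ L, ∀ v, g v = rootVec B e w c v

variable {L : Subgroup (V ≃ₗ[F] V)}

theorem HasRoot.mul (hA : B.IsAlt) {e w w' : V} {c c' : F} (hw : B w e = 0) (hw' : B w' e = 0)
    (h : HasRoot B L e w c) (h' : HasRoot B L e w' c') :
    HasRoot B L e (w + w') (c + c' + B w w') := by
  obtain ⟨g, hg, hgv⟩ := h
  obtain ⟨g', hg', hgv'⟩ := h'
  refine ⟨g * g', L.mul_mem hg hg', fun v => ?_⟩
  rw [LinearEquiv.mul_apply, hgv', hgv, rootVec_comp hA _ _ hw hw']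

theorem HasRoot.shift (hA : B.IsAlt) {e w : V} {c : F} (t : F) (h : HasRoot B L e w c) :
    HasRoot B L e (w + t • e) c := by
  obtain ⟨g, hg, hgv⟩ := h
  exact ⟨g, hg, fun v => by rw [hgv, rootVec_shift hA]⟩

theorem HasRoot.unshift (hA : B.IsAlt) {e w : V} {c : F} (t : F)
    (h : HasRoot B L e (w + t • e) c) : HasRoot B L e w c := by
  obtain ⟨g, hg, hgv⟩ := h
  exact ⟨g, hg, fun v => by rw [hgv, rootVec_shift hA]⟩

theorem hasRoot_scale_iff {s : F} {e w : V} {c : F} :
    HasRoot B L (s • e) w c ↔ HasRoot B L e (s • w) (s ^ 2 * c) := by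
  constructor
  · rintro ⟨g, hg, hgv⟩
    exact ⟨g, hg, fun v => by rw [hgv, rootVec_scale]⟩
  · rintro ⟨g, hg, hgv⟩
    exact ⟨g, hg, fun v => by rw [hgv, rootVec_scale]⟩

theorem HasRoot.conj {e w : V} {c : F} (h : HasRoot B L e w c) {g : V ≃ₗ[F] V} (hg : g ∈ L)
    (hgi : g ∈ isomGroup B) : HasRoot B L (g e) (g w) c := by
  obtain ⟨x, hx, hxv⟩ := h
  refine ⟨g * x * g⁻¹, L.mul_mem (L.mul_mem hg hx) (L.inv_mem hg), fun v => ?_⟩
  have h1 : g (g⁻¹ v) = v := by
    change (g * g⁻¹) v = v
    simp
  rw [LinearEquiv.mul_apply, LinearEquiv.mul_apply, hxv, apply_rootVec g hgi, h1]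

/-- Cancelling `w`: the product of two root elements at the same `e, w`. -/
theorem HasRoot.diff (hA : B.IsAlt) {e w : V} {c c' : F} (hw : B w e = 0)
    (h : HasRoot B L e w c) (h' : HasRoot B L e w c') : HasRoot B L e 0 (c + c') := by
  have := HasRoot.mul hA hw hw h h'
  rw [V_add_self F, hA w, add_zero] at this
  exact this

theorem HasRoot.add_tv (hA : B.IsAlt) {e w : V} {c c' : F} (hw : B w e = 0)
    (h : HasRoot B L e w c) (h' : HasRoot B L e 0 c') : HasRoot B L e w (c + c') := by
  have := HasRoot.mul hA hw (map_zero (B) ▸ rfl) h h'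
  simpa using this

/-- The identity is the root element with `w = 0`, `c = 0`. -/
theorem hasRoot_zero (e : V) : HasRoot B L e 0 0 :=
  ⟨1, L.one_mem, fun v => by simp [rootVec]⟩

variable (B L) in
/-- Root data at `e`: a function `κ` such that `E(e,w,κ w) ∈ L` for `w ∈ e^⊥`,
`κ` is quadratic with polar `B`, vanishing on `F e`. -/
structure RootData (e : V) (κ : V → F) : Prop where
  ne : e ≠ 0
  root : ∀ w, B w e = 0 → HasRoot B L e w (κ w)
  add : ∀ w w', B w e = 0 → B w' e = 0 → κ (w + w') = κ w + κ w' + B w w'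
  zero_e : ∀ t : F, κ (t • e) = 0

variable (B L) in
/-- Vectors carrying root data. -/
def Pts : Set V := {b | ∃ κ, RootData B L b κ}

theorem RootData.zero {e : V} {κ : V → F} (h : RootData B L e κ) : κ 0 = 0 := by
  have := h.zero_e 0
  simpa using this

theorem RootData.shift (hA : B.IsAlt) {e : V} {κ : V → F} (h : RootData B L e κ) {w : V}
    (hw : B w e = 0) (t : F) : κ (w + t • e) = κ w := by
  have hte : B (t • e) e = 0 := by simp [hA e]
  rw [h.add _ _ hw hte, h.zero_e, add_zero, map_smul, smul_eq_mul, hw, mul_zero, add_zero]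

theorem RootData.conj (hA : B.IsAlt) {e : V} {κ : V → F} (h : RootData B L e κ) {g : V ≃ₗ[F] V}
    (hg : g ∈ L) (hgi : g ∈ isomGroup B) : RootData B L (g e) (fun w => κ (g.symm w)) := by
  have hs : ∀ w, g (g.symm w) = w := fun w => g.apply_symm_apply w
  have hB : ∀ w w', B (g.symm w) (g.symm w') = B w w' := fun w w' => by
    have := hgi (g.symm w) (g.symm w')
    rw [hs, hs] at this
    exact this.symm
  have hBe : ∀ w, B w (g e) = 0 → B (g.symm w) e = 0 := fun w hw => by
    have := hgi (g.symm w) e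
    rw [hs, hw] at this
    exact this.symm
  refine ⟨?_, ?_, ?_, ?_⟩
  · intro h0
    exact h.ne (g.map_eq_zero_iff.mp h0)
  · intro w hw
    have := (h.root _ (hBe w hw)).conj hg hgi
    rwa [hs] at this
  · intro w w' hw hw'
    simp only [map_add]
    rw [h.add _ _ (hBe w hw) (hBe w' hw'), hB]
  · intro t
    simp only [map_smul, LinearEquiv.symm_apply_apply]
    exact h.zero_e t

theorem RootData.scale (hA : B.IsAlt) {e : V} {κ : V → F} (h : RootData B L e κ) {s : F}
    (hs : s ≠ 0) : RootData B L (s • e) (fun w => (s ^ 2)⁻¹ * κ (s • w)) := by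
  have hs2 : s ^ 2 ≠ 0 := pow_ne_zero _ hs
  have hBe : ∀ w, B w (s • e) = 0 → B (s • w) e = 0 := fun w hw => by
    rw [map_smul, smul_eq_mul] at hw
    rw [map_smul, LinearMap.smul_apply, smul_eq_mul, hw]
  refine ⟨smul_ne_zero hs h.ne, ?_, ?_, ?_⟩
  · intro w hw
    rw [hasRoot_scale_iff, mul_inv_cancel_left₀ hs2]
    exact h.root _ (hBe w hw)
  · intro w w' hw hw'
    simp only [smul_add]
    rw [h.add _ _ (hBe w hw) (hBe w' hw')]
    simp only [map_smul, LinearMap.smul_apply, smul_eq_mul]
    field_simp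
  · intro t
    have : s • t • s • e = (s * t * s) • e := by simp only [smul_smul, mul_assoc]
    rw [this, h.zero_e, mul_zero]

theorem Pts.conj (hA : B.IsAlt) {e : V} (h : e ∈ Pts B L) {g : V ≃ₗ[F] V} (hg : g ∈ L)
    (hgi : g ∈ isomGroup B) : g e ∈ Pts B L := by
  obtain ⟨κ, hκ⟩ := h
  exact ⟨_, hκ.conj hA hg hgi⟩

theorem Pts.scale (hA : B.IsAlt) {e : V} (h : e ∈ Pts B L) {s : F} (hs : s ≠ 0) :
    s • e ∈ Pts B L := by
  obtain ⟨κ, hκ⟩ := h
  exact ⟨_, hκ.scale hA hs⟩

theorem Pts.ne {e : V} (h : e ∈ Pts B L) : e ≠ 0 := by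
  obtain ⟨κ, hκ⟩ := h
  exact hκ.ne

/-! ### Separation in a non-degenerate space -/

theorem exists_B_ne (hN : B.Nondegenerate) {x : V} (hx : x ≠ 0) : ∃ t, B t x ≠ 0 := by
  by_contra hcon
  push Not at hcon
  exact hx (hN.2 x hcon)

theorem exists_B_eq_one (hN : B.Nondegenerate) {x : V} (hx : x ≠ 0) : ∃ t, B t x = 1 := by
  obtain ⟨t, ht⟩ := exists_B_ne hN hx
  refine ⟨(B t x)⁻¹ • t, ?_⟩
  simp [ht]

variable [FiniteDimensional F V]

/-- Separation: `x ∉ S` gives `t` orthogonal to `S` with `B t x = 1`. -/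
theorem exists_sep (hN : B.Nondegenerate) {S : Submodule F V} {x : V} (hx : x ∉ S) :
    ∃ t, B t x = 1 ∧ ∀ s ∈ S, B t s = 0 := by
  obtain ⟨φ, hφx, hφS⟩ := Submodule.exists_dual_map_eq_bot_of_notMem hx inferInstance
  refine ⟨(B.toDual hN).symm ((φ x)⁻¹ • φ), ?_, fun s hs => ?_⟩
  · rw [LinearMap.BilinForm.apply_toDual_symm_apply]
    simp [hφx]
  · rw [LinearMap.BilinForm.apply_toDual_symm_apply]
    have : φ s ∈ S.map φ := ⟨s, hs, rfl⟩
    rw [hφS, Submodule.mem_bot] at this
    simp [this]

/-! ### Hyperbolic pairs -/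

variable (B) in
/-- The projection to the orthogonal complement of a hyperbolic pair. -/
def perp (e e' v : V) : V := v + B v e' • e + B v e • e'

theorem perp_left (hA : B.IsAlt) {e e' : V} (h : B e e' = 1) (v : V) : B (perp B e e' v) e = 0 := by
  have h' : B e' e = 1 := by rw [B_comm hA, h]
  simp only [perp, map_add, LinearMap.add_apply, map_smul, LinearMap.smul_apply, smul_eq_mul,
    hA e, h', mul_zero, add_zero, mul_one]
  exact CharTwo.add_self_eq_zero _

theorem perp_right (hA : B.IsAlt) {e e' : V} (h : B e e' = 1) (v : V) :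
    B (perp B e e' v) e' = 0 := by
  simp only [perp, map_add, LinearMap.add_apply, map_smul, LinearMap.smul_apply, smul_eq_mul,
    hA e', h, mul_zero, add_zero, mul_one]
  rw [add_comm]
  exact CharTwo.add_self_eq_zero _

theorem perp_of_perp {e e' v : V} (h : B v e = 0) (h' : B v e' = 0) : perp B e e' v = v := by
  simp [perp, h, h']

/-- Pairing the projection with a vector of the complement. -/
theorem B_perp_of_perp (hA : B.IsAlt) {e e' x : V} (h : B x e = 0) (h' : B x e' = 0) (v : V) :
    B x (perp B e e' v) = B x v := by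
  simp [perp, h, h']

theorem perp_eq_add (e e' v : V) : perp B e e' v = v + B v e' • e + B v e • e' := rfl

/-- A vector outside a small span. -/
theorem exists_notMem_span_of_card_lt {ι : Type*} [Fintype ι] (s : ι → V)
    (h : Fintype.card ι < Module.finrank F V) : ∃ x, x ∉ Submodule.span F (Set.range s) := by
  by_contra hcon
  push Not at hcon
  have h1 : Submodule.span F (Set.range s) = ⊤ := by
    rw [eq_top_iff]
    intro x _
    exact hcon x
  have h2 := finrank_range_le_card (R := F) s
  rw [Set.finrank, h1, finrank_top] at h2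
  omega

theorem ne_of_B_ne {x y : V} (h : B x y ≠ 0) (hA : B.IsAlt) : x ≠ y := by
  rintro rfl
  exact h (hA _)

/-- The complement of a hyperbolic pair contains a hyperbolic pair (dimension at least 3). -/
theorem exists_hyp_perp (hA : B.IsAlt) (hN : B.Nondegenerate) {e e' : V} (h : B e e' = 1)
    (hdim : 3 ≤ Module.finrank F V) :
    ∃ x y, B x e = 0 ∧ B x e' = 0 ∧ B y e = 0 ∧ B y e' = 0 ∧ B x y = 1 := by
  obtain ⟨z, hz⟩ := exists_notMem_span_of_card_lt (F := F) ![e, e'] (by
    simp only [Fintype.card_fin]; omega)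
  have hx : perp B e e' z ≠ 0 := by
    intro h0
    apply hz
    have hz' : z = B z e' • e + B z e • e' := by
      have h3 := V_eq_of_add_eq_zero F (u := z) (v := B z e' • e + B z e • e') (by
        rw [← add_assoc]; exact h0)
      exact h3
    rw [hz']
    refine Submodule.add_mem _ (Submodule.smul_mem _ _ (Submodule.subset_span ⟨0, rfl⟩))
      (Submodule.smul_mem _ _ (Submodule.subset_span ⟨1, rfl⟩))
  obtain ⟨t, ht⟩ := exists_B_eq_one hN hx
  refine ⟨perp B e e' t, perp B e e' z, perp_left hA h t, perp_right hA h t, perp_left hA h z,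
    perp_right hA h z, ?_⟩
  rw [B_comm hA, B_perp_of_perp hA (perp_left hA h z) (perp_right hA h z), B_comm hA, ht]

/-- Finite field of characteristic two: square roots. -/
theorem exists_sqrtF [Finite F] (x : F) : ∃ y : F, y ^ 2 = x := by
  have := Fintype.ofFinite F
  obtain ⟨y, hy⟩ := FiniteField.isSquare_of_char_two (ringChar.eq F 2) x
  exact ⟨y, by rw [hy, sq]⟩

theorem sq_add_sq (x y : F) : (x + y) ^ 2 = x ^ 2 + y ^ 2 := by grind

theorem eq_of_sq_eq {x y : F} (h : x ^ 2 = y ^ 2) : x = y := by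
  have h1 : (x + y) ^ 2 = 0 := by rw [sq_add_sq, h]; exact CharTwo.add_self_eq_zero _
  have h2 : x + y = 0 := by simpa using h1
  exact CharTwo.add_eq_zero.mp h2

/-! ### Irreducibility -/

/-- An irreducible subgroup moves any nonzero `b` out of any hyperplane `c^⊥`. -/
theorem exists_conj_ne (hN : B.Nondegenerate)
    (hirr : ∀ W : Submodule F V, (∀ g ∈ L, ∀ w ∈ W, g w ∈ W) → W = ⊥ ∨ W = ⊤) {b c : V}
    (hb : b ≠ 0) (hc : c ≠ 0) : ∃ g ∈ L, B (g b) c ≠ 0 := by
  by_contra hcon
  push Not at hcon
  let W : Submodule F V := Submodule.span F {x | ∃ g ∈ L, x = g b}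
  have hbW : b ∈ W := Submodule.subset_span ⟨1, L.one_mem, rfl⟩
  have hinv : ∀ g ∈ L, ∀ w ∈ W, g w ∈ W := by
    intro g hg w hw
    induction hw using Submodule.span_induction with
    | mem x hx =>
      obtain ⟨k, hk, rfl⟩ := hx
      exact Submodule.subset_span ⟨g * k, L.mul_mem hg hk, rfl⟩
    | zero => simp
    | add x y _ _ hx hy => rw [map_add]; exact W.add_mem hx hy
    | smul t x _ hx => rw [map_smul]; exact W.smul_mem t hx
  rcases hirr W hinv with h0 | h1
  · rw [h0, Submodule.mem_bot] at hbW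
    exact hb hbW
  · have : ∀ x ∈ W, B x c = 0 := by
      intro x hx
      induction hx using Submodule.span_induction with
      | mem x hx =>
        obtain ⟨k, hk, rfl⟩ := hx
        exact hcon k hk
      | zero => simp
      | add x y _ _ hx hy => simp [hx, hy]
      | smul t x _ hx => simp [hx]
    apply hc
    apply hN.2
    intro x
    exact this x (h1 ▸ Submodule.mem_top)

/-- Surjectivity of a root function on a hyperbolic pair. -/
theorem RootData.surj [Finite F] (hA : B.IsAlt) {e : V} {κ : V → F} (h : RootData B L e κ) {u v : V}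
    (hu : B u e = 0) (hv : B v e = 0) (huv : B u v = 1) (x : F) :
    ∃ α β : F, κ (α • u + β • v) = x := by
  have hαu : ∀ α : F, B (α • u) e = 0 := fun α => by simp [hu]
  have hβv : ∀ β : F, B (β • v) e = 0 := fun β => by simp [hv]
  have hadd : ∀ α β : F, κ (α • u + β • v) = κ (α • u) + κ (β • v) + α * β := fun α β => by
    rw [h.add _ _ (hαu α) (hβv β)]
    simp [huv, mul_comm]
  have hBadd : ∀ β β' : F, κ ((β + β') • v) = κ (β • v) + κ (β' • v) := fun β β' => by
    rw [add_smul, h.add _ _ (hβv β) (hβv β')]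
    simp [hA v]
  -- some `α₀` is not the slope of any nonzero `β`
  obtain ⟨α₀, hα₀⟩ : ∃ α₀ : F, ∀ β : F, β ≠ 0 → κ (β • v) ≠ α₀ * β := by
    by_contra hcon
    push Not at hcon
    choose b hb0 hb using hcon
    have hinj : Function.Injective b := by
      intro α α' hαα
      have h1 := hb α
      rw [hαα, hb α'] at h1
      exact (mul_right_cancel₀ (hb0 α') h1).symm
    obtain ⟨α, hα⟩ := (Finite.injective_iff_surjective.mp hinj) 0
    exact hb0 α hα
  -- additive injective hence surjective
  let φ : F → F := fun β => κ (β • v) + α₀ * β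
  have hφadd : ∀ β β', φ (β + β') = φ β + φ β' := fun β β' => by
    simp only [φ]
    rw [hBadd]
    ring
  have hφinj : Function.Injective φ := by
    intro β β' hφ
    by_contra hne
    have hne' : β + β' ≠ 0 := fun h0 => hne (CharTwo.add_eq_zero.mp h0)
    apply hα₀ _ hne'
    have h1 : φ (β + β') = 0 := by
      rw [hφadd, hφ]
      exact CharTwo.add_self_eq_zero _
    simp only [φ] at h1
    exact CharTwo.add_eq_zero.mp h1
  obtain ⟨β, hβ⟩ := (Finite.injective_iff_surjective.mp hφinj) (x + κ (α₀ • u))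
  refine ⟨α₀, β, ?_⟩
  rw [hadd]
  simp only [φ] at hβ
  grind

end Cfsg.Agent.Lib.SpRoot
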