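/-
Case A: if `L` contains a transvection with centre at a vector carrying root data, then `L` is the
full isometry group.
-/
import Cfsg.Agent.Lib.SpRoot.Basic

set_option autoImplicit false
set_option linter.unusedSectionVars false
set_option linter.unusedVariables false

namespace Cfsg.Agent.Lib.SpRoot

open Cfsg.Agent.Lib.Classical.Alt

variable {F V : Type*} [Field F] [Finite F] [CharP F 2] [AddCommGroup V] [Module F V]
  [FiniteDimensional F V]
variable {B : LinearMap.BilinForm F V} {L : Subgroup (V ≃ₗ[F] V)}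

theorem rootVec_tv (e : V) (c : F) (v : V) : rootVec B e 0 c v = v + (c * B v e) • e := by
  simp [rootVec]

theorem HasRoot.mem_isom {e w : V} {c : F} (hL : L ≤ isomGroup B) (h : HasRoot B L e w c) :
    ∃ g ∈ L, g ∈ isomGroup B ∧ ∀ v, g v = rootVec B e w c v := by
  obtain ⟨g, hg, hgv⟩ := h
  exact ⟨g, hg, hL hg, hgv⟩

theorem HasRoot.tv_conj {e : V} {c : F} (h : HasRoot B L e 0 c) {g : V ≃ₗ[F] V} (hg : g ∈ L)
    (hgi : g ∈ isomGroup B) : HasRoot B L (g e) 0 c := by
  have := h.conj hg hgi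
  rwa [map_zero] at this

/-- Rule E. -/
theorem rule_E (hA : B.IsAlt) (hN : B.Nondegenerate) (hL : L ≤ isomGroup B) {e : V} {κ : V → F}
    (hκ : RootData B L e κ) {y : V} (hy : HasRoot B L y 0 1) (hye : B y e = 0)
    (hyne : y ∉ Submodule.span F {e}) (θ : F) : HasRoot B L e (θ • y) (θ ^ 2) := by
  obtain ⟨t, ht1, ht2⟩ := exists_sep hN hyne
  have hte : B t e = 0 := ht2 e (Submodule.mem_span_singleton_self e)
  let r : V := θ • t
  have hre : B r e = 0 := by simp [r, hte]
  have hry : B r y = θ := by simp [r, ht1]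
  obtain ⟨τ, hτ, hτi, hτv⟩ := hy.mem_isom hL
  have hτe : τ e = e := by
    rw [hτv, rootVec_tv, B_zero_comm hA hye, mul_zero, zero_smul, add_zero]
  have hτr : τ r = r + θ • y := by
    rw [hτv, rootVec_tv, hry, one_mul]
  have h1 := (hκ.root r hre).conj hτ hτi
  rw [hτe, hτr] at h1
  have hw : B (r + θ • y) e = 0 := by simp [hre, hye]
  have h2 := HasRoot.mul hA hw hre h1 (hκ.root r hre)
  have h3 : r + θ • y + r = θ • y := by
    rw [add_comm r, add_assoc, V_add_self F, add_zero]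
  have h4 : κ r + κ r + B (r + θ • y) r = θ ^ 2 := by
    have : B y r = θ := by rw [B_comm hA, hry]
    simp only [map_add, LinearMap.add_apply, hA r, map_smul, LinearMap.smul_apply, smul_eq_mul,
      this, zero_add]
    rw [CharTwo.add_self_eq_zero, zero_add, sq]
  rwa [h3, h4] at h2

/-- Rule 1. -/
theorem rule_one (hA : B.IsAlt) (hN : B.Nondegenerate) (hL : L ≤ isomGroup B) {e c : V} {κ : V → F}
    (hκ : RootData B L e κ) (hc : HasRoot B L c 0 1) (hce : B c e = 1) {w : V}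
    (hwr : HasRoot B L e w 1) (hwe : B w e = 0) (hwc : B w c = 0)
    (hwne : w ∉ Submodule.span F {e}) (θ : F) : HasRoot B L e (θ • w) (θ ^ 2) := by
  obtain ⟨x, hx, hxi, hxv⟩ := hwr.mem_isom hL
  have hxc : x c = c + w + e := by
    rw [hxv, rootVec, hce, B_zero_comm hA hwc]
    simp
  have h1 := hc.tv_conj hx hxi
  rw [hxc] at h1
  obtain ⟨τ, hτ, hτi, hτv⟩ := hc.mem_isom hL
  have h2 := h1.tv_conj hτ hτi
  have hec : B e c = 1 := by rw [B_comm hA, hce]
  have h3 : τ (c + w + e) = w + e := by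
    rw [hτv, rootVec_tv]
    simp only [map_add, LinearMap.add_apply, hA c, hwc, hec]
    match_scalars <;> grind
  rw [h3] at h2
  have hy : B (w + e) e = 0 := by simp [hwe, hA e]
  have hyne : w + e ∉ Submodule.span F {e} := by
    intro hm
    apply hwne
    have := Submodule.sub_mem _ hm (Submodule.mem_span_singleton_self e)
    simpa using this
  have h4 := rule_E hA hN hL hκ h2 hy hyne θ
  rw [smul_add] at h4
  exact h4.unshift hA θ

/-- The core of case A. -/
theorem tv_core (hA : B.IsAlt) (hN : B.Nondegenerate) (hL : L ≤ isomGroup B)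
    (hdim : 3 ≤ Module.finrank F V) {e c : V} {κ : V → F}
    (hκ : RootData B L e κ) (hc : HasRoot B L c 0 1) (hce : B c e = 1) {ν : F}
    (hν : HasRoot B L e 0 ν) (hν0 : ν ≠ 0) (hν1 : ν ≠ 1) (μ : F) : HasRoot B L e 0 μ := by
  obtain ⟨u, v, huc, hue, hvc, hve, huv⟩ := exists_hyp_perp hA hN hce hdim
  obtain ⟨α, β, hαβ⟩ := hκ.surj hA hue hve huv 1
  set y₀ : V := α • u + β • v with hy₀
  have hy₀e : B y₀ e = 0 := by simp [hy₀, hue, hve]
  have hy₀c : B y₀ c = 0 := by simp [hy₀, huc, hvc]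
  have hy₀ne : y₀ ∉ Submodule.span F {e} := by
    intro hm
    obtain ⟨t, ht⟩ := Submodule.mem_span_singleton.mp hm
    rw [← ht, hκ.zero_e] at hαβ
    exact zero_ne_one hαβ
  have hroot : HasRoot B L e y₀ 1 := hαβ ▸ hκ.root y₀ hy₀e
  have R3 := rule_one hA hN hL hκ hc hce hroot hy₀e hy₀c hy₀ne
  obtain ⟨θ₁, hθ₁⟩ := exists_sqrtF (1 + ν)
  have hθ₁0 : θ₁ ≠ 0 := by
    rintro rfl
    apply hν1
    have : (1 : F) + ν = 0 := by rw [← hθ₁]; simp
    exact (CharTwo.add_eq_zero.mp this).symm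
  have h1 : HasRoot B L e (θ₁ • y₀) 1 := by
    have h2 := (R3 θ₁).add_tv hA (by simp [hy₀e]) hν
    have h3 : θ₁ ^ 2 + ν = 1 := by
      rw [hθ₁]
      grind
    rwa [h3] at h2
  have hw₁e : B (θ₁ • y₀) e = 0 := by simp [hy₀e]
  have hw₁c : B (θ₁ • y₀) c = 0 := by simp [hy₀c]
  have hw₁ne : θ₁ • y₀ ∉ Submodule.span F {e} := by
    intro hm
    apply hy₀ne
    have := Submodule.smul_mem _ θ₁⁻¹ hm
    rwa [smul_smul, inv_mul_cancel₀ hθ₁0, one_smul] at this
  have R4 := rule_one hA hN hL hκ hc hce h1 hw₁e hw₁c hw₁ne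
  obtain ⟨φ, hφ⟩ := exists_sqrtF (μ / ν)
  have h5 := (R4 φ)
  have h6 := R3 (φ * θ₁)
  rw [smul_smul] at h5
  have h7 := HasRoot.diff hA (by simp [hy₀e]) h5 h6
  have h8 : φ ^ 2 + (φ * θ₁) ^ 2 = μ := by
    rw [mul_pow, hθ₁, hφ]
    field_simp
    grind
  rwa [h8] at h7

/-- All transvections with centre `a` lie in `L` as soon as one does. -/
theorem tv_all (hA : B.IsAlt) (hN : B.Nondegenerate) (hL : L ≤ isomGroup B)
    (hirr : ∀ W : Submodule F V, (∀ g ∈ L, ∀ w ∈ W, g w ∈ W) → W = ⊥ ∨ W = ⊤)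
    (hdim : 3 ≤ Module.finrank F V) {a : V} {κ : V → F}
    (hκ : RootData B L a κ) {lam : F} (hlam : lam ≠ 0) (hT : HasRoot B L a 0 lam) (μ : F) :
    HasRoot B L a 0 μ := by
  by_contra hnot
  have key : ∀ g ∈ L, B (g a) a ≠ 0 → lam * B (g a) a = 1 := by
    intro g hg hA0
    have hgi := hL hg
    set A := B (g a) a with hAdef
    obtain ⟨r, hr⟩ := exists_sqrtF lam
    have hr0 : r ≠ 0 := by
      rintro rfl
      apply hlam
      rw [← hr]
      simp
    set s : F := r * A with hs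
    have hs0 : s ≠ 0 := mul_ne_zero hr0 hA0
    have hc : HasRoot B L (r • g a) 0 1 := by
      rw [hasRoot_scale_iff, smul_zero, mul_one, hr]
      exact hT.tv_conj hg hgi
    have hce : B (r • g a) (s⁻¹ • a) = 1 := by
      simp only [map_smul, LinearMap.smul_apply, smul_eq_mul]
      rw [← hAdef, hs]
      field_simp
    have hκe := hκ.scale hA (inv_ne_zero hs0)
    have hs2 : (s⁻¹) ^ 2 * (s ^ 2 * lam) = lam := by
      field_simp
    have hν : HasRoot B L (s⁻¹ • a) 0 (s ^ 2 * lam) := by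
      rw [hasRoot_scale_iff, smul_zero, hs2]
      exact hT
    have hν0 : s ^ 2 * lam ≠ 0 := mul_ne_zero (pow_ne_zero _ hs0) hlam
    by_cases hν1 : s ^ 2 * lam = 1
    · have h1 : (lam * A) ^ 2 = 1 ^ 2 := by
        rw [one_pow, ← hν1, hs, mul_pow r A, hr]
        ring
      exact eq_of_sq_eq h1
    · exfalso
      apply hnot
      have h2 := tv_core hA hN hL hdim hκe hc hce hν hν0 hν1 (s ^ 2 * μ)
      rw [hasRoot_scale_iff, smul_zero] at h2
      have h3 : (s⁻¹) ^ 2 * (s ^ 2 * μ) = μ := by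
        field_simp
      rwa [h3] at h2
  obtain ⟨g, hg, hg0⟩ := exists_conj_ne hN hirr hκ.ne hκ.ne
  have hgi := hL hg
  set p := g a with hp
  set A := B p a with hAdef
  have hlA : lam * A = 1 := key g hg hg0
  have hvals : ∀ w, B w a = 0 → κ w = 0 ∨ κ w = lam := by
    intro w hw
    obtain ⟨x, hx, hxi, hxv⟩ := (hκ.root w hw).mem_isom hL
    have hh : g⁻¹ * x * g ∈ L := L.mul_mem (L.mul_mem (L.inv_mem hg) hx) hg
    have hval : B ((g⁻¹ * x * g) a) a = κ w * A ^ 2 := by
      have h1 : (g⁻¹ * x * g) a = g⁻¹ (x p) := rfl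
      have h2 : B (g⁻¹ (x p)) a = B (x p) p := by
        have := hgi (g⁻¹ (x p)) a
        have h3 : g (g⁻¹ (x p)) = x p := by
          change (g * g⁻¹) (x p) = x p
          simp
        rw [h3] at this
        exact this.symm
      rw [h1, h2, hxv, rootVec]
      have h4 : B a p = A := by rw [B_comm hA]
      have h5 : B w p = B p w := B_comm hA _ _
      simp only [map_add, LinearMap.add_apply, map_smul, LinearMap.smul_apply, smul_eq_mul,
        hA p, h4, h5]
      grind
    by_cases hz : B ((g⁻¹ * x * g) a) a = 0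
    · left
      rw [hval] at hz
      have hA0 : A ≠ 0 := hg0
      simpa [hA0] using hz
    · right
      have h1 := key _ hh hz
      rw [hval] at h1
      have hA0 : A ≠ 0 := hg0
      have h2 : κ w * A = 1 := by
        have : κ w * A * (lam * A) = 1 := by rw [← h1]; ring
        rwa [hlA, mul_one] at this
      calc κ w = κ w * (lam * A) := by rw [hlA, mul_one]
        _ = (κ w * A) * lam := by ring
        _ = lam := by rw [h2, one_mul]
  obtain ⟨t, ht⟩ := exists_B_eq_one hN hκ.ne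
  obtain ⟨u, v, hut, hua, hvt, hva, huv⟩ := exists_hyp_perp hA hN ht hdim
  have hsurj : ∀ x : F, x = 0 ∨ x = lam := by
    intro x
    obtain ⟨α, β, hαβ⟩ := hκ.surj hA hua hva huv x
    rw [← hαβ]
    exact hvals _ (by simp [hua, hva])
  have hl1 : lam = 1 := by
    rcases hsurj 1 with h | h
    · exact absurd h one_ne_zero
    · exact h.symm
  apply hnot
  rcases hsurj μ with h | h
  · rw [h]
    exact hasRoot_zero a
  · rw [h]
    exact hT

/-- With all transvections at `a`, the group is everything. -/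
theorem eq_isom_of_tv_all (hA : B.IsAlt) (hN : B.Nondegenerate) (hL : L ≤ isomGroup B)
    (hirr : ∀ W : Submodule F V, (∀ g ∈ L, ∀ w ∈ W, g w ∈ W) → W = ⊥ ∨ W = ⊤) {a : V} {κ : V → F}
    (hκ : RootData B L a κ) (hall : ∀ μ, HasRoot B L a 0 μ) : L = isomGroup B := by
  let PP : V → Prop := fun b => b ≠ 0 ∧ (∃ κ, RootData B L b κ) ∧ ∀ μ, HasRoot B L b 0 μ
  have hPa : PP a := ⟨hκ.ne, ⟨κ, hκ⟩, hall⟩
  have hPconj : ∀ b, PP b → ∀ g ∈ L, PP (g b) := by
    rintro b ⟨hb0, ⟨κb, hκb⟩, hbμ⟩ g hg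
    refine ⟨g.map_ne_zero_iff.mpr hb0, ⟨_, hκb.conj hA hg (hL hg)⟩, fun μ => ?_⟩
    exact (hbμ μ).tv_conj hg (hL hg)
  have hPscale : ∀ b, PP b → ∀ s : F, s ≠ 0 → PP (s • b) := by
    rintro b ⟨hb0, ⟨κb, hκb⟩, hbμ⟩ s hs
    refine ⟨smul_ne_zero hs hb0, ⟨_, hκb.scale hA hs⟩, fun μ => ?_⟩
    rw [hasRoot_scale_iff, smul_zero]
    exact hbμ _
  have hstep : ∀ b, PP b → ∀ y, B y b ≠ 0 → PP y := by
    intro b hb y hy
    obtain ⟨hb0, ⟨κb, hκb⟩, hbμ⟩ := id hb
    obtain ⟨g, hg, hg0⟩ := exists_conj_ne hN hirr hb0 hb0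
    have hPp := hPconj b hb g hg
    set p := g b with hp
    set A := B p b with hAdef
    set y' : V := (A * (B y b)⁻¹) • y with hy'
    have hy'b : B y' b = A := by
      simp only [hy', map_smul, LinearMap.smul_apply, smul_eq_mul]
      field_simp
    set w : V := A⁻¹ • (y' + p) with hw
    have hwb : B w b = 0 := by
      simp only [hw, map_smul, LinearMap.smul_apply, smul_eq_mul, map_add, LinearMap.add_apply,
        hy'b]
      rw [← hAdef, CharTwo.add_self_eq_zero, mul_zero]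
    have hroot : HasRoot B L b w (A⁻¹ * B p w) := by
      have h1 := (hκb.root w hwb).add_tv hA hwb (hbμ (κb w + A⁻¹ * B p w))
      have h2 : κb w + (κb w + A⁻¹ * B p w) = A⁻¹ * B p w := by
        rw [← add_assoc, CharTwo.add_self_eq_zero, zero_add]
      rwa [h2] at h1
    obtain ⟨x, hx, hxi, hxv⟩ := hroot.mem_isom hL
    have hA0 : A ≠ 0 := hg0
    have hxp : x p = y' := by
      rw [hxv, rootVec, ← hAdef]
      have h3 : A⁻¹ * B p w * A = B p w := by field_simp
      rw [h3, hw, smul_smul, mul_inv_cancel₀ hA0, one_smul]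
      simp only [← hw]
      have h4 : p + (y' + p) = y' := by
        rw [add_comm y', ← add_assoc, V_add_self F, zero_add]
      rw [h4, add_assoc, V_add_self F, add_zero]
    have hPy' := hPconj p hPp x hx
    rw [hxp] at hPy'
    have hyy' : y = (A⁻¹ * B y b) • y' := by
      rw [hy', smul_smul]
      have : A⁻¹ * B y b * (A * (B y b)⁻¹) = 1 := by field_simp
      rw [this, one_smul]
    rw [hyy']
    exact hPscale _ hPy' _ (mul_ne_zero (inv_ne_zero hA0) hy)
  have hall' : ∀ y, y ≠ 0 → PP y := by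
    intro y hy0
    by_cases hya : B y a = 0
    · obtain ⟨t₁, ht₁⟩ := exists_B_eq_one hN hκ.ne
      obtain ⟨t₂, ht₂⟩ := exists_B_eq_one hN hy0
      by_cases h1 : B t₁ y = 0
      · by_cases h2 : B t₂ a = 0
        · have h3 : PP (t₁ + t₂) := hstep a hPa _ (by simp [ht₁, h2])
          refine hstep _ h3 y ?_
          rw [B_comm hA]
          simp [h1, ht₂]
        · have h3 : PP t₂ := hstep a hPa _ h2
          refine hstep _ h3 y ?_
          rw [B_comm hA, ht₂]
          exact one_ne_zero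
      · have h3 : PP t₁ := hstep a hPa _ (by rw [ht₁]; exact one_ne_zero)
        refine hstep _ h3 y ?_
        rwa [B_comm hA]
    · exact hstep a hPa y hya
  apply le_antisymm hL
  rw [← tGroup_eq_isomGroup hN hA, tGroup, Subgroup.closure_le]
  rintro g ⟨w, c, hg⟩
  by_cases hw0 : w = 0
  · have : g = 1 := by
      ext v
      rw [hg, hw0]
      simp
    rw [this]
    exact L.one_mem
  · obtain ⟨x, hx, hxv⟩ := (hall' w hw0).2.2 c
    have : g = x := by
      ext v
      rw [hg, hxv, rootVec_tv]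
    rw [this]
    exact hx

/-- **Case A**. -/
theorem eq_isom_of_tv (hA : B.IsAlt) (hN : B.Nondegenerate) (hL : L ≤ isomGroup B)
    (hirr : ∀ W : Submodule F V, (∀ g ∈ L, ∀ w ∈ W, g w ∈ W) → W = ⊥ ∨ W = ⊤)
    (hdim : 3 ≤ Module.finrank F V) {a : V} {κ : V → F}
    (hκ : RootData B L a κ) {lam : F} (hlam : lam ≠ 0) (hT : HasRoot B L a 0 lam) :
    L = isomGroup B :=
  eq_isom_of_tv_all hA hN hL hirr hκ (tv_all hA hN hL hirr hdim hκ hlam hT)

end Cfsg.Agent.Lib.SpRoot
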