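/-
The pair lemma: root data at a hyperbolic pair agree on the orthogonal complement, when `L` contains
no transvections with centre at a vector carrying root data.
-/
import Cfsg.Agent.Lib.SpRoot.Sp
import Cfsg.Agent.Lib.Classical.TransvInv

set_option autoImplicit false
set_option linter.unusedSectionVars false
set_option linter.unusedVariables false
set_option linter.unusedSimpArgs false

namespace Cfsg.Agent.Lib.SpRoot

open Cfsg.Agent.Lib.Classical.Alt
open scoped MatrixGroups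

variable {F V : Type*} [Field F] [Finite F] [CharP F 2] [AddCommGroup V] [Module F V]
  [FiniteDimensional F V]
variable {B : LinearMap.BilinForm F V} {L : Subgroup (V ≃ₗ[F] V)}

theorem fix_pow (g : V ≃ₗ[F] V) {z : V} (hz : g z = z) (k : ℕ) : (g ^ k) z = z := by
  induction k with
  | zero => rfl
  | succ k ih =>
    rw [pow_succ, LinearEquiv.mul_apply, hz, ih]

theorem pow_apply_succ (g : V ≃ₗ[F] V) (k : ℕ) (z : V) : (g ^ (k + 1)) z = (g ^ k) (g z) := by
  rw [pow_succ, LinearEquiv.mul_apply]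

/-- Iterating a `2 × 2` block modulo a fixed vector. -/
theorem block_pow (g : V ≃ₗ[F] V) {x y w : V} (M : SL(2, F)) {r s : F}
    (hx : g x = M.1 0 0 • x + M.1 1 0 • y + r • w) (hy : g y = M.1 0 1 • x + M.1 1 1 • y + s • w)
    (hw : g w = w) (k : ℕ) :
    ∃ ρ σ : F, (g ^ k) x = (M ^ k).1 0 0 • x + (M ^ k).1 1 0 • y + ρ • w ∧
      (g ^ k) y = (M ^ k).1 0 1 • x + (M ^ k).1 1 1 • y + σ • w := by
  induction k with
  | zero =>
    refine ⟨0, 0, ?_, ?_⟩ <;> simp
  | succ k ih =>
    obtain ⟨ρ, σ, h1, h2⟩ := ih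
    have hwk := fix_pow g hw k
    have hM : ∀ i j, (M ^ (k + 1)).1 i j = (M ^ k).1 i 0 * M.1 0 j + (M ^ k).1 i 1 * M.1 1 j := by
      intro i j
      rw [pow_succ]
      show ((M ^ k).1 * M.1) i j = _
      rw [Matrix.mul_apply, Fin.sum_univ_two]
    refine ⟨M.1 0 0 * ρ + M.1 1 0 * σ + r, M.1 0 1 * ρ + M.1 1 1 * σ + s, ?_, ?_⟩
    · rw [pow_apply_succ, hx, map_add, map_add, map_smul, map_smul, map_smul, h1, h2, hwk,
        hM, hM]
      match_scalars <;> ring
    · rw [pow_apply_succ, hy, map_add, map_add, map_smul, map_smul, map_smul, h1, h2, hwk,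
        hM, hM]
      match_scalars <;> ring

/-- A third field element. -/
theorem exists_third [h2 : Fact (2 < Nat.card F)] (a b : F) : ∃ c : F, c ≠ a ∧ c ≠ b := by
  have := Fintype.ofFinite F
  classical
  by_contra hcon
  push Not at hcon
  have h1 : (Finset.univ : Finset F) ⊆ {a, b} := by
    intro x _
    by_cases hx : x = a
    · simp [hx]
    · simp [hcon x hx]
  have h3 := Finset.card_le_card h1
  have h4 : ({a, b} : Finset F).card ≤ 2 := Finset.card_le_two
  have h5 := h2.out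
  rw [Nat.card_eq_fintype_card] at h5
  rw [Finset.card_univ] at h3
  omega

theorem eq_zero_or_one_of_card_le (h : ¬ 2 < Nat.card F) (x : F) : x = 0 ∨ x = 1 := by
  have := Fintype.ofFinite F
  classical
  by_contra hcon
  push Not at hcon
  have h1 : ({0, 1, x} : Finset F).card = 3 := by
    rw [Finset.card_eq_three]
    exact ⟨0, 1, x, zero_ne_one, hcon.1.symm, hcon.2.symm, rfl⟩
  have h2 := Finset.card_le_univ ({0, 1, x} : Finset F)
  rw [h1, ← Nat.card_eq_fintype_card] at h2
  omega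

section

variable (hA : B.IsAlt) (hN : B.Nondegenerate) (hL : L ≤ isomGroup B)
  (hNT : ∀ b ∈ Pts B L, ∀ c, HasRoot B L b 0 c → c = 0)
include hA hN hL hNT

/-- Uniqueness of the constant of a root element. -/
theorem root_uniq {b w : V} {c c' : F} (hb : b ∈ Pts B L) (hw : B w b = 0)
    (h : HasRoot B L b w c) (h' : HasRoot B L b w c') : c = c' := by
  have := hNT b hb _ (HasRoot.diff hA hw h h')
  exact CharTwo.add_eq_zero.mp this

/-- Rule (**): an element fixing `e` acting as a transvection on `e^⊥`. -/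
theorem rule_star {e y : V} {κ : V → F} (hκ : RootData B L e κ) {s : V ≃ₗ[F] V} (hs : s ∈ L)
    (hse : s e = e) {ζ : F} (hζ : ζ ≠ 0) (hsr : ∀ r, B r e = 0 → s r = r + (ζ * B r y) • y)
    (hye : B y e = 0) (hyne : y ∉ Submodule.span F {e}) (γ : F) : ζ * κ (γ • y) = γ ^ 2 := by
  obtain ⟨t, ht1, ht2⟩ := exists_sep hN hyne
  have hte : B t e = 0 := ht2 e (Submodule.mem_span_singleton_self e)
  set ρ : F := γ / ζ with hρ
  let r : V := ρ • t
  have hre : B r e = 0 := by simp [r, hte]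
  have hry : B r y = ρ := by simp [r, ht1]
  have hsr' : s r = r + γ • y := by
    rw [hsr r hre, hry, hρ]
    congr 2
    field_simp
  have h1 := (hκ.root r hre).conj hs (hL hs)
  rw [hse, hsr'] at h1
  have hγy : B (γ • y) e = 0 := by simp [hye]
  have h2 : B (r + γ • y) e = 0 := by simp [hre, hye]
  have h3 := root_uniq hA hN hL hNT ⟨κ, hκ⟩ h2 (hκ.root _ h2) h1
  rw [hκ.add _ _ hre hγy, map_smul, smul_eq_mul, hry] at h3
  have h4 : κ (γ • y) + γ * ρ = 0 := by
    have : κ r + κ (γ • y) + γ * ρ + κ r = 0 := by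
      rw [h3]
      exact CharTwo.add_self_eq_zero _
    grind
  have h5 : κ (γ • y) = γ * ρ := CharTwo.add_eq_zero.mp h4
  rw [h5, hρ]
  field_simp

set_option maxHeartbeats 4000000 in
/-- Pair lemma, case (i): both constants non-zero. -/
theorem pair_i {e e' w u : V} {κ κ' : V → F} (hκ : RootData B L e κ) (hκ' : RootData B L e' κ')
    (hee' : B e e' = 1) (hwe : B w e = 0) (hwe' : B w e' = 0) (hw0 : w ≠ 0) (hue : B u e = 0)
    (hue' : B u e' = 0) (huw : B u w = 1) {α β : F} (hα : κ (α • w) ≠ 0) (hβ : κ' (β • w) ≠ 0) :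
    κ (α • w) * β ^ 2 + κ' (β • w) * α ^ 2 = 0 := by
  set A := κ (α • w) with hAdef
  set C := κ' (β • w) with hCdef
  have hee : B e e = 0 := hA e
  have he'e' : B e' e' = 0 := hA e'
  have he'e : B e' e = 1 := by rw [B_comm hA, hee']
  have hew : B e w = 0 := B_zero_comm hA hwe
  have he'w : B e' w = 0 := B_zero_comm hA hwe'
  have heu : B e u = 0 := B_zero_comm hA hue
  have he'u : B e' u = 0 := B_zero_comm hA hue'
  have hwu : B w u = 1 := by rw [B_comm hA, huw]
  have hww : B w w = 0 := hA w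
  have huu : B u u = 0 := hA u
  obtain ⟨x, hx, hxi, hxv⟩ := (hκ.root (α • w) (by simp [hwe])).mem_isom hL
  obtain ⟨y, hy, hyi, hyv⟩ := (hκ'.root (β • w) (by simp [hwe'])).mem_isom hL
  rw [← hAdef] at hxv
  rw [← hCdef] at hyv
  have xe : x e = e := by rw [hxv]; simp [rootVec, hee, hew]
  have xw : x w = w := by rw [hxv]; simp [rootVec, hwe, hww]
  have xe' : x e' = e' + α • w + A • e := by rw [hxv]; simp [rootVec, he'e, he'w]
  have xu : x u = u + α • e := by rw [hxv]; simp [rootVec, hue, huw]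
  have ye' : y e' = e' := by rw [hyv]; simp [rootVec, he'e', he'w]
  have yw : y w = w := by rw [hyv]; simp [rootVec, hwe', hww]
  have ye : y e = e + β • w + C • e' := by rw [hyv]; simp [rootVec, hee', hew]
  have yu : y u = u + β • e' := by rw [hyv]; simp [rootVec, hue', huw]
  set g : V ≃ₗ[F] V := x * y with hg
  have hgL : g ∈ L := L.mul_mem hx hy
  have gap : ∀ v, g v = x (y v) := fun v => rfl
  have ge : g e = (1 + A * C) • e + C • e' + (β + α * C) • w := by
    rw [gap, ye, map_add, map_add, map_smul, map_smul, xe, xw, xe']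
    match_scalars <;> ring
  have ge' : g e' = e' + α • w + A • e := by rw [gap, ye', xe']
  have gw : g w = w := by rw [gap, yw, xw]
  have gu : g u = u + (α + β * A) • e + β • e' + (α * β) • w := by
    rw [gap, yu, map_add, map_smul, xu, xe']
    match_scalars <;> ring
  have gperp : ∀ v, B v e = 0 → B v e' = 0 → B v w = 0 → g v = v := by
    intro v h1 h2 h3
    have yv : y v = v := by rw [hyv]; simp [rootVec, h2, h3]
    rw [gap, yv, hxv]
    simp [rootVec, h1, h3]
  -- the block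
  let M : SL(2, F) := ⟨!![1 + A * C, A; C, 1], by
    rw [Matrix.det_fin_two_of]; ring⟩
  have hM00 : M.1 0 0 = 1 + A * C := rfl
  have hM01 : M.1 0 1 = A := rfl
  have hM10 : M.1 1 0 = C := rfl
  have hM11 : M.1 1 1 = 1 := rfl
  have hodd : Odd (orderOf M) := by
    apply Cfsg.Agent.Lib.Classical.TransvInv.odd_order
    rw [hM00, hM11]
    have : (1 + A * C) + 1 = A * C := by grind
    rw [this]
    exact mul_ne_zero hα hβ
  set N := orderOf M with hNdef
  have hMN : M ^ N = 1 := pow_orderOf_eq_one M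
  obtain ⟨ρ, σ, hρ, hσ⟩ := block_pow g (x := e) (y := e') (w := w) M (r := β + α * C) (s := α)
    (by rw [ge, hM00, hM10]) (by rw [ge', hM01, hM11]; match_scalars <;> ring) gw N
  rw [hMN] at hρ hσ
  simp only [Matrix.SpecialLinearGroup.coe_one, Matrix.one_apply_eq, one_smul,
    Matrix.one_apply_ne (zero_ne_one : (0 : Fin 2) ≠ 1),
    Matrix.one_apply_ne (one_ne_zero : (1 : Fin 2) ≠ 0), zero_smul, add_zero, zero_add] at hρ hσ
  set h : V ≃ₗ[F] V := g ^ N with hh
  have hhL : h ∈ L := L.pow_mem hgL N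
  have hw' : h w = w := fix_pow g gw N
  have hcomm : ∀ v, h (g v) = g (h v) := by
    intro v
    have : g ^ N * g = g * g ^ N := (pow_succ g N).symm.trans (pow_succ' g N)
    exact LinearEquiv.congr_fun this v
  -- constraints from commuting
  have c1 : (A * ρ + σ) • (C • w) = 0 := by
    have h1 := hcomm e
    rw [ge, map_add, map_add, map_smul, map_smul, map_smul, hρ, hσ, hw', map_add, map_smul, gw,
      ge] at h1
    have h2 : ((1 + A * C) • (e + ρ • w) + C • (e' + σ • w) + (β + α * C) • w)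
        + ((1 + A * C) • e + C • e' + (β + α * C) • w + ρ • w) = (A * ρ + σ) • (C • w) := by
      match_scalars <;> grind
    rw [← h2, h1]
    exact V_add_self F _
  have c2 : (A * ρ) • w = 0 := by
    have h1 := hcomm e'
    rw [ge', map_add, map_add, map_smul, map_smul, hσ, hρ, hw', map_add, map_smul, gw, ge'] at h1
    have h2 : (e' + σ • w + α • w + A • (e + ρ • w)) + (e' + α • w + A • e + σ • w)
        = (A * ρ) • w := by
      match_scalars <;> grind
    rw [← h2, h1]
    exact V_add_self F _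
  have hρ0 : ρ = 0 := by
    rcases smul_eq_zero.mp c2 with h0 | h0
    · exact (mul_eq_zero.mp h0).resolve_left hα
    · exact absurd h0 hw0
  have hσ0 : σ = 0 := by
    rw [hρ0, mul_zero, zero_add, smul_smul] at c1
    rcases smul_eq_zero.mp c1 with h0 | h0
    · exact (mul_eq_zero.mp h0).resolve_right hβ
    · exact absurd h0 hw0
  rw [hρ0, zero_smul, add_zero] at hρ
  rw [hσ0, zero_smul, add_zero] at hσ
  -- `h` on `u`
  have hkform : ∀ k : ℕ, ∃ a b c : F, (g ^ k) u = u + a • e + b • e' + c • w := by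
    intro k
    induction k with
    | zero => exact ⟨0, 0, 0, by simp⟩
    | succ k ih =>
      obtain ⟨a, b, c, habc⟩ := ih
      obtain ⟨ρ', σ', h1, h2⟩ := block_pow g (x := e) (y := e') (w := w) M (r := β + α * C) (s := α)
        (by rw [ge, hM00, hM10]) (by rw [ge', hM01, hM11]; match_scalars <;> ring) gw k
      have hwk := fix_pow g gw k
      refine ⟨a + (α + β * A) * (M ^ k).1 0 0 + β * (M ^ k).1 0 1,
        b + (α + β * A) * (M ^ k).1 1 0 + β * (M ^ k).1 1 1,
        c + (α + β * A) * ρ' + β * σ' + α * β, ?_⟩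
      rw [pow_apply_succ, gu, map_add, map_add, map_add, map_smul, map_smul, map_smul, habc, h1, h2,
        hwk]
      match_scalars <;> ring
  obtain ⟨a₁, b₁, c₁, hu₁⟩ := hkform N
  have hhi : h ∈ isomGroup B := hL hhL
  have hb₁ : b₁ = 0 := by
    have h1 := hhi u e
    rw [hρ, hue, hu₁] at h1
    simpa [hue, hee, he'e, hwe] using h1
  have ha₁ : a₁ = 0 := by
    have h1 := hhi u e'
    rw [hσ, hue', hu₁] at h1
    simpa [hue', hee', he'e', hwe'] using h1
  rw [ha₁, hb₁, zero_smul, zero_smul, add_zero, add_zero] at hu₁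
  -- `h` is a transvection
  have hform : ∀ v, h v = v + (c₁ * B v w) • w := by
    intro v
    set z : V := v + B v e' • e + B v e • e' + B v w • u with hz
    have hze : B z e = 0 := by
      simp only [hz, map_add, LinearMap.add_apply, map_smul, LinearMap.smul_apply, smul_eq_mul, hee,
        he'e, hue, mul_zero, mul_one, add_zero]
      exact CharTwo.add_self_eq_zero _
    have hze' : B z e' = 0 := by
      simp only [hz, map_add, LinearMap.add_apply, map_smul, LinearMap.smul_apply, smul_eq_mul, hee',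
        he'e', hue', mul_zero, mul_one, add_zero, zero_add]
      grind
    have hzw : B z w = 0 := by
      simp only [hz, map_add, LinearMap.add_apply, map_smul, LinearMap.smul_apply, smul_eq_mul, hew,
        he'w, huw, mul_zero, mul_one, add_zero]
      exact CharTwo.add_self_eq_zero _
    have hzfix : h z = z := fix_pow g (gperp z hze hze' hzw) N
    have hv : v = z + B v e' • e + B v e • e' + B v w • u := by
      simp only [hz]
      match_scalars <;> grind
    conv_lhs => rw [hv]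
    rw [map_add, map_add, map_add, map_smul, map_smul, map_smul, hzfix, hρ, hσ, hu₁, hz]
    match_scalars <;> grind
  -- the value of `c₁`
  set v₀ : V := (A * β) • e + (A * C) • u + (α * C) • e' with hv₀
  set D : F := A * β ^ 2 + C * α ^ 2 with hD
  have gv₀ : g v₀ = v₀ + D • w := by
    rw [hv₀, map_add, map_add, map_smul, map_smul, map_smul, ge, gu, ge']
    match_scalars <;> grind
  have hkv₀ : ∀ k : ℕ, (g ^ k) v₀ = v₀ + ((k : F) * D) • w := by
    intro k
    induction k with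
    | zero => simp
    | succ k ih =>
      rw [pow_apply_succ, gv₀, map_add, map_smul, ih, fix_pow g gw k]
      push_cast
      match_scalars <;> ring
  have hNF : (N : F) = 1 := by
    obtain ⟨m, hm⟩ := hodd
    rw [hm]
    push_cast
    grind
  have hhv₀ : h v₀ = v₀ + D • w := by
    have := hkv₀ N
    rwa [hNF, one_mul] at this
  have hcD : D = c₁ * (A * C) := by
    have h1 := hform v₀
    rw [hhv₀] at h1
    have h2 : B v₀ w = A * C := by
      simp [hv₀, hew, he'w, huw]
    rw [h2] at h1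
    have h3 : D • w = (c₁ * (A * C)) • w := add_left_cancel h1
    exact smul_left_injective F hw0 h3
  by_contra hne
  have hD0 : D ≠ 0 := hne
  have hc₁ : c₁ ≠ 0 := by
    rintro h0
    rw [h0, zero_mul] at hcD
    exact hD0 hcD
  have hwnee : w ∉ Submodule.span F {e} := by
    intro hm
    obtain ⟨t, ht⟩ := Submodule.mem_span_singleton.mp hm
    rw [← ht] at hwe' hw0
    simp [hee'] at hwe'
    rw [hwe'] at hw0
    simp at hw0
  have hwnee' : w ∉ Submodule.span F {e'} := by
    intro hm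
    obtain ⟨t, ht⟩ := Submodule.mem_span_singleton.mp hm
    rw [← ht] at hwe hw0
    simp [he'e] at hwe
    rw [hwe] at hw0
    simp at hw0
  have r1 := rule_star hA hN hL hNT hκ hhL hρ hc₁ (fun r hr => by rw [hform]) hwe hwnee α
  have r2 := rule_star hA hN hL hNT hκ' hhL hσ hc₁ (fun r hr => by rw [hform]) hwe' hwnee' β
  rw [← hAdef] at r1
  rw [← hCdef] at r2
  apply hD0
  rw [hD, ← r1, ← r2]
  grind

/-- Pair lemma, case (ii), the element `s`. -/
theorem pair_s {e e' w : V} {κ κ' : V → F} (hκ : RootData B L e κ) (hκ' : RootData B L e' κ')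
    (hee' : B e e' = 1) (hwe : B w e = 0) (hwe' : B w e' = 0) {α β : F} (hα : κ (α • w) = 0) :
    ∃ s ∈ L, ∀ v, s v = v + ((α ^ 2 * κ' (β • w)) * B v w) • w
      + (κ' ((α * κ' (β • w)) • w) * B v e') • e' := by
  set C := κ' (β • w) with hCdef
  have hee : B e e = 0 := hA e
  have he'e' : B e' e' = 0 := hA e'
  have he'e : B e' e = 1 := by rw [B_comm hA, hee']
  have hew : B e w = 0 := B_zero_comm hA hwe
  have he'w : B e' w = 0 := B_zero_comm hA hwe'
  have hww : B w w = 0 := hA w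
  obtain ⟨x, hx, hxv⟩ := hκ.root (α • w) (by simp [hwe])
  obtain ⟨y, hy, hyv⟩ := hκ'.root (β • w) (by simp [hwe'])
  rw [hα] at hxv
  rw [← hCdef] at hyv
  obtain ⟨z, hz, hzv⟩ := hκ'.root ((α * C) • w) (by simp [hwe'])
  set lam := κ' ((α * C) • w) with hlam
  have gv : ∀ v, (x * y) v = v + (α * B v w) • e + (β * B v w + C * B v e') • e'
      + (β * B v e' + α * (B v e + β * B v w + C * B v e')) • w := by
    intro v
    rw [LinearEquiv.mul_apply, hyv, hxv]
    simp only [rootVec, map_add, map_smul, LinearMap.add_apply, LinearMap.smul_apply, smul_eq_mul,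
      he'e, he'w, hew, hee, hww, hwe, hwe', zero_mul, mul_zero, add_zero, zero_add, mul_one,
      zero_smul, smul_zero]
    match_scalars <;> grind
  refine ⟨x * y * (x * y) * z, L.mul_mem (L.mul_mem (L.mul_mem hx hy) (L.mul_mem hx hy)) hz, ?_⟩
  intro v
  rw [LinearEquiv.mul_apply, LinearEquiv.mul_apply, hzv, gv, gv]
  simp only [rootVec, map_add, map_smul, LinearMap.add_apply, LinearMap.smul_apply, smul_eq_mul,
    he'e, he'w, hew, hee, he'e', hee', hww, hwe, hwe', zero_mul, mul_zero, add_zero, zero_add,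
    mul_one, zero_smul, smul_zero]
  match_scalars <;> grind

/-- Pair lemma, case (ii). -/
theorem pair_ii {e e' w : V} {κ κ' : V → F} (hκ : RootData B L e κ) (hκ' : RootData B L e' κ')
    (hee' : B e e' = 1) (hwe : B w e = 0) (hwe' : B w e' = 0) (hw0 : w ≠ 0) {α β : F} (hα0 : α ≠ 0)
    (hα : κ (α • w) = 0) (hβ : κ' (β • w) ≠ 0) :
    α * κ' (β • w) = β ∧ ∀ γ, (α * β) * κ' (γ • w) = γ ^ 2 := by
  obtain ⟨s, hs, hsv⟩ := pair_s hA hN hL hNT hκ hκ' hee' hwe hwe' (β := β) hα
  set C := κ' (β • w) with hCdef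
  have he'e' : B e' e' = 0 := hA e'
  have he'w : B e' w = 0 := B_zero_comm hA hwe'
  have hse' : s e' = e' := by
    rw [hsv]
    simp [he'e', he'w]
  have hwne : w ∉ Submodule.span F {e'} := by
    intro hm
    obtain ⟨t, ht⟩ := Submodule.mem_span_singleton.mp hm
    have he'e : B e' e = 1 := by rw [B_comm hA, hee']
    rw [← ht] at hwe hw0
    simp [he'e] at hwe
    rw [hwe] at hw0
    simp at hw0
  have hθ : α ^ 2 * C ≠ 0 := mul_ne_zero (pow_ne_zero _ hα0) hβ
  have key := rule_star hA hN hL hNT hκ' hs hse' hθ (fun r hr => by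
    rw [hsv, hr]
    simp) hwe' hwne
  have h1 : α * C = β := by
    apply eq_of_sq_eq
    have := key β
    rw [← hCdef] at this
    rw [← this]
    ring
  refine ⟨h1, fun γ => ?_⟩
  have := key γ
  rw [← this, ← h1]
  ring

/-- The conclusion of the pair lemma for `|F| > 2`. -/
theorem pair_big [Fact (2 < Nat.card F)] {e e' w : V} {κ κ' : V → F} (hκ : RootData B L e κ)
    (hκ' : RootData B L e' κ') (hee' : B e e' = 1) (hwe : B w e = 0) (hwe' : B w e' = 0) (α β : F) :
    κ (α • w) * β ^ 2 + κ' (β • w) * α ^ 2 = 0 := by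
  by_cases hw0 : w = 0
  · rw [hw0, smul_zero, smul_zero, hκ.zero, hκ'.zero]
    simp
  have he'e : B e' e = 1 := by rw [B_comm hA, hee']
  -- no mixed pattern
  have nomix : ∀ {e e' : V} {κ κ' : V → F}, RootData B L e κ → RootData B L e' κ' → B e e' = 1 →
      B w e = 0 → B w e' = 0 → ∀ α β : F, κ (α • w) = 0 → κ' (β • w) ≠ 0 → α = 0 := by
    intro e e' κ κ' hκ hκ' hee' hwe hwe' α β hA0 hC0
    by_contra hα0
    obtain ⟨h1, h2⟩ := pair_ii hA hN hL hNT hκ hκ' hee' hwe hwe' hw0 hα0 hA0 hC0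
    have hβ0 : β ≠ 0 := by
      rintro rfl
      rw [zero_smul, hκ'.zero] at hC0
      exact hC0 rfl
    obtain ⟨β', hβ'0, hβ'β⟩ := exists_third (0 : F) β
    have h3 := h2 β'
    have hC' : κ' (β' • w) ≠ 0 := by
      intro h0
      rw [h0, mul_zero] at h3
      exact pow_ne_zero 2 hβ'0 h3.symm
    obtain ⟨h4, -⟩ := pair_ii hA hN hL hNT hκ hκ' hee' hwe hwe' hw0 hα0 hA0 hC'
    apply hβ'β
    have h5 : β' * β' = β' * β := by
      calc β' * β' = β' ^ 2 := by ring
        _ = (α * β) * κ' (β' • w) := h3.symm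
        _ = (α * κ' (β' • w)) * β := by ring
        _ = β' * β := by rw [h4]
    exact mul_left_cancel₀ hβ'0 h5
  by_cases hA0 : κ (α • w) = 0
  · by_cases hC0 : κ' (β • w) = 0
    · rw [hA0, hC0]
      simp
    · have := nomix hκ hκ' hee' hwe hwe' α β hA0 hC0
      rw [this, zero_smul, hκ.zero]
      simp
  · by_cases hC0 : κ' (β • w) = 0
    · have := nomix hκ' hκ he'e hwe' hwe β α hC0 hA0
      rw [this, zero_smul, hκ'.zero]
      simp
    · obtain ⟨t, ht⟩ := exists_B_eq_one hN hw0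
      exact pair_i hA hN hL hNT hκ hκ' hee' hwe hwe' hw0 (perp_left hA hee' t) (perp_right hA hee' t)
        (by rw [B_comm hA, B_perp_of_perp hA hwe hwe', B_comm hA, ht]) hA0 hC0

/-- The pattern `(0,1)` occurs at most once, over the field with two elements. -/
theorem pattern_uniq (hq : ∀ x : F, x = 0 ∨ x = 1) {e e' w₁ w₂ : V} {κ κ' : V → F}
    (hκ : RootData B L e κ) (hκ' : RootData B L e' κ') (hee' : B e e' = 1)
    (h1e : B w₁ e = 0) (h1e' : B w₁ e' = 0) (h2e : B w₂ e = 0) (h2e' : B w₂ e' = 0)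
    (h10 : κ w₁ = 0) (h11 : κ' w₁ = 1) (h20 : κ w₂ = 0) (h21 : κ' w₂ = 1) : w₁ = w₂ := by
  have hee : B e e = 0 := hA e
  have he'e : B e' e = 1 := by rw [B_comm hA, hee']
  have key : ∀ w, B w e = 0 → B w e' = 0 → κ w = 0 → κ' w = 1 →
      ∃ c : V → F, (∀ x, B x e = 0 → B x e' = 0 → c x = κ x + B x w) ∧
        (∀ x, B x e = 0 → B x e' = 0 → HasRoot B L (e + e') x (c x)) ∧ e + e' ∈ Pts B L := by
    intro w hwe hwe' h0 h1
    have hew : B e w = 0 := B_zero_comm hA hwe
    have he'w : B e' w = 0 := B_zero_comm hA hwe'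
    have hww : B w w = 0 := hA w
    have h1w : κ' ((1 : F) • w) = 1 := by rw [one_smul, h1]
    have h0w : κ ((1 : F) • w) = 0 := by rw [one_smul, h0]
    obtain ⟨s, hs, hsv⟩ := pair_s hA hN hL hNT hκ hκ' hee' hwe hwe' (α := 1) (β := 1) h0w
    rw [h1w] at hsv
    simp only [one_pow, one_mul, one_smul, h1] at hsv
    have hse : s e = e + e' := by
      rw [hsv]
      simp [hew, hee']
    have hκs := hκ.conj hA hs (hL hs)
    rw [hse] at hκs
    refine ⟨fun x => κ (x + B x w • w), ?_, ?_, ⟨_, hκs⟩⟩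
    · intro x hxe hxe'
      have hρ : κ (B x w • w) = 0 := by
        rcases hq (B x w) with h | h
        · rw [h, zero_smul, hκ.zero]
        · rw [h, one_smul, h0]
      show κ (x + B x w • w) = κ x + B x w
      rw [hκ.add _ _ hxe (by simp [hwe]), hρ, add_zero, map_smul, smul_eq_mul]
      rcases hq (B x w) with h | h <;> simp [h]
    · intro x hxe hxe'
      have hr : B (x + B x w • w) e = 0 := by simp [hxe, hwe]
      have h2 := (hκ.root _ hr).conj hs (hL hs)
      rw [hse] at h2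
      have h3 : s (x + B x w • w) = x := by
        rw [hsv]
        simp only [map_add, LinearMap.add_apply, map_smul, LinearMap.smul_apply, smul_eq_mul, hww,
          hxe', hwe', mul_zero, add_zero, zero_smul]
        match_scalars <;> grind
      rwa [h3] at h2
  obtain ⟨c₁, hc₁, hr₁, hP⟩ := key w₁ h1e h1e' h10 h11
  obtain ⟨c₂, hc₂, hr₂, -⟩ := key w₂ h2e h2e' h20 h21
  apply V_eq_of_add_eq_zero F
  apply hN.2
  intro v
  set x := perp B e e' v with hx
  have hxe : B x e = 0 := perp_left hA hee' v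
  have hxe' : B x e' = 0 := perp_right hA hee' v
  have hxee : B x (e + e') = 0 := by simp [hxe, hxe']
  have h3 := root_uniq hA hN hL hNT hP hxee (hr₁ x hxe hxe') (hr₂ x hxe hxe')
  rw [hc₁ x hxe hxe', hc₂ x hxe hxe'] at h3
  have h4 : B x w₁ = B x w₂ := add_left_cancel h3
  have h5 : B v (w₁ + w₂) = B x (w₁ + w₂) := by
    rw [hx]
    simp only [perp, map_add, LinearMap.add_apply, map_smul, LinearMap.smul_apply, smul_eq_mul]
    rw [B_zero_comm hA h1e, B_zero_comm hA h2e, B_zero_comm hA h1e', B_zero_comm hA h2e']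
    ring
  rw [h5, map_add, h4]
  exact CharTwo.add_self_eq_zero _

/-- The conclusion of the pair lemma over the field with two elements, in dimension at least 6. -/
theorem pair_two (hq : ∀ x : F, x = 0 ∨ x = 1) (hdim : 6 ≤ Module.finrank F V) {e e' w₀ : V}
    {κ κ' : V → F} (hκ : RootData B L e κ) (hκ' : RootData B L e' κ') (hee' : B e e' = 1)
    (hwe : B w₀ e = 0) (hwe' : B w₀ e' = 0) : κ w₀ = κ' w₀ := by
  by_contra hne
  have he'e : B e' e = 1 := by rw [B_comm hA, hee']
  set ℓ : V → F := fun x => κ x + κ' x with hℓ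
  have hℓadd : ∀ x y, B x e = 0 → B x e' = 0 → B y e = 0 → B y e' = 0 → ℓ (x + y) = ℓ x + ℓ y := by
    intro x y h1 h2 h3 h4
    simp only [hℓ]
    rw [hκ.add _ _ h1 h3, hκ'.add _ _ h2 h4]
    grind
  have hℓ0 : ℓ w₀ = 1 := by
    rcases hq (ℓ w₀) with h | h
    · exact absurd (CharTwo.add_eq_zero.mp h) hne
    · exact h
  have pat : ∀ y, B y e = 0 → B y e' = 0 → ℓ y = 1 →
      (κ y = 0 ∧ κ' y = 1) ∨ (κ' y = 0 ∧ κ y = 1) := by
    intro y _ _ hy
    simp only [hℓ] at hy
    rcases hq (κ y) with h1 | h1 <;> rcases hq (κ' y) with h2 | h2 <;> simp_all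
    all_goals exact absurd hy (by simp [CharTwo.add_self_eq_zero])
  obtain ⟨t₁, ht₁⟩ := exists_notMem_span_of_card_lt (F := F) ![e, e', w₀] (by
    simp only [Fintype.card_fin]; omega)
  obtain ⟨t₂, ht₂⟩ := exists_notMem_span_of_card_lt (F := F) ![e, e', w₀, t₁] (by
    simp only [Fintype.card_fin]; omega)
  set u₁ := perp B e e' t₁ with hu₁
  set u₂ := perp B e e' t₂ with hu₂
  have h1e := perp_left hA hee' t₁
  have h1e' := perp_right hA hee' t₁
  have h2e := perp_left hA hee' t₂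
  have h2e' := perp_right hA hee' t₂
  rw [← hu₁] at h1e h1e'
  rw [← hu₂] at h2e h2e'
  -- the elements of the kernel
  have hk : ∀ u, B u e = 0 → B u e' = 0 → ℓ (u + ℓ u • w₀) = 0 := by
    intro u h1 h2
    rcases hq (ℓ u) with h | h
    · rw [h, zero_smul, add_zero, h]
    · rw [h, one_smul, hℓadd _ _ h1 h2 hwe hwe', h, hℓ0]
      exact CharTwo.add_self_eq_zero _
  set k₁ := u₁ + ℓ u₁ • w₀ with hk₁
  set k₂ := u₂ + ℓ u₂ • w₀ with hk₂
  have hk₁e : B k₁ e = 0 := by simp [hk₁, h1e, hwe]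
  have hk₁e' : B k₁ e' = 0 := by simp [hk₁, h1e', hwe']
  have hk₂e : B k₂ e = 0 := by simp [hk₂, h2e, hwe]
  have hk₂e' : B k₂ e' = 0 := by simp [hk₂, h2e', hwe']
  have hlk₁ : ℓ k₁ = 0 := hk _ h1e h1e'
  have hlk₂ : ℓ k₂ = 0 := hk _ h2e h2e'
  have m0 : ∀ i : Fin 3, ![e, e', w₀] i ∈ Submodule.span F (Set.range ![e, e', w₀]) :=
    fun i => Submodule.subset_span ⟨i, rfl⟩
  have m1 : ∀ i : Fin 4, ![e, e', w₀, t₁] i ∈ Submodule.span F (Set.range ![e, e', w₀, t₁]) :=
    fun i => Submodule.subset_span ⟨i, rfl⟩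
  have hk₁0 : k₁ ≠ 0 := by
    intro h0
    apply ht₁
    have h3 : t₁ = B t₁ e' • e + B t₁ e • e' + ℓ u₁ • w₀ := by
      have h4 : t₁ + B t₁ e' • e + B t₁ e • e' + ℓ u₁ • w₀ = 0 := h0
      have := V_eq_of_add_eq_zero F (u := t₁) (v := B t₁ e' • e + B t₁ e • e' + ℓ u₁ • w₀) (by
        rw [← h4]; abel)
      exact this
    rw [h3]
    exact Submodule.add_mem _ (Submodule.add_mem _ (Submodule.smul_mem _ _ (m0 0))
      (Submodule.smul_mem _ _ (m0 1))) (Submodule.smul_mem _ _ (m0 2))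
  have hk₂0 : k₂ ≠ 0 := by
    intro h0
    apply ht₂
    have h3 : t₂ = B t₂ e' • e + B t₂ e • e' + ℓ u₂ • w₀ := by
      have h4 : t₂ + B t₂ e' • e + B t₂ e • e' + ℓ u₂ • w₀ = 0 := h0
      have := V_eq_of_add_eq_zero F (u := t₂) (v := B t₂ e' • e + B t₂ e • e' + ℓ u₂ • w₀) (by
        rw [← h4]; abel)
      exact this
    rw [h3]
    exact Submodule.add_mem _ (Submodule.add_mem _ (Submodule.smul_mem _ _ (m1 0))
      (Submodule.smul_mem _ _ (m1 1))) (Submodule.smul_mem _ _ (m1 2))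
  have hk₁₂ : k₁ ≠ k₂ := by
    intro h0
    apply ht₂
    have h3 : t₂ = t₁ + (B t₁ e' + B t₂ e') • e + (B t₁ e + B t₂ e) • e'
        + (ℓ u₁ + ℓ u₂) • w₀ := by
      have h4 : (t₁ + B t₁ e' • e + B t₁ e • e' + ℓ u₁ • w₀)
          + (t₂ + B t₂ e' • e + B t₂ e • e' + ℓ u₂ • w₀) = 0 := by
        have := congrArg (· + k₂) h0
        simp only [V_add_self F] at this
        exact this
      have := V_eq_of_add_eq_zero F (u := t₂) (v := t₁ + (B t₁ e' + B t₂ e') • e
        + (B t₁ e + B t₂ e) • e' + (ℓ u₁ + ℓ u₂) • w₀) (by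
        rw [← h4]; match_scalars <;> grind)
      exact this
    rw [h3]
    exact Submodule.add_mem _ (Submodule.add_mem _ (Submodule.add_mem _ (m1 3)
      (Submodule.smul_mem _ _ (m1 0))) (Submodule.smul_mem _ _ (m1 1)))
      (Submodule.smul_mem _ _ (m1 2))
  have hy1 : ℓ (w₀ + k₁) = 1 := by rw [hℓadd _ _ hwe hwe' hk₁e hk₁e', hℓ0, hlk₁, add_zero]
  have hy2 : ℓ (w₀ + k₂) = 1 := by rw [hℓadd _ _ hwe hwe' hk₂e hk₂e', hℓ0, hlk₂, add_zero]
  have y1e : B (w₀ + k₁) e = 0 := by simp [hwe, hk₁e]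
  have y1e' : B (w₀ + k₁) e' = 0 := by simp [hwe', hk₁e']
  have y2e : B (w₀ + k₂) e = 0 := by simp [hwe, hk₂e]
  have y2e' : B (w₀ + k₂) e' = 0 := by simp [hwe', hk₂e']
  have uniq := fun {w₁ w₂ : V} => pattern_uniq hA hN hL hNT hq (w₁ := w₁) (w₂ := w₂) hκ hκ' hee'
  have uniq' := fun {w₁ w₂ : V} => pattern_uniq hA hN hL hNT hq (w₁ := w₁) (w₂ := w₂) hκ' hκ he'e
  have p1 : w₀ ≠ w₀ + k₁ := fun h => hk₁0 (by simpa using h)
  have p2 : w₀ ≠ w₀ + k₂ := fun h => hk₂0 (by simpa using h)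
  have p3 : w₀ + k₁ ≠ w₀ + k₂ := fun h => hk₁₂ (add_left_cancel h)
  rcases pat _ hwe hwe' hℓ0 with ⟨a1, a2⟩ | ⟨a1, a2⟩ <;>
  rcases pat _ y1e y1e' hy1 with ⟨b1, b2⟩ | ⟨b1, b2⟩ <;>
  rcases pat _ y2e y2e' hy2 with ⟨c1, c2⟩ | ⟨c1, c2⟩
  · exact p1 (uniq hwe hwe' y1e y1e' a1 a2 b1 b2)
  · exact p1 (uniq hwe hwe' y1e y1e' a1 a2 b1 b2)
  · exact p2 (uniq hwe hwe' y2e y2e' a1 a2 c1 c2)
  · exact p3 (uniq' y1e' y1e y2e' y2e b1 b2 c1 c2)
  · exact p3 (uniq y1e y1e' y2e y2e' b1 b2 c1 c2)
  · exact p2 (uniq' hwe' hwe y2e' y2e a1 a2 c1 c2)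
  · exact p1 (uniq' hwe' hwe y1e' y1e a1 a2 b1 b2)
  · exact p1 (uniq' hwe' hwe y1e' y1e a1 a2 b1 b2)

/-- **The pair lemma**, outside the case `|F| = 2`, `dim V = 4`. -/
theorem pair_agree (hbig : 2 < Nat.card F ∨ 6 ≤ Module.finrank F V) {e e' w : V}
    {κ κ' : V → F} (hκ : RootData B L e κ) (hκ' : RootData B L e' κ') (hee' : B e e' = 1)
    (hwe : B w e = 0) (hwe' : B w e' = 0) :
    κ w = κ' w ∧ ∀ α, κ (α • w) = α ^ 2 * κ w := by
  by_cases h2 : 2 < Nat.card F
  · haveI : Fact (2 < Nat.card F) := ⟨h2⟩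
    have h1 := pair_big hA hN hL hNT hκ hκ' hee' hwe hwe' 1 1
    simp only [one_smul, one_pow, mul_one] at h1
    have h3 : κ w = κ' w := CharTwo.add_eq_zero.mp h1
    refine ⟨h3, fun α => ?_⟩
    have h4 := pair_big hA hN hL hNT hκ hκ' hee' hwe hwe' α 1
    simp only [one_smul, one_pow, mul_one] at h4
    rw [CharTwo.add_eq_zero.mp h4, h3]
    ring
  · have hq := eq_zero_or_one_of_card_le (F := F) h2
    have h6 : 6 ≤ Module.finrank F V := hbig.resolve_left h2
    refine ⟨pair_two hA hN hL hNT hq h6 hκ hκ' hee' hwe hwe', fun α => ?_⟩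
    rcases hq α with h | h
    · rw [h, zero_smul, hκ.zero]
      simp
    · rw [h]
      simp

end

end Cfsg.Agent.Lib.SpRoot
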