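/-
The global quadratic form: glueing the forms attached to hyperbolic pairs.
-/
import Cfsg.Agent.Lib.SpRoot.Pair

set_option autoImplicit false
set_option linter.unusedSectionVars false
set_option linter.unusedVariables false
set_option linter.unusedSimpArgs false

namespace Cfsg.Agent.Lib.SpRoot

open Cfsg.Agent.Lib.Classical.Alt

variable {F V : Type*} [Field F] [Finite F] [CharP F 2] [AddCommGroup V] [Module F V]
  [FiniteDimensional F V]
variable {B : LinearMap.BilinForm F V} {L : Subgroup (V ≃ₗ[F] V)}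

variable (B) in
/-- A quadratic function with polar form `B`. -/
structure IsQF (Q : V → F) : Prop where
  smul : ∀ (s : F) (v : V), Q (s • v) = s ^ 2 * Q v
  add : ∀ u v, Q (u + v) = Q u + Q v + B u v

theorem IsQF.zero {Q : V → F} (hQ : IsQF B Q) : Q 0 = 0 := by
  have := hQ.smul 0 0
  simpa using this

variable (B L) in
/-- `Q` is good at `b`: `b` is singular and the root elements at `b` with constant given by `Q`
lie in `L`. -/
structure Good (Q : V → F) (b : V) : Prop where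
  sing : Q b = 0
  root : ∀ w, B w b = 0 → HasRoot B L b w (Q w)

theorem Good.rootData {Q : V → F} {b : V} (hQ : IsQF B Q) (hb : Good B L Q b) (h0 : b ≠ 0) :
    RootData B L b Q :=
  ⟨h0, hb.root, fun w w' _ _ => hQ.add w w', fun t => by rw [hQ.smul, hb.sing, mul_zero]⟩

theorem Good.mem {Q : V → F} {b : V} (hQ : IsQF B Q) (hb : Good B L Q b) (h0 : b ≠ 0) :
    b ∈ Pts B L := ⟨Q, hb.rootData hQ h0⟩

/-- Root elements preserve `Q`. -/
theorem rootVec_preserves {Q : V → F} (hA : B.IsAlt) (hQ : IsQF B Q) {b w : V} (hb : Q b = 0)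
    (hw : B w b = 0) (v : V) : Q (rootVec B b w (Q w) v) = Q v := by
  simp only [rootVec]
  rw [add_assoc, add_assoc, hQ.add, hQ.add, ← add_smul, hQ.smul, hQ.smul, hb]
  simp only [map_add, map_smul, LinearMap.add_apply, LinearMap.smul_apply, smul_eq_mul, hw,
    B_zero_comm hA hw, mul_zero, zero_add, add_zero]
  have := hA b
  grind

theorem Good.scale {Q : V → F} (hQ : IsQF B Q) {b : V} (hb : Good B L Q b) {s : F} (hs : s ≠ 0) :
    Good B L Q (s • b) := by
  refine ⟨by rw [hQ.smul, hb.sing, mul_zero], fun w hw => ?_⟩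
  rw [hasRoot_scale_iff, ← hQ.smul]
  refine hb.root _ ?_
  rw [map_smul, smul_eq_mul] at hw
  have hw' : B w b = 0 := (mul_eq_zero.mp hw).resolve_left hs
  simp [hw']

/-- Transport of goodness by an element of `L`. -/
theorem Good.conj {Q : V → F} {b : V} (hb : Good B L Q b) {g : V ≃ₗ[F] V} (hg : g ∈ L)
    (hgi : g ∈ isomGroup B) : Good B L (fun v => Q (g.symm v)) (g b) := by
  refine ⟨by simpa using hb.sing, fun w hw => ?_⟩
  have hs : g (g.symm w) = w := g.apply_symm_apply w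
  have h1 : B (g.symm w) b = 0 := by
    have := hgi (g.symm w) b
    rw [hs, hw] at this
    exact this.symm
  have := (hb.root _ h1).conj hg hgi
  rwa [hs] at this

theorem IsQF.conj {Q : V → F} (hQ : IsQF B Q) {g : V ≃ₗ[F] V} (hgi : g ∈ isomGroup B) :
    IsQF B (fun v => Q (g.symm v)) := by
  refine ⟨fun s v => by simp [hQ.smul], fun u v => ?_⟩
  simp only [map_add]
  rw [hQ.add]
  have hs : ∀ w, g (g.symm w) = w := fun w => g.apply_symm_apply w
  have := hgi (g.symm u) (g.symm v)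
  rw [hs, hs] at this
  rw [this]

/-- Goodness is preserved by an element of `L` preserving `Q`. -/
theorem Good.conj_fix {Q : V → F} {b : V} (hb : Good B L Q b) {g : V ≃ₗ[F] V} (hg : g ∈ L)
    (hgi : g ∈ isomGroup B) (hgQ : ∀ v, Q (g v) = Q v) : Good B L Q (g b) := by
  have h1 := hb.conj hg hgi
  have h2 : (fun v => Q (g.symm v)) = Q := by
    funext v
    have := hgQ (g.symm v)
    rw [g.apply_symm_apply] at this
    exact this.symm
  rwa [h2] at h1

section

variable (hA : B.IsAlt) (hN : B.Nondegenerate) (hL : L ≤ isomGroup B)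
  (hNT : ∀ b ∈ Pts B L, ∀ c, HasRoot B L b 0 c → c = 0)
  (hbig : 2 < Nat.card F ∨ 6 ≤ Module.finrank F V)
include hA hN hL hNT hbig

/-- The form attached to a hyperbolic pair. -/
theorem exists_pair_form {e e' : V} {κ κ' : V → F} (hκ : RootData B L e κ)
    (hκ' : RootData B L e' κ') (hee' : B e e' = 1) :
    ∃ Q, IsQF B Q ∧ Good B L Q e ∧ Good B L Q e' := by
  have he'e : B e' e = 1 := by rw [B_comm hA, hee']
  have hagree := fun {w : V} (h1 : B w e = 0) (h2 : B w e' = 0) =>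
    pair_agree hA hN hL hNT hbig hκ hκ' hee' h1 h2
  set P : V → V := fun v => perp B e e' v with hP
  have hPe : ∀ v, B (P v) e = 0 := perp_left hA hee'
  have hPe' : ∀ v, B (P v) e' = 0 := perp_right hA hee'
  have hPadd : ∀ u v, P (u + v) = P u + P v := by
    intro u v
    simp only [hP, perp, map_add, LinearMap.add_apply]
    match_scalars <;> ring
  have hPsmul : ∀ (s : F) v, P (s • v) = s • P v := by
    intro s v
    simp only [hP, perp, map_smul, LinearMap.smul_apply, smul_eq_mul]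
    match_scalars <;> ring
  have hPB : ∀ u v, B (P u) (P v) = B u v + B u e' * B v e + B u e * B v e' := by
    intro u v
    simp only [hP]
    rw [B_perp_of_perp hA (perp_left hA hee' u) (perp_right hA hee' u)]
    simp only [perp, map_add, LinearMap.add_apply, map_smul, LinearMap.smul_apply, smul_eq_mul]
    rw [B_comm hA e v, B_comm hA e' v]
  refine ⟨fun v => B v e * B v e' + κ (P v), ⟨?_, ?_⟩, ⟨?_, ?_⟩, ⟨?_, ?_⟩⟩
  · intro s v
    simp only [map_smul, LinearMap.smul_apply, smul_eq_mul, hPsmul]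
    rw [(hagree (hPe v) (hPe' v)).2 s]
    ring
  · intro u v
    simp only [map_add, LinearMap.add_apply, hPadd]
    rw [hκ.add _ _ (hPe u) (hPe v), hPB]
    grind
  · show B e e * B e e' + κ (P e) = 0
    have : P e = 0 := by
      simp only [hP, perp, hee', hA e, zero_smul, add_zero, one_smul]
      exact V_add_self F e
    rw [this, hκ.zero, hA e]
    simp
  · intro w hw
    show HasRoot B L e w (B w e * B w e' + κ (P w))
    have h1 : P w = w + B w e' • e := by
      simp [hP, perp, hw]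
    rw [hw, zero_mul, zero_add, h1, hκ.shift hA hw]
    exact hκ.root w hw
  · show B e' e * B e' e' + κ (P e') = 0
    have : P e' = 0 := by
      simp only [hP, perp, he'e, hA e', zero_smul, zero_add, one_smul, add_zero]
      exact V_add_self F e'
    rw [this, hκ.zero, hA e']
    simp
  · intro w hw
    show HasRoot B L e' w (B w e * B w e' + κ (P w))
    have h1 : P w = w + B w e • e' := by
      simp [hP, perp, hw]
    rw [hw, mul_zero, zero_add, (hagree (hPe w) (hPe' w)).1, h1, hκ'.shift hA hw]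
    exact hκ'.root w hw

/-- The same for arbitrary non-orthogonal points. -/
theorem exists_pair_form' {b b' : V} (hb : b ∈ Pts B L) (hb' : b' ∈ Pts B L) (hbb : B b b' ≠ 0) :
    ∃ Q, IsQF B Q ∧ Good B L Q b ∧ Good B L Q b' := by
  obtain ⟨κ, hκ⟩ := hb
  obtain ⟨κ', hκ'⟩ := hb'
  have hs : (B b b')⁻¹ ≠ 0 := inv_ne_zero hbb
  have hκ'' := hκ'.scale hA hs
  have h1 : B b ((B b b')⁻¹ • b') = 1 := by
    simp [hbb]
  obtain ⟨Q, hQ, h2, h3⟩ := exists_pair_form hA hN hL hNT hbig hκ hκ'' h1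
  refine ⟨Q, hQ, h2, ?_⟩
  have h4 := h3.scale hQ hbb
  rwa [smul_smul, mul_inv_cancel₀ hbb, one_smul] at h4

omit hbig in
/-- Two forms good at the same point differ by a square. -/
theorem good_uniq {Q Q' : V → F} {b : V} (hQ : IsQF B Q) (hQ' : IsQF B Q') (h : Good B L Q b)
    (h' : Good B L Q' b) (hb0 : b ≠ 0) : ∃ c : F, ∀ v, Q' v = Q v + c * (B v b) ^ 2 := by
  obtain ⟨p, hp⟩ := exists_B_eq_one hN hb0
  have hbP := h.mem hQ hb0
  have heq : ∀ w, B w b = 0 → Q w = Q' w := fun w hw =>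
    root_uniq hA hN hL hNT hbP hw (h.root w hw) (h'.root w hw)
  refine ⟨Q p + Q' p, fun v => ?_⟩
  set t := B v b with ht
  set w : V := v + t • p with hw
  have hwb : B w b = 0 := by
    simp only [hw, map_add, LinearMap.add_apply, map_smul, LinearMap.smul_apply, smul_eq_mul, hp,
      mul_one, ← ht]
    exact CharTwo.add_self_eq_zero _
  have hv : v = w + t • p := by
    rw [hw, add_assoc, V_add_self F, add_zero]
  rw [hv, hQ.add, hQ'.add, hQ.smul, hQ'.smul, ← heq w hwb]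
  grind

omit hL hNT in
/-- `Q` is not constant on the non-zero vectors of the complement of a hyperbolic pair. -/
theorem exists_perp_ne {Q : V → F} (hQ : IsQF B Q) (hdim : 3 ≤ Module.finrank F V) {e e' : V}
    (hee' : B e e' = 1) (c : F) : ∃ y, B y e = 0 ∧ B y e' = 0 ∧ y ≠ 0 ∧ Q y ≠ c := by
  by_contra hcon
  push Not at hcon
  obtain ⟨x₁, y₁, hx1e, hx1e', hy1e, hy1e', hxy⟩ := exists_hyp_perp hA hN hee' hdim
  have hx0 : x₁ ≠ 0 := by
    rintro rfl
    simp at hxy
  have hy0 : y₁ ≠ 0 := by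
    rintro rfl
    simp at hxy
  have hxy0 : x₁ + y₁ ≠ 0 := by
    intro h0
    have h1 : B x₁ (x₁ + y₁) = 1 := by simp [hA x₁, hxy]
    rw [h0] at h1
    simp at h1
  have hc1 : c = 1 := by
    have h1 := hcon (x₁ + y₁) (by simp [hx1e, hy1e]) (by simp [hx1e', hy1e']) hxy0
    rw [hQ.add, hcon x₁ hx1e hx1e' hx0, hcon y₁ hy1e hy1e' hy0, hxy] at h1
    grind
  by_cases h2 : 2 < Nat.card F
  · haveI : Fact (2 < Nat.card F) := ⟨h2⟩
    obtain ⟨s, hs0, hs1⟩ := exists_third (0 : F) 1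
    have h1 := hcon (s • x₁) (by simp [hx1e]) (by simp [hx1e']) (smul_ne_zero hs0 hx0)
    rw [hQ.smul, hcon x₁ hx1e hx1e' hx0, hc1, mul_one] at h1
    apply hs1
    have h3 : s ^ 2 = 1 ^ 2 := by rw [h1, one_pow]
    exact eq_of_sq_eq h3
  · have h6 : 6 ≤ Module.finrank F V := hbig.resolve_left h2
    obtain ⟨z, hz⟩ := exists_notMem_span_of_card_lt (F := F) ![e, e', x₁, y₁] (by
      simp only [Fintype.card_fin]; omega)
    have hyx : B y₁ x₁ = 1 := by rw [B_comm hA, hxy]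
    set z₁ := perp B e e' z with hz₁
    have hz1e : B z₁ e = 0 := perp_left hA hee' z
    have hz1e' : B z₁ e' = 0 := perp_right hA hee' z
    set z₂ := perp B x₁ y₁ z₁ with hz₂
    have hz2x : B z₂ x₁ = 0 := perp_left hA hxy z₁
    have hz2y : B z₂ y₁ = 0 := perp_right hA hxy z₁
    have hz2e : B z₂ e = 0 := by
      simp [hz₂, perp, hz1e, hx1e, hy1e]
    have hz2e' : B z₂ e' = 0 := by
      simp [hz₂, perp, hz1e', hx1e', hy1e']
    have hz20 : z₂ ≠ 0 := by
      intro h0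
      apply hz
      have h3 : z = B z e' • e + B z e • e' + B z₁ y₁ • x₁ + B z₁ x₁ • y₁ := by
        have h4 : z + B z e' • e + B z e • e' + B z₁ y₁ • x₁ + B z₁ x₁ • y₁ = 0 := h0
        exact V_eq_of_add_eq_zero F (u := z)
          (v := B z e' • e + B z e • e' + B z₁ y₁ • x₁ + B z₁ x₁ • y₁) (by rw [← h4]; abel)
      rw [h3]
      have m : ∀ i : Fin 4, ![e, e', x₁, y₁] i ∈ Submodule.span F (Set.range ![e, e', x₁, y₁]) :=
        fun i => Submodule.subset_span ⟨i, rfl⟩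
      exact Submodule.add_mem _ (Submodule.add_mem _ (Submodule.add_mem _
        (Submodule.smul_mem _ _ (m 0)) (Submodule.smul_mem _ _ (m 1)))
        (Submodule.smul_mem _ _ (m 2))) (Submodule.smul_mem _ _ (m 3))
    have hsum0 : x₁ + z₂ ≠ 0 := by
      intro h0
      have h1 : B (x₁ + z₂) y₁ = 1 := by simp [hxy, hz2y]
      rw [h0] at h1
      simp at h1
    have h1 := hcon (x₁ + z₂) (by simp [hx1e, hz2e]) (by simp [hx1e', hz2e']) hsum0
    rw [hQ.add, hcon x₁ hx1e hx1e' hx0, hcon z₂ hz2e hz2e' hz20,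
      B_comm hA x₁ z₂, hz2x, hc1] at h1
    grind

/-- Well-definedness of the form attached to a point, normalised version. -/
theorem welldef_norm {Q₁ Q₂ : V → F} (hQ₁ : IsQF B Q₁) (hQ₂ : IsQF B Q₂)
    (hdim : 3 ≤ Module.finrank F V) {b p₁ p₂ : V} (hb0 : b ≠ 0)
    (hp₁ : B p₁ b = 1) (hp₂ : B p₂ b = 1)
    (h1b : Good B L Q₁ b) (h1p : Good B L Q₁ p₁) (h2b : Good B L Q₂ b) (h2p : Good B L Q₂ p₂) :
    Q₁ = Q₂ := by
  have hbp₁ : B b p₁ = 1 := by rw [B_comm hA, hp₁]
  have hbp₂ : B b p₂ = 1 := by rw [B_comm hA, hp₂]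
  have hp₂0 : p₂ ≠ 0 := by
    rintro rfl
    simp at hp₂
  obtain ⟨y, hyb, hyp, hy0, hyQ⟩ := exists_perp_ne hA hN hbig hQ₁ hdim hbp₁ (Q₁ p₂)
  set t := Q₁ (p₂ + y) with ht
  set p' : V := p₂ + y + t • b with hp'
  have hQp' : Q₁ p' = 0 := by
    rw [hp', hQ₁.add, hQ₁.smul, h1b.sing, ← ht]
    simp only [map_add, LinearMap.add_apply, map_smul, smul_eq_mul, hp₂, hyb, add_zero, mul_zero,
      mul_one]
    exact CharTwo.add_self_eq_zero _
  have hp'b : B p' b = 1 := by
    simp [hp', hp₂, hyb, hA b]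
  -- reaching `p'` from `p₁`
  set w : V := p' + p₁ with hw
  have hwb : B w b = 0 := by
    simp only [hw, map_add, LinearMap.add_apply, hp'b, hp₁]
    exact CharTwo.add_self_eq_zero _
  obtain ⟨x, hx, hxv⟩ := h1b.root w hwb
  have hxi := hL hx
  have hxQ : ∀ v, Q₁ (x v) = Q₁ v := fun v => by
    rw [hxv, rootVec_preserves hA hQ₁ h1b.sing hwb]
  have hxp : x p₁ = p' := by
    rw [hxv, rootVec, hp₁]
    have h3 : Q₁ w + B p₁ w = 0 := by
      have h4 : p' = p₁ + w := by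
        rw [hw, add_comm p', ← add_assoc, V_add_self F, zero_add]
      have h5 := hQp'
      rw [h4, hQ₁.add, h1p.sing, zero_add] at h5
      exact h5
    rw [one_smul, mul_one, add_assoc, ← add_smul, add_comm (B p₁ w), h3, zero_smul, add_zero, hw,
      add_comm p', ← add_assoc, V_add_self F, zero_add]
  have hgp' : Good B L Q₁ p' := by
    have := h1p.conj_fix hx hxi hxQ
    rwa [hxp] at this
  have hp'0 : p' ≠ 0 := by
    intro h0
    rw [h0] at hp'b
    simp at hp'b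
  have hp'p₂ : B p' p₂ = Q₁ p₂ + Q₁ y := by
    have h3 : t = Q₁ p₂ + Q₁ y + B p₂ y := hQ₁.add _ _
    have h4 : B y p₂ = B p₂ y := B_comm hA _ _
    simp only [hp', map_add, LinearMap.add_apply, map_smul, LinearMap.smul_apply, smul_eq_mul,
      hbp₂, hA p₂, zero_add, mul_one, h4]
    rw [h3]
    grind
  have hp'p₂0 : B p' p₂ ≠ 0 := by
    rw [hp'p₂]
    intro h0
    exact hyQ (CharTwo.add_eq_zero.mp h0).symm
  obtain ⟨Q₃, hQ₃, h3p', h3p₂⟩ := exists_pair_form' hA hN hL hNT hbig (hgp'.mem hQ₁ hp'0)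
    (h2p.mem hQ₂ hp₂0) hp'p₂0
  obtain ⟨c₁, hc₁⟩ := good_uniq hA hN hL hNT hQ₁ hQ₂ h1b h2b hb0
  obtain ⟨c₂, hc₂⟩ := good_uniq hA hN hL hNT hQ₁ hQ₃ hgp' h3p' hp'0
  obtain ⟨c₃, hc₃⟩ := good_uniq hA hN hL hNT hQ₂ hQ₃ h2p h3p₂ hp₂0
  -- test vector
  obtain ⟨r, hr⟩ := exists_B_eq_one hN hy0
  set y' := perp B b p₁ r with hy'
  have hy'b : B y' b = 0 := perp_left hA hbp₁ r
  have hy'p₁ : B y' p₁ = 0 := perp_right hA hbp₁ r
  have hy'y : B y' y = 1 := by
    rw [B_comm hA, B_perp_of_perp hA hyb hyp, B_comm hA, hr]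
  set β : F := B p₁ p₂ + t * B y' p₂ with hβ
  set v : V := p₁ + β • b + t • y' with hv
  have hvb : B v b = 1 := by simp [hv, hp₁, hA b, hy'b]
  have hvy : B v y = t := by
    have h3 : B p₁ y = 0 := B_zero_comm hA hyp
    have h4 : B b y = 0 := B_zero_comm hA hyb
    simp [hv, h3, h4, hy'y]
  have hvp₂ : B v p₂ = 0 := by
    simp only [hv, map_add, LinearMap.add_apply, map_smul, LinearMap.smul_apply, smul_eq_mul, hbp₂,
      mul_one, hβ]
    grind
  have hvp' : B v p' = 0 := by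
    simp only [hp', map_add, map_smul, smul_eq_mul, hvp₂, hvy, hvb, zero_add, mul_one]
    exact CharTwo.add_self_eq_zero _
  have e1 := hc₁ v
  have e2 := hc₂ v
  have e3 := hc₃ v
  rw [hvb] at e1
  rw [hvp'] at e2
  rw [hvp₂] at e3
  have hc0 : c₁ = 0 := by
    have h5 : Q₂ v = Q₁ v := by
      have h6 : Q₃ v = Q₁ v := by rw [e2]; simp
      have h7 : Q₃ v = Q₂ v := by rw [e3]; simp
      rw [← h7, h6]
    rw [h5] at e1
    have h8 : Q₁ v + c₁ * 1 ^ 2 = Q₁ v + 0 := by rw [← e1, add_zero]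
    have h9 := add_left_cancel h8
    simpa using h9
  funext u
  rw [hc₁ u, hc0]
  simp

/-- Well-definedness of the form attached to a point. -/
theorem welldef {Q₁ Q₂ : V → F} (hQ₁ : IsQF B Q₁) (hQ₂ : IsQF B Q₂)
    (hdim : 3 ≤ Module.finrank F V) {b p₁ p₂ : V} (hb0 : b ≠ 0)
    (hp₁ : B p₁ b ≠ 0) (hp₂ : B p₂ b ≠ 0)
    (h1b : Good B L Q₁ b) (h1p : Good B L Q₁ p₁) (h2b : Good B L Q₂ b) (h2p : Good B L Q₂ p₂) :
    Q₁ = Q₂ := by
  refine welldef_norm hA hN hL hNT hbig hQ₁ hQ₂ hdim hb0 (p₁ := (B p₁ b)⁻¹ • p₁)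
    (p₂ := (B p₂ b)⁻¹ • p₂) ?_ ?_ h1b (h1p.scale hQ₁ (inv_ne_zero hp₁)) h2b
    (h2p.scale hQ₂ (inv_ne_zero hp₂))
  · simp [hp₁]
  · simp [hp₂]

/-- **The global form.** -/
theorem exists_global_form
    (hirr : ∀ W : Submodule F V, (∀ g ∈ L, ∀ w ∈ W, g w ∈ W) → W = ⊥ ∨ W = ⊤)
    (hdim : 3 ≤ Module.finrank F V) {a : V} (ha : a ∈ Pts B L) :
    ∃ Q, IsQF B Q ∧ ∀ b ∈ Pts B L, Good B L Q b := by
  have ha0 : a ≠ 0 := (Pts.ne ha)
  obtain ⟨g, hg, hg0⟩ := exists_conj_ne hN hirr ha0 ha0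
  have hpP : g a ∈ Pts B L := Pts.conj hA ha hg (hL hg)
  set p := g a with hp
  have hp0 : p ≠ 0 := (Pts.ne hpP)
  have hap : B a p ≠ 0 := by rwa [B_comm hA]
  obtain ⟨Q, hQ, hQa, hQp⟩ := exists_pair_form' hA hN hL hNT hbig ha hpP hap
  let G : V → Prop := fun b => Good B L Q b ∧ ∃ b₀, b₀ ≠ 0 ∧ Good B L Q b₀ ∧ B b₀ b ≠ 0
  have hGa : G a := ⟨hQa, p, hp0, hQp, hg0⟩
  have hstep : ∀ b, G b → b ∈ Pts B L → ∀ b' ∈ Pts B L, B b' b ≠ 0 → G b' := by
    rintro b ⟨hb, b₀, hb₀0, hb₀, hb₀b⟩ hbP b' hb'P hb'b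
    have hbb' : B b b' ≠ 0 := by rwa [B_comm hA]
    obtain ⟨Q', hQ', hQ'b, hQ'b'⟩ := exists_pair_form' hA hN hL hNT hbig hbP hb'P hbb'
    have hE := welldef hA hN hL hNT hbig hQ hQ' hdim (Pts.ne hbP) hb₀b hb'b hb hb₀ hQ'b hQ'b'
    rw [← hE] at hQ'b'
    exact ⟨hQ'b', b, (Pts.ne hbP), hb, hbb'⟩
  refine ⟨Q, hQ, fun b' hb' => ?_⟩
  by_cases h1 : B b' a = 0
  · by_cases h2 : b' ∈ Submodule.span F {a}
    · obtain ⟨t, ht⟩ := Submodule.mem_span_singleton.mp h2
      rw [← ht] at hb' ⊢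
      have ht0 : t ≠ 0 := by
        rintro rfl
        rw [zero_smul] at hb'
        exact (Pts.ne hb') rfl
      exact hQa.scale hQ ht0
    · obtain ⟨r, hr1, hr2⟩ := exists_sep hN h2
      have hra : B r a = 0 := hr2 a (Submodule.mem_span_singleton_self a)
      set A := B p a with hA'
      have hA0 : A ≠ 0 := hg0
      set θ : F := A⁻¹ * (1 + B p b') with hθ
      set w : V := θ • r with hw
      have hwa : B w a = 0 := by simp [hw, hra]
      obtain ⟨x, hx, hxv⟩ := hQa.root w hwa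
      have hxQ : ∀ v, Q (x v) = Q v := fun v => by
        rw [hxv, rootVec_preserves hA hQ hQa.sing hwa]
      have hxa : x a = a := by
        rw [hxv, rootVec, hA a, B_zero_comm hA hwa]
        simp
      have hx1 : G (x p) := by
        refine ⟨hQp.conj_fix hx (hL hx) hxQ, a, ha0, hQa, ?_⟩
        have h3 := hL hx a p
        rw [hxa] at h3
        rw [h3]
        exact hap
      have hx1P : x p ∈ Pts B L := Pts.conj hA hpP hx (hL hx)
      have h4 : B b' (x p) ≠ 0 := by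
        rw [B_comm hA, hxv, rootVec]
        have h5 : B a b' = 0 := B_zero_comm hA h1
        simp only [map_add, LinearMap.add_apply, map_smul, LinearMap.smul_apply, smul_eq_mul, h5,
          mul_zero, add_zero, ← hA']
        have h6 : B w b' = θ := by simp [hw, hr1]
        rw [h6, hθ]
        field_simp
        grind
      exact (hstep _ hx1 hx1P b' hb' h4).1
  · exact (hstep a hGa ha b' hb' h1).1

/-- **`L` preserves the global form.** -/
theorem preserves_global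
    (hirr : ∀ W : Submodule F V, (∀ g ∈ L, ∀ w ∈ W, g w ∈ W) → W = ⊥ ∨ W = ⊤) {a : V}
    (ha : a ∈ Pts B L) {Q : V → F} (hQ : IsQF B Q) (hG : ∀ b ∈ Pts B L, Good B L Q b)
    {g : V ≃ₗ[F] V} (hg : g ∈ L) (v : V) : Q (g v) = Q v := by
  have hgi := hL hg
  have hQ' : IsQF B (fun v => Q (g.symm v)) := hQ.conj hgi
  have hG' : ∀ b ∈ Pts B L, Good B L (fun v => Q (g.symm v)) b := by
    intro b hb
    have h1 : g⁻¹ ∈ L := L.inv_mem hg
    have h2 : g.symm b ∈ Pts B L := Pts.conj hA hb h1 (hL h1)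
    have h3 := (hG _ h2).conj hg hgi
    rwa [g.apply_symm_apply] at h3
  have ha0 : a ≠ 0 := (Pts.ne ha)
  obtain ⟨k, hk, hk0⟩ := exists_conj_ne hN hirr ha0 ha0
  have hkP : k a ∈ Pts B L := Pts.conj hA ha hk (hL hk)
  obtain ⟨c₁, hc₁⟩ := good_uniq hA hN hL hNT hQ hQ' (hG a ha) (hG' a ha) ha0
  obtain ⟨c₂, hc₂⟩ := good_uniq hA hN hL hNT hQ hQ' (hG _ hkP) (hG' _ hkP) (Pts.ne hkP)
  have hane : a ∉ Submodule.span F {k a} := by
    intro hm
    obtain ⟨t, ht⟩ := Submodule.mem_span_singleton.mp hm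
    apply hk0
    have h0 : B (k a) (t • k a) = 0 := by simp [hA (k a)]
    rwa [ht] at h0
  obtain ⟨r, hr1, hr2⟩ := exists_sep hN hane
  have hrk : B r (k a) = 0 := hr2 _ (Submodule.mem_span_singleton_self _)
  have e1 := hc₁ r
  have e2 := hc₂ r
  rw [hr1] at e1
  rw [hrk] at e2
  have hc0 : c₁ = 0 := by
    have h3 : Q r + c₁ * 1 ^ 2 = Q r + c₂ * 0 ^ 2 := by rw [← e1, ← e2]
    have h4 := add_left_cancel h3
    simpa using h4
  have e3 := hc₁ (g v)
  rw [hc0] at e3
  simp only [LinearEquiv.symm_apply_apply, zero_mul, add_zero] at e3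
  exact e3.symm

end

end Cfsg.Agent.Lib.SpRoot
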