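/-
The orthogonal group of the global form: generation, transitivity on vectors of norm one.
-/
import Cfsg.Agent.Lib.SpRoot.Glue

set_option autoImplicit false
set_option linter.unusedSectionVars false
set_option linter.unusedVariables false
set_option linter.unusedSimpArgs false

namespace Cfsg.Agent.Lib.SpRoot

open Cfsg.Agent.Lib.Classical.Alt

variable {F V : Type*} [Field F] [Finite F] [CharP F 2] [AddCommGroup V] [Module F V]
  [FiniteDimensional F V]
variable {B : LinearMap.BilinForm F V} {L : Subgroup (V ≃ₗ[F] V)}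

/-- The isometry group of a function. -/
def orthGroup (Q : V → F) : Subgroup (V ≃ₗ[F] V) where
  carrier := {g | ∀ v, Q (g v) = Q v}
  mul_mem' := by
    intro a b ha hb v
    show Q (a (b v)) = Q v
    rw [ha, hb]
  one_mem' := fun v => rfl
  inv_mem' := by
    intro a ha v
    have h := ha (a⁻¹ v)
    have h1 : a (a⁻¹ v) = v := by
      change (a * a⁻¹) v = v
      simp
    rw [h1] at h
    exact h.symm

theorem mem_orthGroup {Q : V → F} {g : V ≃ₗ[F] V} : g ∈ orthGroup Q ↔ ∀ v, Q (g v) = Q v := Iff.rfl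

theorem IsQF.B_eq {Q : V → F} (hQ : IsQF B Q) (u v : V) : B u v = Q (u + v) + Q u + Q v := by
  rw [hQ.add]
  grind

theorem orth_le_isom {Q : V → F} (hQ : IsQF B Q) : orthGroup Q ≤ isomGroup B := by
  intro g hg u v
  rw [hQ.B_eq u v, hQ.B_eq (g u) (g v), ← map_add, hg, hg, hg]

variable (B) in
/-- Root elements of a quadratic function. -/
def rootSet (Q : V → F) : Set (V ≃ₗ[F] V) :=
  {g | ∃ b w, b ≠ 0 ∧ Q b = 0 ∧ B w b = 0 ∧ ∀ v, g v = rootVec B b w (Q w) v}

variable (B) in
/-- The group generated by root elements. -/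
def rootGroup (Q : V → F) : Subgroup (V ≃ₗ[F] V) := Subgroup.closure (rootSet B Q)

theorem rootSet_subset_orth {Q : V → F} (hA : B.IsAlt) (hQ : IsQF B Q) :
    rootSet B Q ⊆ orthGroup Q := by
  rintro g ⟨b, w, -, hb, hw, hg⟩ v
  rw [hg, rootVec_preserves hA hQ hb hw]

theorem rootGroup_le_orth {Q : V → F} (hA : B.IsAlt) (hQ : IsQF B Q) :
    rootGroup B Q ≤ orthGroup Q :=
  (Subgroup.closure_le _).mpr (rootSet_subset_orth hA hQ)

/-- The reflection `v ↦ v + B(v,u) u`. -/
theorem refl_apply (hA : B.IsAlt) (u v : V) : tv hA u 1 v = v + B v u • u := by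
  rw [tv_apply, one_mul]

theorem refl_mem_orth {Q : V → F} (hA : B.IsAlt) (hQ : IsQF B Q) {u : V} (hu : Q u = 1) :
    tv hA u 1 ∈ orthGroup Q := by
  intro v
  rw [refl_apply, hQ.add, hQ.smul, hu, map_smul, smul_eq_mul]
  grind

theorem refl_mul_self (hA : B.IsAlt) (u : V) : tv hA u 1 * tv hA u 1 = 1 := by
  ext v
  simp only [LinearEquiv.mul_apply, refl_apply, map_add, map_smul, LinearMap.add_apply,
    LinearMap.smul_apply, smul_eq_mul, hA u, LinearEquiv.coe_one, id]
  match_scalars <;> grind

/-- Conjugates of reflections. -/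
theorem conj_refl (hA : B.IsAlt) {g : V ≃ₗ[F] V} (hg : g ∈ isomGroup B) (u : V) :
    g * tv hA u 1 * g⁻¹ = tv hA (g u) 1 := by
  ext v
  have h1 : g (g⁻¹ v) = v := by
    change (g * g⁻¹) v = v
    simp
  simp only [LinearEquiv.mul_apply, refl_apply, map_add, map_smul, h1]
  have h2 := hg (g⁻¹ v) u
  rw [h1] at h2
  rw [h2]

/-- The root element as a linear automorphism. -/
noncomputable def rootEquiv (hA : B.IsAlt) (e w : V) (c : F) (hw : B w e = 0) : V ≃ₗ[F] V :=
  LinearEquiv.ofInvolutive
    { toFun := rootVec B e w c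
      map_add' := fun u v => by
        simp only [rootVec, map_add, LinearMap.add_apply]
        match_scalars <;> ring
      map_smul' := fun s v => by
        simp only [rootVec, map_smul, LinearMap.smul_apply, smul_eq_mul, RingHom.id_apply]
        match_scalars <;> ring }
    (fun v => by
      show rootVec B e w c (rootVec B e w c v) = v
      rw [rootVec_comp hA c c hw hw, V_add_self F, hA w, add_zero, CharTwo.add_self_eq_zero]
      simp [rootVec])

theorem rootEquiv_apply (hA : B.IsAlt) (e w : V) (c : F) (hw : B w e = 0) (v : V) :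
    rootEquiv hA e w c hw v = rootVec B e w c v := rfl

section

variable (hA : B.IsAlt) (hN : B.Nondegenerate) {Q : V → F} (hQ : IsQF B Q)
include hA hN hQ

/-- Orthogonality of the fixed space and the image of `g - 1`. -/
theorem fix_perp {g : V ≃ₗ[F] V} (hg : g ∈ isomGroup B) {x : V} (hx : g x = x) (v : V) :
    B x (g v + v) = 0 := by
  have h1 := hg x v
  rw [hx] at h1
  rw [map_add, h1]
  exact CharTwo.add_self_eq_zero _

/-- The step of Scherk's induction. -/
theorem exists_gen_step {g : V ≃ₗ[F] V} (hg : g ∈ orthGroup Q) (hg1 : g ≠ 1) :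
    ∃ v t, g v ≠ v ∧ (t ∈ rootSet B Q ∨ ∃ u, Q u = 1 ∧ t = tv hA u 1) ∧ (∀ x, g x = x → t x = x) ∧
      t v = g v := by
  have hgi := orth_le_isom hQ hg
  by_cases hc : ∃ v, Q (g v + v) ≠ 0
  · obtain ⟨v, hv⟩ := hc
    have hne : g v ≠ v := by
      intro h0
      rw [h0, V_add_self F] at hv
      exact hv hQ.zero
    set y := g v + v with hy
    obtain ⟨r, hr⟩ := exists_sqrtF (Q y)
    have hr0 : r ≠ 0 := by
      rintro rfl
      apply hv
      rw [← hr]
      simp
    set u : V := r⁻¹ • y with hu
    have hQu : Q u = 1 := by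
      rw [hu, hQ.smul, ← hr]
      field_simp
    have hQy : Q y = B v y := by
      have h1 : Q y = Q (g v) + Q v + B (g v) v := hQ.add _ _
      rw [hg v] at h1
      have h2 : B v y = B v (g v) := by
        rw [hy, map_add, hA v, add_zero]
      rw [h2, B_comm hA, h1]
      grind
    refine ⟨v, tv hA u 1, hne, Or.inr ⟨u, hQu, rfl⟩, fun x hx => ?_, ?_⟩
    · rw [refl_apply, hu, map_smul, fix_perp hA hN hQ hgi hx]
      simp
    · have hvu : B v u = r := by
        rw [hu, map_smul, smul_eq_mul, ← hQy, ← hr]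
        field_simp
      rw [refl_apply, hvu, hu, smul_smul, mul_inv_cancel₀ hr0, one_smul, hy, add_comm (g v),
        ← add_assoc, V_add_self F, zero_add]
  · push Not at hc
    obtain ⟨v, hne⟩ : ∃ v, g v ≠ v := by
      by_contra hcon
      push Not at hcon
      exact hg1 (LinearEquiv.ext hcon)
    set y := g v + v with hy
    have hy0 : y ≠ 0 := by
      intro h0
      exact hne (V_eq_of_add_eq_zero F h0)
    have hQy : Q y = 0 := hc v
    have hiso : ∀ x x', B (g x + x) (g x' + x') = 0 := by
      intro x x'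
      rw [hQ.B_eq, hc x, hc x']
      have : g x + x + (g x' + x') = g (x + x') + (x + x') := by
        rw [map_add]
        abel
      rw [this, hc]
      simp
    obtain ⟨x, hx⟩ : ∃ x, B v (g x + x) ≠ 0 := by
      by_contra hcon
      push Not at hcon
      apply hy0
      apply hN.1
      intro z
      have h1 := hcon (g⁻¹ z)
      have h2 : g (g⁻¹ z) = z := by
        change (g * g⁻¹) z = z
        simp
      rw [map_add, h2] at h1
      have h3 := hgi v (g⁻¹ z)
      rw [h2] at h3
      rw [hy, map_add, LinearMap.add_apply, h3, add_comm, ← h1]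
    set s := (B v (g x + x))⁻¹ with hs
    have hs0 : s ≠ 0 := inv_ne_zero hx
    set w : V := s • (g x + x) with hw
    have hvw : B v w = 1 := by
      rw [hw, map_smul, smul_eq_mul, hs]
      exact inv_mul_cancel₀ hx
    have hQw : Q w = 0 := by
      rw [hw, hQ.smul, hc, mul_zero]
    have hwy : B w y = 0 := by
      rw [hw, map_smul, LinearMap.smul_apply, hiso, smul_zero]
    have hvy : B v y = 0 := by
      have h1 : Q y = Q (g v) + Q v + B (g v) v := hQ.add _ _
      rw [hg v, hQy] at h1
      have h2 : B (g v) v = 0 := by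
        have h3 : Q v + Q v + B (g v) v = 0 := h1.symm
        rw [CharTwo.add_self_eq_zero, zero_add] at h3
        exact h3
      rw [hy, map_add, hA v, add_zero, B_comm hA, h2]
    refine ⟨v, rootEquiv hA y w 0 hwy, hne, Or.inl ⟨y, w, hy0, hQy, hwy, fun z => ?_⟩, ?_, ?_⟩
    · rw [rootEquiv_apply, hQw]
    · intro z hz
      rw [rootEquiv_apply, rootVec, fix_perp hA hN hQ hgi hz, hw, map_smul,
        fix_perp hA hN hQ hgi hz]
      simp
    · rw [rootEquiv_apply, rootVec, hvy, hvw, zero_smul, one_smul, hy, mul_zero, zero_smul,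
        add_zero, add_zero, add_comm v, add_assoc, V_add_self F, add_zero]

/-- Scherk's generation theorem. -/
theorem orth_le_of_gens (D : Subgroup (V ≃ₗ[F] V)) (h1 : rootSet B Q ⊆ D)
    (h2 : ∀ u, Q u = 1 → tv hA u 1 ∈ D) : orthGroup Q ≤ D := by
  -- induction on the codimension of the fixed space
  have key : ∀ n : ℕ, ∀ g ∈ orthGroup Q,
      Module.finrank F V - Module.finrank F (LinearMap.ker ((g : V →ₗ[F] V) - LinearMap.id)) = n →
      g ∈ D := by
    intro n
    induction n using Nat.strong_induction_on with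
    | _ n ih =>
      intro g hg hn
      by_cases hg1 : g = 1
      · rw [hg1]
        exact D.one_mem
      obtain ⟨v, t, hv, ht, htfix, htv⟩ := exists_gen_step hA hN hQ hg hg1
      have htO : t ∈ orthGroup Q := by
        rcases ht with ht | ⟨u, hu, rfl⟩
        · exact rootSet_subset_orth hA hQ ht
        · exact refl_mem_orth hA hQ hu
      have htD : t ∈ D := by
        rcases ht with ht | ⟨u, hu, rfl⟩
        · exact h1 ht
        · exact h2 u hu
      have hsymm : ∀ z, t⁻¹ (t z) = z := fun z => by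
        change (t⁻¹ * t) z = z
        simp
      set g' : V ≃ₗ[F] V := t⁻¹ * g with hg'
      have hg'O : g' ∈ orthGroup Q := (orthGroup Q).mul_mem ((orthGroup Q).inv_mem htO) hg
      have hlt : LinearMap.ker ((g : V →ₗ[F] V) - LinearMap.id)
          < LinearMap.ker ((g' : V →ₗ[F] V) - LinearMap.id) := by
        have hfix : ∀ (k : V ≃ₗ[F] V) (x : V), x ∈ LinearMap.ker ((k : V →ₗ[F] V) - LinearMap.id) ↔
            k x = x := by
          intro k x
          simp only [LinearMap.mem_ker, LinearMap.sub_apply, LinearEquiv.coe_coe, LinearMap.id_coe,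
            id_eq, sub_eq_zero]
        refine lt_of_le_of_ne (fun x hx => ?_) (fun he => ?_)
        · rw [hfix] at hx ⊢
          show t⁻¹ (g x) = x
          rw [hx]
          have := hsymm x
          rwa [htfix x hx] at this
        · have hv' : v ∈ LinearMap.ker ((g' : V →ₗ[F] V) - LinearMap.id) := by
            rw [hfix]
            show t⁻¹ (g v) = v
            rw [← htv, hsymm]
          rw [← he, hfix] at hv'
          exact hv hv'
      have hlt2 := Submodule.finrank_lt_finrank_of_lt hlt
      have hle := Submodule.finrank_le (LinearMap.ker ((g' : V →ₗ[F] V) - LinearMap.id))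
      have := ih _ (by omega) g' hg'O rfl
      have hg'' : g = t * g' := by
        rw [hg', mul_inv_cancel_left]
      rw [hg'']
      exact D.mul_mem htD this
  intro g hg
  exact key _ g hg rfl

/-- Root elements are permuted by conjugation. -/
theorem rootSet_conj {g t : V ≃ₗ[F] V} (hg : g ∈ orthGroup Q) (ht : t ∈ rootSet B Q) :
    g * t * g⁻¹ ∈ rootSet B Q := by
  obtain ⟨b, w, hb0, hb, hw, htv⟩ := ht
  have hgi := orth_le_isom hQ hg
  refine ⟨g b, g w, g.map_ne_zero_iff.mpr hb0, by rw [hg, hb], by rw [hgi, hw], fun v => ?_⟩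
  have h1 : g (g⁻¹ v) = v := by
    change (g * g⁻¹) v = v
    simp
  rw [LinearEquiv.mul_apply, LinearEquiv.mul_apply, htv, apply_rootVec g hgi, h1, hg]

theorem rootGroup_conj {g t : V ≃ₗ[F] V} (hg : g ∈ orthGroup Q) (ht : t ∈ rootGroup B Q) :
    g * t * g⁻¹ ∈ rootGroup B Q := by
  have key : ∀ t ∈ rootGroup B Q, g * t * g⁻¹ ∈ rootGroup B Q := by
    intro t ht
    induction ht using Subgroup.closure_induction with
    | mem x hx => exact Subgroup.subset_closure (rootSet_conj hA hN hQ hg hx)
    | one => simp [Subgroup.one_mem]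
    | mul x y _ _ hx hy =>
      have : g * (x * y) * g⁻¹ = (g * x * g⁻¹) * (g * y * g⁻¹) := by group
      rw [this]
      exact Subgroup.mul_mem _ hx hy
    | inv x _ hx =>
      have : g * x⁻¹ * g⁻¹ = (g * x * g⁻¹)⁻¹ := by group
      rw [this]
      exact Subgroup.inv_mem _ hx
  exact key t ht

/-- Non-zero values of `Q` on the complement of a hyperbolic pair. -/
theorem exists_perp_Q_ne_zero (hdim : 3 ≤ Module.finrank F V) {e e' : V} (hee' : B e e' = 1) :
    ∃ y, B y e = 0 ∧ B y e' = 0 ∧ Q y ≠ 0 := by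
  obtain ⟨x₁, y₁, hx1e, hx1e', hy1e, hy1e', hxy⟩ := exists_hyp_perp hA hN hee' hdim
  by_cases h1 : Q x₁ = 0
  · by_cases h2 : Q y₁ = 0
    · refine ⟨x₁ + y₁, by simp [hx1e, hy1e], by simp [hx1e', hy1e'], ?_⟩
      rw [hQ.add, h1, h2, hxy]
      simp
    · exact ⟨y₁, hy1e, hy1e', h2⟩
  · exact ⟨x₁, hx1e, hx1e', h1⟩

/-- Vectors of norm one exist. -/
theorem exists_norm_one (hdim : 3 ≤ Module.finrank F V) : ∃ u, Q u = 1 := by
  have hV : ∃ x : V, x ≠ 0 := by
    by_contra hcon
    push Not at hcon
    have : Subsingleton V := ⟨fun a b => by rw [hcon a, hcon b]⟩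
    rw [Module.finrank_zero_of_subsingleton] at hdim
    omega
  obtain ⟨x, hx⟩ := hV
  obtain ⟨t, ht⟩ := exists_B_eq_one hN hx
  obtain ⟨y, -, -, hy⟩ := exists_perp_Q_ne_zero hA hN hQ hdim ht
  obtain ⟨r, hr⟩ := exists_sqrtF (Q y)⁻¹
  refine ⟨r • y, ?_⟩
  rw [hQ.smul, hr]
  exact inv_mul_cancel₀ hy

/-- Transitivity on vectors of norm one. -/
theorem norm_one_transitive (hdim : 3 ≤ Module.finrank F V) {u v : V} (hu : Q u = 1) (hv : Q v = 1) :
    ∃ t ∈ rootGroup B Q, t u = v := by
  by_cases hd : B u v = 0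
  · by_cases huv : u = v
    · exact ⟨1, Subgroup.one_mem _, huv⟩
    set b := u + v with hb
    have hQb : Q b = 0 := by
      rw [hb, hQ.add, hu, hv, hd, add_zero]
      exact CharTwo.add_self_eq_zero _
    have hb0 : b ≠ 0 := fun h0 => huv (V_eq_of_add_eq_zero F h0)
    have hun : u ∉ Submodule.span F {b} := by
      intro hm
      obtain ⟨s, hs⟩ := Submodule.mem_span_singleton.mp hm
      rw [← hs, hQ.smul, hQb, mul_zero] at hu
      exact zero_ne_one hu
    obtain ⟨w, hw1, hw2⟩ := exists_sep hN hun
    have hwb : B w b = 0 := hw2 b (Submodule.mem_span_singleton_self b)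
    refine ⟨rootEquiv hA b w (Q w) hwb, Subgroup.subset_closure ⟨b, w, hb0, hQb, hwb, fun z => rfl⟩,
      ?_⟩
    have hub : B u b = 0 := by rw [hb, map_add, hA u, hd, add_zero]
    rw [rootEquiv_apply, rootVec, hub, B_comm hA u w, hw1, hb]
    simp only [zero_smul, mul_zero, add_zero, one_smul]
    rw [← add_assoc, V_add_self F, zero_add]
  · set d := B u v with hddef
    have hvu : B v u = d := B_comm hA _ _
    have hee' : B u (d⁻¹ • v) = 1 := by
      rw [map_smul, smul_eq_mul, ← hddef]
      exact inv_mul_cancel₀ hd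
    obtain ⟨y₀, hy0u, hy0v', hy0Q⟩ := exists_perp_Q_ne_zero hA hN hQ hdim hee'
    have hy0v : B y₀ v = 0 := by
      rw [map_smul, smul_eq_mul] at hy0v'
      exact (mul_eq_zero.mp hy0v').resolve_left (inv_ne_zero hd)
    obtain ⟨α, hα⟩ := exists_sqrtF (d / Q y₀)
    set y : V := α • y₀ with hy
    have hyu : B y u = 0 := by simp [hy, hy0u]
    have hyv : B y v = 0 := by simp [hy, hy0v]
    have hQy : Q y = d := by
      rw [hy, hQ.smul, hα]
      field_simp
    have huy : B u y = 0 := B_zero_comm hA hyu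
    have hvy : B v y = 0 := B_zero_comm hA hyv
    set b : V := u + v + y with hb
    have hQuv : Q (u + v) = d := by
      rw [hQ.add, hu, hv, ← hddef, CharTwo.add_self_eq_zero, zero_add]
    have hQb : Q b = 0 := by
      rw [hb, hQ.add, hQuv, hQy, map_add, LinearMap.add_apply, huy, hvy, add_zero, add_zero]
      exact CharTwo.add_self_eq_zero _
    have hub : B u b = d := by
      simp [hb, hA u, huy, ← hddef]
    have hvb : B v b = d := by
      simp [hb, hA v, hvy, hvu]
    have hb0 : b ≠ 0 := by
      intro h0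
      rw [h0] at hub
      simp at hub
      exact hd hub.symm
    set w : V := d⁻¹ • (u + v) with hw
    have hwb : B w b = 0 := by
      rw [hw, map_smul, LinearMap.smul_apply, LinearMap.map_add₂, hub, hvb,
        CharTwo.add_self_eq_zero, smul_zero]
    refine ⟨rootEquiv hA b w (Q w) hwb, Subgroup.subset_closure ⟨b, w, hb0, hQb, hwb, fun z => rfl⟩,
      ?_⟩
    have huw : B u w = 1 := by
      rw [hw, map_smul, map_add, hA u, zero_add, ← hddef, smul_eq_mul]
      exact inv_mul_cancel₀ hd
    have hQw : Q w * d = 1 := by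
      rw [hw, hQ.smul, hQuv]
      field_simp
    rw [rootEquiv_apply, rootVec, hub, huw, hQw, one_smul, hw, smul_smul,
      mul_inv_cancel₀ hd, one_smul, ← add_assoc u u v, V_add_self F, zero_add, add_assoc,
      V_add_self F, add_zero]

/-- `O(Q)` is the union of the root group and one coset. -/
theorem orth_dichotomy (hdim : 3 ≤ Module.finrank F V) {u₀ : V} (hu₀ : Q u₀ = 1) {g : V ≃ₗ[F] V}
    (hg : g ∈ orthGroup Q) : g ∈ rootGroup B Q ∨ tv hA u₀ 1 * g ∈ rootGroup B Q := by
  set τ := tv hA u₀ 1 with hτ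
  have hτO : τ ∈ orthGroup Q := refl_mem_orth hA hQ hu₀
  have hτ2 : τ * τ = 1 := refl_mul_self hA u₀
  have hτinv : τ⁻¹ = τ := inv_eq_of_mul_eq_one_left hτ2
  have hconj : ∀ t ∈ rootGroup B Q, τ * t * τ ∈ rootGroup B Q := by
    intro t ht
    have := rootGroup_conj hA hN hQ hτO ht
    rwa [hτinv] at this
  let D : Subgroup (V ≃ₗ[F] V) :=
    { carrier := {g | g ∈ rootGroup B Q ∨ τ * g ∈ rootGroup B Q}
      one_mem' := Or.inl (Subgroup.one_mem _)
      mul_mem' := by
        rintro a b (ha | ha) (hb | hb)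
        · exact Or.inl (Subgroup.mul_mem _ ha hb)
        · right
          have h1 : τ * (a * b) = (τ * a * τ) * (τ * b) := by
            calc τ * (a * b) = τ * a * 1 * b := by group
              _ = τ * a * (τ * τ) * b := by rw [hτ2]
              _ = _ := by group
          rw [h1]
          exact Subgroup.mul_mem _ (hconj a ha) hb
        · right
          rw [← mul_assoc]
          exact Subgroup.mul_mem _ ha hb
        · left
          have h1 : a * b = (τ * (τ * a) * τ) * (τ * b) := by
            calc a * b = 1 * a * 1 * b := by group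
              _ = (τ * τ) * a * (τ * τ) * b := by rw [hτ2]
              _ = _ := by group
          rw [h1]
          exact Subgroup.mul_mem _ (hconj _ ha) hb
      inv_mem' := by
        rintro a (ha | ha)
        · exact Or.inl (Subgroup.inv_mem _ ha)
        · right
          have h1 : τ * a⁻¹ = τ * (τ * a)⁻¹ * τ := by
            rw [mul_inv_rev, hτinv]
            have : τ * (a⁻¹ * τ) * τ = τ * a⁻¹ * (τ * τ) := by group
            rw [this, hτ2, mul_one]
          rw [h1]
          exact hconj _ (Subgroup.inv_mem _ ha) }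
  have hD : orthGroup Q ≤ D := by
    refine orth_le_of_gens hA hN hQ D (fun t ht => Or.inl (Subgroup.subset_closure ht)) ?_
    intro u hu
    right
    obtain ⟨t, ht, htu⟩ := norm_one_transitive hA hN hQ hdim hu₀ hu
    have htO := rootGroup_le_orth hA hQ ht
    have h1 : tv hA u 1 = t * τ * t⁻¹ := by
      rw [← htu, hτ, conj_refl hA (orth_le_isom hQ htO)]
    rw [h1]
    have h2 : τ * (t * τ * t⁻¹) = (τ * t * τ) * t⁻¹ := by group
    rw [h2]
    exact Subgroup.mul_mem _ (hconj t ht) (Subgroup.inv_mem _ ht)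
  exact hD hg

end

end Cfsg.Agent.Lib.SpRoot
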