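/-
The parity of `rank (g - 1)` on the orthogonal group.
-/
import Cfsg.Agent.Lib.SpRoot.Omega

set_option autoImplicit false
set_option linter.unusedSectionVars false
set_option linter.unusedVariables false
set_option linter.unusedSimpArgs false

namespace Cfsg.Agent.Lib.SpRoot

open Cfsg.Agent.Lib.Classical.Alt

variable {F V : Type*} [Field F] [Finite F] [CharP F 2] [AddCommGroup V] [Module F V]
  [FiniteDimensional F V]
variable {B : LinearMap.BilinForm F V} {L : Subgroup (V ≃ₗ[F] V)}

/-- The rank of `g - 1`. -/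
noncomputable def rk (g : V ≃ₗ[F] V) : ℕ :=
  Module.finrank F (LinearMap.range ((g : V →ₗ[F] V) - LinearMap.id))

/-- The fixed space. -/
def fixS (g : V ≃ₗ[F] V) : Submodule F V := LinearMap.ker ((g : V →ₗ[F] V) - LinearMap.id)

theorem mem_fixS {g : V ≃ₗ[F] V} {x : V} : x ∈ fixS g ↔ g x = x := by
  simp only [fixS, LinearMap.mem_ker, LinearMap.sub_apply, LinearEquiv.coe_coe, LinearMap.id_coe,
    id_eq, sub_eq_zero]

theorem rk_add_fix (g : V ≃ₗ[F] V) : rk g + Module.finrank F (fixS g) = Module.finrank F V :=
  LinearMap.finrank_range_add_finrank_ker _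

section

variable (hA : B.IsAlt) (hN : B.Nondegenerate) {Q : V → F} (hQ : IsQF B Q)
include hA hN hQ

/-- The effect of a reflection on the fixed space. -/
theorem fix_refl {g : V ≃ₗ[F] V} (hg : g ∈ orthGroup Q) {u : V} (hu : Q u = 1) :
    Module.finrank F (fixS (g * tv hA u 1)) = Module.finrank F (fixS g) + 1 ∨
      Module.finrank F (fixS g) = Module.finrank F (fixS (g * tv hA u 1)) + 1 := by
  have hgi := orth_le_isom hQ hg
  have hu0 : u ≠ 0 := by
    rintro rfl
    rw [hQ.zero] at hu
    exact zero_ne_one hu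
  have hact : ∀ x, (g * tv hA u 1) x = g x + B x u • g u := by
    intro x
    rw [LinearEquiv.mul_apply, refl_apply, map_add, map_smul]
  by_cases hc : ∃ x, g x = x ∧ B x u ≠ 0
  · right
    obtain ⟨x, hx, hxu⟩ := hc
    have hsub : ∀ v, (g * tv hA u 1) v = v → g v = v ∧ B v u = 0 := by
      intro v hv
      rw [hact] at hv
      have h1 : B (g v) x + B v u * B (g u) x = B v x := by
        have := congrArg (fun z => B z x) hv
        simpa using this
      have h2 : B (g v) x = B v x := by
        have := hgi v x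
        rwa [hx] at this
      have h3 : B (g u) x = B u x := by
        have := hgi u x
        rwa [hx] at this
      rw [h2, h3] at h1
      have h4 : B v u * B u x = 0 := by grind
      have h5 : B u x ≠ 0 := by rwa [B_comm hA]
      have h6 : B v u = 0 := (mul_eq_zero.mp h4).resolve_right h5
      rw [h6, zero_smul, add_zero] at hv
      exact ⟨hv, h6⟩
    have hxn : x ∉ fixS (g * tv hA u 1) := by
      intro hm
      exact hxu (hsub x (mem_fixS.mp hm)).2
    have hE : fixS g = fixS (g * tv hA u 1) ⊔ Submodule.span F {x} := by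
      apply le_antisymm
      · intro y hy
        rw [mem_fixS] at hy
        set s := B y u / B x u with hs
        have h1 : y + s • x ∈ fixS (g * tv hA u 1) := by
          rw [mem_fixS, hact]
          have h2 : B (y + s • x) u = 0 := by
            simp only [map_add, LinearMap.add_apply, map_smul, LinearMap.smul_apply, smul_eq_mul, hs]
            rw [div_mul_cancel₀ _ hxu]
            exact CharTwo.add_self_eq_zero _
          rw [h2, zero_smul, add_zero, map_add, map_smul, hy, hx]
        have h3 : y = (y + s • x) + s • x := by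
          rw [add_assoc, V_add_self F, add_zero]
        rw [h3]
        exact Submodule.add_mem _ (Submodule.mem_sup_left h1)
          (Submodule.mem_sup_right (Submodule.smul_mem _ _ (Submodule.mem_span_singleton_self x)))
      · refine sup_le (fun v hv => mem_fixS.mpr (hsub v (mem_fixS.mp hv)).1) ?_
        rw [Submodule.span_singleton_le_iff_mem]
        exact mem_fixS.mpr hx
    rw [hE]
    exact Submodule.finrank_sup_span_singleton hxn
  · left
    push Not at hc
    -- `g u` lies in the image of `g - 1`
    obtain ⟨v, hv⟩ : ∃ v, g v + v = g u := by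
      by_contra hcon
      have hn : g u ∉ LinearMap.range ((g : V →ₗ[F] V) - LinearMap.id) := by
        rintro ⟨v, hv⟩
        apply hcon
        refine ⟨v, ?_⟩
        rw [← hv]
        simp only [LinearMap.sub_apply, LinearEquiv.coe_coe, LinearMap.id_coe, id_eq]
        rw [V_sub F]
      obtain ⟨t, ht1, ht2⟩ := exists_sep hN hn
      have htfix : g t = t := by
        apply V_eq_of_add_eq_zero F
        apply hN.1
        intro z
        have hz : g (g⁻¹ z) = z := by
          change (g * g⁻¹) z = z
          simp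
        have h1 := ht2 (g (g⁻¹ z) - g⁻¹ z) ⟨g⁻¹ z, by simp⟩
        rw [V_sub F, map_add, hz] at h1
        have h2 := hgi t (g⁻¹ z)
        rw [hz] at h2
        rw [LinearMap.map_add₂, h2, add_comm]
        exact h1
      have := hc t htfix
      have h3 := hgi t u
      rw [htfix, this] at h3
      rw [h3] at ht1
      exact zero_ne_one ht1
    have hg1 : g (v + u) = v := by
      rw [map_add, ← hv, ← add_assoc, V_add_self F, zero_add]
    have hvu : B v u = 1 := by
      have h1 := hg (v + u)
      rw [hg1, hQ.add, hu] at h1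
      grind
    have hv' : v ∉ fixS g := by
      intro hm
      rw [mem_fixS] at hm
      rw [hm, V_add_self F] at hv
      exact hu0 (g.map_eq_zero_iff.mp hv.symm)
    have hE : fixS (g * tv hA u 1) = fixS g ⊔ Submodule.span F {v} := by
      apply le_antisymm
      · intro x hx
        rw [mem_fixS, hact] at hx
        set s := B x u with hs
        have h1 : x + s • v ∈ fixS g := by
          rw [mem_fixS, map_add, map_smul]
          have h2 : g x = x + s • g u := by
            conv_rhs => rw [← hx]
            rw [add_assoc, V_add_self F, add_zero]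
          rw [h2, ← hv]
          match_scalars <;> grind
        have h3 : x = (x + s • v) + s • v := by
          rw [add_assoc, V_add_self F, add_zero]
        rw [h3]
        exact Submodule.add_mem _ (Submodule.mem_sup_left h1)
          (Submodule.mem_sup_right (Submodule.smul_mem _ _ (Submodule.mem_span_singleton_self v)))
      · refine sup_le (fun x hx => ?_) ?_
        · rw [mem_fixS] at hx ⊢
          rw [hact, hc x hx, zero_smul, add_zero, hx]
        · rw [Submodule.span_singleton_le_iff_mem, mem_fixS, hact, hvu, one_smul, ← hv,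
            ← add_assoc, V_add_self F, zero_add]
    rw [hE]
    exact Submodule.finrank_sup_span_singleton hv'

theorem even_rk_refl {g : V ≃ₗ[F] V} (hg : g ∈ orthGroup Q) {u : V} (hu : Q u = 1) :
    Even (rk (g * tv hA u 1)) ↔ ¬ Even (rk g) := by
  have h1 := rk_add_fix g
  have h2 := rk_add_fix (g * tv hA u 1)
  have h3 := fix_refl hA hN hQ hg hu
  have h4 : rk g = rk (g * tv hA u 1) + 1 ∨ rk (g * tv hA u 1) = rk g + 1 := by omega
  rcases h4 with h | h
  · rw [h, Nat.even_add_one, not_not]
  · rw [h, Nat.even_add_one]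

/-- Root elements with non-zero constant are products of two reflections. -/
theorem even_rk_root_ne {g x : V ≃ₗ[F] V} (hg : g ∈ orthGroup Q) (hdim : True) {b w : V}
    (hb : Q b = 0) (hw : B w b = 0) (hwQ : Q w ≠ 0) (hx : ∀ v, x v = rootVec B b w (Q w) v) :
    Even (rk (g * x)) ↔ Even (rk g) := by
  obtain ⟨t, ht⟩ := exists_sqrtF (Q w)
  have ht0 : t ≠ 0 := by
    rintro rfl
    apply hwQ
    rw [← ht]
    simp
  set u : V := t⁻¹ • w with hu
  set u' : V := u + t • b with hu'
  have hQu : Q u = 1 := by
    rw [hu, hQ.smul, ← ht]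
    field_simp
  have hub : B u b = 0 := by simp [hu, hw]
  have hQu' : Q u' = 1 := by
    have h0 : Q u' = Q u + Q (t • b) + B u (t • b) := hQ.add _ _
    rw [h0, hQ.smul t b, hb, hQu, map_smul, hub]
    simp
  have hbu : B b u = 0 := B_zero_comm hA hub
  have hE : x = tv hA u 1 * tv hA u' 1 := by
    ext v
    have h1 : B u' u = 0 := by simp [hu', hA u, hbu]
    have h2 : B v u' = B v u + t * B v b := by simp [hu']
    have h3 : B v w = t * B v u := by
      rw [hu, map_smul, smul_eq_mul]
      field_simp
    rw [hx, LinearEquiv.mul_apply, refl_apply, refl_apply, rootVec]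
    simp only [map_add, LinearMap.add_apply, map_smul, LinearMap.smul_apply, smul_eq_mul, h1,
      mul_zero, add_zero, h2, h3]
    have h4 : w = t • u := by
      rw [hu, smul_smul, mul_inv_cancel₀ ht0, one_smul]
    rw [← ht, h4, hu']
    match_scalars <;> grind
  have hg1 : g * tv hA u 1 ∈ orthGroup Q :=
    (orthGroup Q).mul_mem hg (refl_mem_orth hA hQ hQu)
  rw [hE, ← mul_assoc, even_rk_refl hA hN hQ hg1 hQu', even_rk_refl hA hN hQ hg hQu, not_not]

end

/-! ### Adding a hyperbolic plane -/

variable (B) in
/-- The orthogonal sum with a hyperbolic plane. -/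
noncomputable def prodForm : LinearMap.BilinForm F (V × F × F) :=
  LinearMap.mk₂ F (fun x y => B x.1 y.1 + x.2.1 * y.2.2 + x.2.2 * y.2.1)
    (fun a b c => by simp only [Prod.fst_add, Prod.snd_add, map_add, LinearMap.add_apply]; ring)
    (fun s a b => by
      simp only [Prod.smul_fst, Prod.smul_snd, map_smul, LinearMap.smul_apply, smul_eq_mul]; ring)
    (fun a b c => by simp only [Prod.fst_add, Prod.snd_add, map_add]; ring)
    (fun s a b => by
      simp only [Prod.smul_fst, Prod.smul_snd, map_smul, smul_eq_mul]; ring)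

theorem prodForm_apply (x y : V × F × F) :
    prodForm B x y = B x.1 y.1 + x.2.1 * y.2.2 + x.2.2 * y.2.1 := rfl

theorem prodForm_alt (hA : B.IsAlt) : (prodForm B).IsAlt := by
  intro x
  rw [prodForm_apply, hA]
  grind

theorem prodForm_nondeg (hA : B.IsAlt) (hN : B.Nondegenerate) : (prodForm B).Nondegenerate := by
  have hL : LinearMap.SeparatingLeft (prodForm B) := by
    intro x hx
    ext1
    · apply hN.1
      intro z
      have := hx (z, 0, 0)
      rw [prodForm_apply] at this
      simpa using this
    · ext1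
      · have := hx (0, 0, 1)
        rw [prodForm_apply] at this
        simpa using this
      · have := hx (0, 1, 0)
        rw [prodForm_apply] at this
        simpa using this
  exact (LinearMap.IsRefl.nondegenerate_iff_separatingLeft (prodForm_alt hA).isRefl).2 hL

/-- The quadratic function on the sum. -/
def prodQ (Q : V → F) (x : V × F × F) : F := Q x.1 + x.2.1 * x.2.2

theorem prodQ_isQF {Q : V → F} (hQ : IsQF B Q) : IsQF (prodForm B) (prodQ Q) := by
  constructor
  · intro s v
    simp only [prodQ, Prod.smul_fst, Prod.smul_snd, hQ.smul, smul_eq_mul]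
    ring
  · intro u v
    simp only [prodQ, Prod.fst_add, Prod.snd_add, hQ.add, prodForm_apply]
    grind

/-- `g × 1`. -/
def prodEquiv (g : V ≃ₗ[F] V) : (V × F × F) ≃ₗ[F] (V × F × F) :=
  LinearEquiv.prodCongr g (LinearEquiv.refl F (F × F))

theorem prodEquiv_apply (g : V ≃ₗ[F] V) (x : V × F × F) : prodEquiv g x = (g x.1, x.2) := rfl

theorem prodEquiv_mul (g h : V ≃ₗ[F] V) : prodEquiv (g * h) = prodEquiv g * prodEquiv h := by
  ext x <;> rfl

theorem rk_prodEquiv (g : V ≃ₗ[F] V) : rk (prodEquiv g) = rk g := by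
  unfold rk
  set f : V →ₗ[F] V := (g : V →ₗ[F] V) - LinearMap.id with hf
  have h1 : ((prodEquiv g : (V × F × F) ≃ₗ[F] (V × F × F)) : (V × F × F) →ₗ[F] (V × F × F))
      - LinearMap.id = (LinearMap.inl F V (F × F)) ∘ₗ f ∘ₗ (LinearMap.fst F V (F × F)) := by
    ext x <;> simp [hf, prodEquiv_apply]
  rw [h1, LinearMap.range_comp, LinearMap.range_comp, LinearMap.range_eq_top.mpr LinearMap.fst_surjective,
    Submodule.map_top]
  exact (Submodule.equivMapOfInjective _ LinearMap.inl_injective _).finrank_eq.symm

section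

variable (hA : B.IsAlt) (hN : B.Nondegenerate) {Q : V → F} (hQ : IsQF B Q)
include hA hN hQ

/-- Root elements with zero constant: pass to the sum with a hyperbolic plane. -/
theorem even_rk_root_zero {g x : V ≃ₗ[F] V} (hg : g ∈ orthGroup Q) {b w : V}
    (hb : Q b = 0) (hw : B w b = 0) (hwQ : Q w = 0) (hx : ∀ v, x v = rootVec B b w (Q w) v) :
    Even (rk (g * x)) ↔ Even (rk g) := by
  have hA' := prodForm_alt hA
  have hN' := prodForm_nondeg hA hN
  have hQ' := prodQ_isQF hQ
  set b' : V × F × F := (b, 0, 0) with hb'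
  set w' : V × F × F := (w, 0, 0) with hw'
  set w₁ : V × F × F := (0, 1, 1) with hw₁
  have hb'Q : prodQ Q b' = 0 := by simp [prodQ, hb', hb]
  have h1b : prodForm B w₁ b' = 0 := by simp [prodForm_apply, hw₁, hb']
  have hwb : prodForm B w' b' = 0 := by simp [prodForm_apply, hw', hb', hw]
  have h2b : prodForm B (w₁ + w') b' = 0 := by simp only [map_add, LinearMap.add_apply, h1b, hwb, add_zero]
  have hQ1 : prodQ Q w₁ = 1 := by simp [prodQ, hw₁, hQ.zero]
  have hQ2 : prodQ Q (w₁ + w') = 1 := by
    simp [prodQ, hw₁, hw', hwQ]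
  have hg' : prodEquiv g ∈ orthGroup (prodQ Q) := by
    intro v
    simp only [prodQ, prodEquiv_apply, hg v.1]
  set E₁ := rootEquiv hA' b' w₁ (prodQ Q w₁) h1b with hE₁
  set E₂ := rootEquiv hA' b' (w₁ + w') (prodQ Q (w₁ + w')) h2b with hE₂
  have hxE : prodEquiv x = E₁ * E₂ := by
    ext1 v
    rw [LinearEquiv.mul_apply, hE₁, hE₂, rootEquiv_apply, rootEquiv_apply, hQ1, hQ2,
      rootVec_comp hA' 1 1 h1b h2b, prodEquiv_apply, hx]
    have h3 : w₁ + (w₁ + w') = w' := by
      rw [← add_assoc, V_add_self F, zero_add]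
    have h4 : (1 : F) + 1 + prodForm B w₁ (w₁ + w') = 0 := by
      simp [prodForm_apply, hw₁, hw', CharTwo.add_self_eq_zero]
    rw [h3, h4, hwQ]
    ext1
    · simp [rootVec, prodForm_apply, hb', hw']
    · ext1 <;> simp [rootVec, prodForm_apply, hb', hw']
  have hE₁O : E₁ ∈ orthGroup (prodQ Q) := by
    intro v
    rw [hE₁, rootEquiv_apply, rootVec_preserves hA' hQ' hb'Q h1b]
  have s1 := even_rk_root_ne hA' hN' hQ' hg' trivial hb'Q h1b (by rw [hQ1]; exact one_ne_zero)
    (x := E₁) (fun v => rfl)
  have s2 := even_rk_root_ne hA' hN' hQ' ((orthGroup (prodQ Q)).mul_mem hg' hE₁O) trivial hb'Q h2b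
    (by rw [hQ2]; exact one_ne_zero) (x := E₂) (fun v => rfl)
  rw [mul_assoc, ← hxE, ← prodEquiv_mul, rk_prodEquiv, s1, rk_prodEquiv] at s2
  exact s2

theorem even_rk_root {g x : V ≃ₗ[F] V} (hg : g ∈ orthGroup Q) (hx : x ∈ rootSet B Q) :
    Even (rk (g * x)) ↔ Even (rk g) := by
  obtain ⟨b, w, -, hb, hw, hxv⟩ := hx
  by_cases hwQ : Q w = 0
  · exact even_rk_root_zero hA hN hQ hg hb hw hwQ hxv
  · exact even_rk_root_ne hA hN hQ hg trivial hb hw hwQ hxv

theorem even_rk_rootGroup {t : V ≃ₗ[F] V} (ht : t ∈ rootGroup B Q) :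
    ∀ g ∈ orthGroup Q, (Even (rk (g * t)) ↔ Even (rk g)) := by
  induction ht using Subgroup.closure_induction with
  | mem x hx => exact fun g hg => even_rk_root hA hN hQ hg hx
  | one => simp
  | mul x y hx' hy' hx hy =>
    intro g hg
    have hxO := rootGroup_le_orth hA hQ hx'
    rw [← mul_assoc, hy _ ((orthGroup Q).mul_mem hg hxO), hx g hg]
  | inv x hx' hx =>
    intro g hg
    have hxO := rootGroup_le_orth hA hQ hx'
    have := hx (g * x⁻¹) ((orthGroup Q).mul_mem hg ((orthGroup Q).inv_mem hxO))
    rw [inv_mul_cancel_right] at this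
    exact this.symm

theorem rk_one : rk (1 : V ≃ₗ[F] V) = 0 := by
  unfold rk
  have : ((1 : V ≃ₗ[F] V) : V →ₗ[F] V) - LinearMap.id = 0 := by
    ext x
    simp
  rw [this, LinearMap.range_zero, finrank_bot]

theorem even_rk_of_mem_rootGroup {t : V ≃ₗ[F] V} (ht : t ∈ rootGroup B Q) : Even (rk t) := by
  have := even_rk_rootGroup hA hN hQ ht 1 (orthGroup Q).one_mem
  rw [one_mul] at this
  rw [this, rk_one hA hN hQ]
  exact Even.zero

/-- **The dichotomy.** -/
theorem L_dichotomy (hdim : 3 ≤ Module.finrank F V) (hT : rootGroup B Q ≤ L)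
    (hLO : L ≤ orthGroup Q) :
    L = orthGroup Q ∨ ∀ g, g ∈ L ↔ g ∈ orthGroup Q ∧ Even (rk g) := by
  obtain ⟨u₀, hu₀⟩ := exists_norm_one hA hN hQ hdim
  set τ := tv hA u₀ 1 with hτ
  have hτO : τ ∈ orthGroup Q := refl_mem_orth hA hQ hu₀
  by_cases hLT : L ≤ rootGroup B Q
  · right
    intro g
    constructor
    · intro hg
      exact ⟨hLO hg, even_rk_of_mem_rootGroup hA hN hQ (hLT hg)⟩
    · rintro ⟨hg, hev⟩
      rcases orth_dichotomy hA hN hQ hdim hu₀ hg with h | h
      · exact hT h
      · exfalso
        have h1 := even_rk_of_mem_rootGroup hA hN hQ h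
        -- `τ g = g τ'` with `τ'` a reflection
        have hgi := orth_le_isom hQ hg
        have hginv : g⁻¹ ∈ orthGroup Q := (orthGroup Q).inv_mem hg
        have h2 : τ * g = g * tv hA (g⁻¹ u₀) 1 := by
          have h3 := conj_refl hA (orth_le_isom hQ hginv) u₀
          rw [inv_inv] at h3
          rw [← h3, ← mul_assoc, ← mul_assoc, mul_inv_cancel, one_mul]
        rw [h2, even_rk_refl hA hN hQ hg (by rw [hginv u₀]; exact hu₀)] at h1
        exact h1 hev
  · left
    apply le_antisymm hLO
    obtain ⟨k, hk, hkT⟩ := SetLike.not_le_iff_exists.mp hLT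
    have hτL : τ ∈ L := by
      rcases orth_dichotomy hA hN hQ hdim hu₀ (hLO hk) with h | h
      · exact absurd h hkT
      · have := L.mul_mem (hT h) (L.inv_mem hk)
        rwa [mul_inv_cancel_right] at this
    intro g hg
    rcases orth_dichotomy hA hN hQ hdim hu₀ hg with h | h
    · exact hT h
    · have := L.mul_mem (L.inv_mem hτL) (hT h)
      rwa [inv_mul_cancel_left] at this

end

end Cfsg.Agent.Lib.SpRoot
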