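/-
The abstract main theorem on irreducible overgroups of root groups.
-/
import Cfsg.Agent.Lib.SpRoot.Parity

set_option autoImplicit false
set_option linter.unusedSectionVars false
set_option linter.unusedVariables false
set_option linter.unusedSimpArgs false

namespace Cfsg.Agent.Lib.SpRoot

open Cfsg.Agent.Lib.Classical.Alt

variable {F V : Type*} [Field F] [Finite F] [CharP F 2] [AddCommGroup V] [Module F V]
  [FiniteDimensional F V]
variable {B : LinearMap.BilinForm F V} {L : Subgroup (V ≃ₗ[F] V)}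

section

variable (hA : B.IsAlt) (hN : B.Nondegenerate) (hL : L ≤ isomGroup B)
  (hirr : ∀ W : Submodule F V, (∀ g ∈ L, ∀ w ∈ W, g w ∈ W) → W = ⊥ ∨ W = ⊤)
  {Q : V → F} (hQ : IsQF B Q) (hG : ∀ b ∈ Pts B L, Good B L Q b)
include hA hN hL hirr hQ hG

/-- A step in the graph of singular points. -/
theorem singular_step {b y : V} (hb : b ∈ Pts B L) (hy : Q y = 0) (hyb : B y b ≠ 0) :
    y ∈ Pts B L := by
  have hb0 : b ≠ 0 := Pts.ne hb
  obtain ⟨g, hg, hg0⟩ := exists_conj_ne hN hirr hb0 hb0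
  have hpP : g b ∈ Pts B L := Pts.conj hA hb hg (hL hg)
  set p := g b with hp
  have hQp : Q p = 0 := (hG p hpP).sing
  set A := B p b with hAdef
  have hA0 : A ≠ 0 := hg0
  set s : F := A * (B y b)⁻¹ with hs
  have hs0 : s ≠ 0 := mul_ne_zero hA0 (inv_ne_zero hyb)
  set y' : V := s • y with hy'
  have hy'b : B y' b = A := by
    simp only [hy', map_smul, LinearMap.smul_apply, smul_eq_mul, hs]
    field_simp
  have hQy' : Q y' = 0 := by rw [hy', hQ.smul, hy, mul_zero]
  set w : V := A⁻¹ • (y' + p) with hw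
  have hwb : B w b = 0 := by
    simp only [hw, map_smul, LinearMap.smul_apply, smul_eq_mul, LinearMap.map_add₂, hy'b, ← hAdef]
    rw [CharTwo.add_self_eq_zero, mul_zero]
  have hQb : Q b = 0 := (hG b hb).sing
  obtain ⟨x, hx, hxv⟩ := (hG b hb).root w hwb
  have hxp : x p = y' + (B p w + Q w * A) • b := by
    rw [hxv, rootVec, ← hAdef, hw, smul_smul, mul_inv_cancel₀ hA0, one_smul, ← hw]
    have h4 : p + (y' + p) = y' := by
      rw [add_comm y', ← add_assoc, V_add_self F, zero_add]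
    rw [h4, add_assoc, ← add_smul]
  have hxQ : Q (x p) = 0 := by
    rw [hxv, rootVec_preserves hA hQ hQb hwb, hQp]
  set t := B p w + Q w * A with ht
  have ht0 : t = 0 := by
    have h0 : Q (y' + t • b) = Q y' + Q (t • b) + B y' (t • b) := hQ.add _ _
    rw [hxp, h0, hQ.smul t b, hQb, hQy', map_smul, smul_eq_mul, mul_zero, zero_add, zero_add, hy'b]
      at hxQ
    exact (mul_eq_zero.mp hxQ).resolve_right hA0
  rw [ht0, zero_smul, add_zero] at hxp
  have h5 : y' ∈ Pts B L := by
    rw [← hxp]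
    exact Pts.conj hA hpP hx (hL hx)
  have h6 := Pts.scale hA h5 (inv_ne_zero hs0)
  rwa [hy', smul_smul, inv_mul_cancel₀ hs0, one_smul] at h6

/-- All non-zero singular vectors carry root data. -/
theorem singular_mem_pts {a y : V} (ha : a ∈ Pts B L) (hy0 : y ≠ 0) (hy : Q y = 0) :
    y ∈ Pts B L := by
  have ha0 : a ≠ 0 := Pts.ne ha
  by_cases hya : B y a = 0
  · by_cases hm : y ∈ Submodule.span F {a}
    · obtain ⟨t, ht⟩ := Submodule.mem_span_singleton.mp hm
      rw [← ht]
      refine Pts.scale hA ha ?_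
      rintro rfl
      rw [zero_smul] at ht
      exact hy0 ht.symm
    · obtain ⟨t₁, ht₁, ht₁a⟩ := exists_sep hN hm
      have hmn : a ∉ Submodule.span F {y} := by
        intro hm2
        obtain ⟨s, hs⟩ := Submodule.mem_span_singleton.mp hm2
        apply hm
        rw [Submodule.mem_span_singleton]
        refine ⟨s⁻¹, ?_⟩
        have hs0 : s ≠ 0 := by
          rintro rfl
          rw [zero_smul] at hs
          exact ha0 hs.symm
        rw [← hs, smul_smul, inv_mul_cancel₀ hs0, one_smul]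
      obtain ⟨t₂, ht₂, ht₂y⟩ := exists_sep hN hmn
      have h1a : B t₁ a = 0 := ht₁a a (Submodule.mem_span_singleton_self a)
      have h2y : B t₂ y = 0 := ht₂y y (Submodule.mem_span_singleton_self y)
      set t := t₁ + t₂ with ht
      have hta : B t a = 1 := by simp [ht, h1a, ht₂]
      have hty : B t y = 1 := by simp [ht, ht₁, h2y]
      set z : V := t + Q t • a with hz
      have hQa : Q a = 0 := (hG a ha).sing
      have hQz : Q z = 0 := by
        rw [hz, hQ.add, hQ.smul, hQa, map_smul, hta]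
        simp only [mul_zero, add_zero, smul_eq_mul, mul_one]
        exact CharTwo.add_self_eq_zero _
      have hza : B z a = 1 := by simp [hz, hta, hA a]
      have hzP : z ∈ Pts B L := singular_step hA hN hL hirr hQ hG ha hQz (by
        rw [hza]; exact one_ne_zero)
      refine singular_step hA hN hL hirr hQ hG hzP hy ?_
      rw [B_comm hA]
      have hay : B a y = 0 := B_zero_comm hA hya
      simp [hz, hty, hay]
  · exact singular_step hA hN hL hirr hQ hG ha hy hya

/-- The root group lies in `L`. -/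
theorem rootGroup_le_L {a : V} (ha : a ∈ Pts B L) : rootGroup B Q ≤ L := by
  rw [rootGroup, Subgroup.closure_le]
  rintro t ⟨b, w, hb0, hb, hw, htv⟩
  have hbP := singular_mem_pts hA hN hL hirr hQ hG ha hb0 hb
  obtain ⟨x, hx, hxv⟩ := (hG b hbP).root w hw
  have : t = x := by
    ext1 v
    rw [htv, hxv]
  rw [this]
  exact hx

/-- The conclusion once `L` preserves `Q`. -/
theorem dichotomy_of_good (hdim : 3 ≤ Module.finrank F V) {a : V} (ha : a ∈ Pts B L)
    (hLQ : ∀ g ∈ L, ∀ v, Q (g v) = Q v) :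
    L = orthGroup Q ∨ ∀ g, g ∈ L ↔ g ∈ orthGroup Q ∧ Even (rk g) :=
  L_dichotomy hA hN hQ hdim (rootGroup_le_L hA hN hL hirr hQ hG ha) hLQ

end

/-- A group preserving `Q` makes `Q` good at every point. -/
theorem good_of_preserving (hA : B.IsAlt) (hN : B.Nondegenerate)
    (hdim : 3 ≤ Module.finrank F V) {Q : V → F} (hQ : IsQF B Q)
    (hLQ : ∀ g ∈ L, ∀ v, Q (g v) = Q v) {b : V} (hb : b ∈ Pts B L) : Good B L Q b := by
  obtain ⟨κ, hκ⟩ := hb
  have hb0 := hκ.ne
  obtain ⟨p, hp⟩ := exists_B_eq_one hN hb0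
  have hbp : B b p = 1 := by rw [B_comm hA, hp]
  -- the basic computation
  have hcomp : ∀ w, B w b = 0 → ∀ v, B v b = 1 →
      Q w + κ w + (B v w + κ w) ^ 2 * Q b = 0 := by
    intro w hw v hv
    obtain ⟨x, hx, hxv⟩ := hκ.root w hw
    have h1 := hLQ x hx v
    rw [hxv, rootVec, hv, one_smul, mul_one, add_assoc, add_assoc, ← add_smul, hQ.add, hQ.add,
      hQ.smul] at h1
    simp only [map_add, map_smul, smul_eq_mul, hv, hw, mul_zero, add_zero, mul_one] at h1
    have h2 := congrArg (· + Q v) h1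
    simp only [CharTwo.add_self_eq_zero] at h2
    grind
  -- a hyperbolic pair in the complement of `b, p`
  obtain ⟨x, y, hxb, hxp, hyb, hyp, hxy⟩ := exists_hyp_perp hA hN hbp hdim
  have hQb : Q b = 0 := by
    have e1 := hcomp x hxb p hp
    have e2 := hcomp x hxb (p + y) (by simp [hp, hyb])
    have hyx : B y x = 1 := by rw [B_comm hA, hxy]
    have e3 : B (p + y) x = B p x + 1 := by simp [hyx]
    rw [e3] at e2
    have h3 : (B p x + 1 + κ x) ^ 2 = (B p x + κ x) ^ 2 + 1 := by grind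
    rw [h3] at e2
    grind
  refine ⟨hQb, fun w hw => ?_⟩
  have e1 := hcomp w hw p hp
  rw [hQb, mul_zero, add_zero] at e1
  have : Q w = κ w := CharTwo.add_eq_zero.mp e1
  rw [this]
  exact hκ.root w hw

/-- The dichotomy from a preserved quadratic function. -/
theorem dichotomy_of_preserving (hA : B.IsAlt) (hN : B.Nondegenerate) (hL : L ≤ isomGroup B)
    (hirr : ∀ W : Submodule F V, (∀ g ∈ L, ∀ w ∈ W, g w ∈ W) → W = ⊥ ∨ W = ⊤)
    (hdim : 3 ≤ Module.finrank F V) {Q : V → F} (hQ : IsQF B Q)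
    (hLQ : ∀ g ∈ L, ∀ v, Q (g v) = Q v) {a : V} (ha : a ∈ Pts B L) :
    L = orthGroup Q ∨ ∀ g, g ∈ L ↔ g ∈ orthGroup Q ∧ Even (rk g) :=
  dichotomy_of_good hA hN hL hirr hQ (fun b hb => good_of_preserving hA hN hdim hQ hLQ hb) hdim ha hLQ

/-- **The abstract main theorem** outside `|F| = 2`, `dim V = 4`, or under the hypothesis `hsmall`
there. -/
theorem main_abstract (hA : B.IsAlt) (hN : B.Nondegenerate) (hL : L ≤ isomGroup B)
    (hirr : ∀ W : Submodule F V, (∀ g ∈ L, ∀ w ∈ W, g w ∈ W) → W = ⊥ ∨ W = ⊤)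
    (hdim : 3 ≤ Module.finrank F V) (hbig : 2 < Nat.card F ∨ 6 ≤ Module.finrank F V) {a : V}
    (ha : a ∈ Pts B L) :
    L = isomGroup B ∨ ∃ Q : V → F, IsQF B Q ∧
      (L = orthGroup Q ∨ ∀ g, g ∈ L ↔ g ∈ orthGroup Q ∧ Even (rk g)) := by
  by_cases hNT : ∀ b ∈ Pts B L, ∀ c, HasRoot B L b 0 c → c = 0
  · right
    obtain ⟨Q, hQ, hG⟩ := exists_global_form hA hN hL hNT hbig hirr hdim ha
    refine ⟨Q, hQ, ?_⟩
    exact dichotomy_of_good hA hN hL hirr hQ hG hdim ha
      (fun g hg v => preserves_global hA hN hL hNT hbig hirr ha hQ hG hg v)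
  · left
    push Not at hNT
    obtain ⟨b, ⟨κ, hκ⟩, c, hc, hc0⟩ := hNT
    exact eq_isom_of_tv hA hN hL hirr hdim hκ hc0 hc

end Cfsg.Agent.Lib.SpRoot
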