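/-
From the hypotheses on `X ≤ O₂(H)`: root data at `a`.
-/
import Cfsg.Agent.Lib.SpRoot.Main

set_option autoImplicit false
set_option linter.unusedSectionVars false
set_option linter.unusedVariables false
set_option linter.unusedSimpArgs false

namespace Cfsg.Agent.Lib.SpRoot

open Cfsg.Agent.Lib.Classical.Alt
open scoped MatrixGroups

variable {F V : Type*} [Field F] [Finite F] [CharP F 2] [AddCommGroup V] [Module F V]
  [FiniteDimensional F V]
variable {B : LinearMap.BilinForm F V}

section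

variable (hA : B.IsAlt) (hN : B.Nondegenerate) {a : V} {P : Subgroup (V ≃ₗ[F] V)}
  (hPi : P ≤ isomGroup B) (hPa : ∀ g ∈ P, g a = a) (hP2 : IsPGroup 2 P)
  (hPn : ∀ h ∈ isomGroup B, h a = a → ∀ g ∈ P, h * g * h⁻¹ ∈ P)
include hA hN hPi hPa hP2 hPn

/-- `B(u, gu) = 0` for `u ∈ a^⊥`. -/
theorem P_form_zero {g : V ≃ₗ[F] V} (hg : g ∈ P) {u : V} (hu : B u a = 0) : B u (g u) = 0 := by
  by_contra hμ
  set μ := B u (g u) with hμdef
  set y := g u with hy
  have hyu : B y u = μ := B_comm hA _ _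
  have hgi := hPi hg
  -- the commutator
  have hτi : tv hA u 1 ∈ isomGroup B := tv_mem_isomGroup hA u 1
  have hτa : tv hA u 1 a = a := by
    rw [refl_apply, B_zero_comm hA hu, zero_smul, add_zero]
  have h2 : tv hA u 1 * tv hA u 1 = 1 := refl_mul_self hA u
  have hτinv : (tv hA u 1)⁻¹ = tv hA u 1 := inv_eq_of_mul_eq_one_left h2
  have h3 : tv hA u 1 * g⁻¹ * tv hA u 1 ∈ P := by
    have := hPn _ hτi hτa g⁻¹ (P.inv_mem hg)
    rwa [hτinv] at this
  set q : V ≃ₗ[F] V := g * (tv hA u 1 * g⁻¹ * tv hA u 1) with hq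
  have hqP : q ∈ P := P.mul_mem hg h3
  have hqv : ∀ v, q v = tv hA y 1 (tv hA u 1 v) := by
    intro v
    have h4 := conj_refl hA hgi u
    have h5 : q = (g * tv hA u 1 * g⁻¹) * tv hA u 1 := by
      rw [hq]
      group
    rw [h5, h4, LinearEquiv.mul_apply]
  have hqu : q u = u + μ • y := by
    have hτu : tv hA u 1 u = u := by
      rw [refl_apply, hA u, zero_smul, add_zero]
    rw [hqv, hτu, refl_apply, ← hμdef]
  have hqy : q y = μ • u + (1 + μ ^ 2) • y := by
    have hτy : tv hA u 1 y = y + μ • u := by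
      rw [refl_apply, hyu]
    rw [hqv, hτy, refl_apply]
    simp only [map_add, map_smul, LinearMap.add_apply, LinearMap.smul_apply, smul_eq_mul, hA y,
      ← hμdef, mul_zero, add_zero, zero_add]
    match_scalars <;> ring
  let M : SL(2, F) := ⟨!![1, μ; μ, 1 + μ ^ 2], by
    rw [Matrix.det_fin_two_of]; ring⟩
  have hM00 : M.1 0 0 = 1 := rfl
  have hM01 : M.1 0 1 = μ := rfl
  have hM10 : M.1 1 0 = μ := rfl
  have hM11 : M.1 1 1 = 1 + μ ^ 2 := rfl
  have hodd : Odd (orderOf M) := by
    apply Cfsg.Agent.Lib.Classical.TransvInv.odd_order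
    rw [hM00, hM11]
    have : (1 : F) + (1 + μ ^ 2) = μ ^ 2 := by grind
    rw [this]
    exact pow_ne_zero 2 hμ
  set N := orderOf M with hNdef
  have hMN : M ^ N = 1 := pow_orderOf_eq_one M
  obtain ⟨ρ, σ, hρ, hσ⟩ := block_pow q (x := u) (y := y) (w := (0 : V)) M (r := 0) (s := 0)
    (by rw [hqu, hM00, hM10]; simp) (by rw [hqy, hM01, hM11]; simp) (map_zero _) N
  rw [hMN] at hρ hσ
  simp only [Matrix.SpecialLinearGroup.coe_one, Matrix.one_apply_eq, one_smul,
    Matrix.one_apply_ne (zero_ne_one : (0 : Fin 2) ≠ 1),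
    Matrix.one_apply_ne (one_ne_zero : (1 : Fin 2) ≠ 0), zero_smul, add_zero, zero_add,
    smul_zero] at hρ hσ
  -- `q` is a 2-element
  obtain ⟨k, hk⟩ := hP2 ⟨q, hqP⟩
  have hqk : q ^ 2 ^ k = 1 := by
    have := congrArg Subtype.val hk
    simpa using this
  have hcop : Nat.Coprime N (orderOf q) := by
    have h5 : orderOf q ∣ 2 ^ k := orderOf_dvd_of_pow_eq_one hqk
    exact Nat.Coprime.coprime_dvd_right h5 (Nat.Coprime.pow_right k (Nat.coprime_two_right.mpr hodd))
  obtain ⟨m, hm⟩ := exists_pow_eq_self_of_coprime hcop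
  have h6 : q u = u := by
    rw [← hm, fix_pow (q ^ N) hρ m]
  rw [hqu] at h6
  have h7 : μ • y = 0 := by
    have h8 := congrArg (fun z => u + z) h6
    rw [← add_assoc, V_add_self F, zero_add] at h8
    exact h8
  rcases smul_eq_zero.mp h7 with h8 | h8
  · exact hμ h8
  · exact hμ (by rw [hμdef, h8, map_zero])

/-- `P` acts trivially on `a^⊥/a`. -/
theorem P_trivial {g : V ≃ₗ[F] V} (hg : g ∈ P) {u : V} (hu : B u a = 0) :
    g u + u ∈ Submodule.span F {a} := by
  by_contra hcon
  set y := g u with hy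
  have hgi := hPi hg
  have hya : B y a = 0 := by
    have h1 := hgi u a
    rw [hPa g hg, hu] at h1
    exact h1
  obtain ⟨t, ht, hta⟩ := exists_sep hN hcon
  have hta' : B t a = 0 := hta a (Submodule.mem_span_singleton_self a)
  have huy : B u y = 0 := P_form_zero hA hN hPi hPa hP2 hPn hg hu
  have hτi : tv hA u 1 ∈ isomGroup B := tv_mem_isomGroup hA u 1
  have hτa : tv hA u 1 a = a := by
    rw [refl_apply, B_zero_comm hA hu, zero_smul, add_zero]
  have h2 : tv hA u 1 * tv hA u 1 = 1 := refl_mul_self hA u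
  have hτinv : (tv hA u 1)⁻¹ = tv hA u 1 := inv_eq_of_mul_eq_one_left h2
  have h3 : tv hA u 1 * g⁻¹ * tv hA u 1 ∈ P := by
    have := hPn _ hτi hτa g⁻¹ (P.inv_mem hg)
    rwa [hτinv] at this
  set q : V ≃ₗ[F] V := g * (tv hA u 1 * g⁻¹ * tv hA u 1) with hq
  have hqP : q ∈ P := P.mul_mem hg h3
  have hqv : ∀ v, q v = tv hA y 1 (tv hA u 1 v) := by
    intro v
    have h4 := conj_refl hA hgi u
    have h5 : q = (g * tv hA u 1 * g⁻¹) * tv hA u 1 := by
      rw [hq]
      group
    rw [h5, h4, LinearEquiv.mul_apply]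
  have h4 := P_form_zero hA hN hPi hPa hP2 hPn hqP hta'
  rw [hqv, refl_apply, refl_apply] at h4
  simp only [map_add, map_smul, LinearMap.add_apply, LinearMap.smul_apply, smul_eq_mul, hA t, huy,
    zero_add, mul_zero, add_zero] at h4
  have h5 : (B t u + B t y) ^ 2 = 0 := by
    rw [sq_add_sq, sq, sq]
    exact h4
  have h6 : B t u + B t y = 0 := by simpa using h5
  have h7 : B t (y + u) = 1 := ht
  rw [map_add, add_comm, h6] at h7
  exact zero_ne_one h7

/-- Elements of `P` are root elements at `a`. -/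
theorem P_form (ha : a ≠ 0) {g : V ≃ₗ[F] V} (hg : g ∈ P) :
    ∃ z c, B z a = 0 ∧ ∀ v, g v = rootVec B a z c v := by
  have hgi := hPi hg
  have hga := hPa g hg
  obtain ⟨b, hb⟩ := exists_B_eq_one hN ha
  have hab : B a b = 1 := by rw [B_comm hA, hb]
  set r := g b + b with hr
  have hra : B r a = 0 := by
    have h1 := hgi b a
    rw [hga, hb] at h1
    rw [hr, LinearMap.map_add₂, h1, hb]
    exact CharTwo.add_self_eq_zero _
  have hgb : g b = b + r := by
    rw [hr, add_comm b, add_assoc, V_add_self F, add_zero]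
  have hperp : ∀ u, B u a = 0 → g u = u + B u r • a := by
    intro u hu
    obtain ⟨s, hs⟩ := Submodule.mem_span_singleton.mp (P_trivial hA hN hPi hPa hP2 hPn hg hu)
    have hgu : g u = u + s • a := by
      rw [hs, add_comm u, add_assoc, V_add_self F, add_zero]
    have h1 := hgi u b
    rw [hgu, hgb] at h1
    simp only [map_add, LinearMap.add_apply, map_smul, LinearMap.smul_apply, smul_eq_mul, hab,
      B_zero_comm hA hra, mul_zero, add_zero, mul_one] at h1
    have h2 : B u r = s := by grind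
    rw [hgu, h2]
  refine ⟨r, B b r, hra, fun v => ?_⟩
  set t := B v a with ht
  set u : V := v + t • b with hu
  have hua : B u a = 0 := by
    simp only [hu, LinearMap.map_add₂, map_smul, LinearMap.smul_apply, smul_eq_mul, hb, mul_one, ← ht]
    exact CharTwo.add_self_eq_zero _
  have hv : v = u + t • b := by
    rw [hu, add_assoc, V_add_self F, add_zero]
  have h1 : B u r = B v r + t * B b r := by
    simp [hu]
  calc g v = g (u + t • b) := by rw [← hv]
    _ = u + B u r • a + t • (b + r) := by rw [map_add, map_smul, hperp u hua, hgb]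
    _ = rootVec B a r (B b r) v := by
      rw [rootVec, ← ht, h1, hu]
      match_scalars <;> grind

end

/-- From `X`, root data at `a`. -/
theorem rootData_of_X {B : LinearMap.BilinForm F V} (hA : B.IsAlt) (hN : B.Nondegenerate) {a : V}
    (ha : a ≠ 0) {X L : Subgroup (V ≃ₗ[F] V)} (hXL : X ≤ L)
    (hform : ∀ x ∈ X, ∃ z c, B z a = 0 ∧ ∀ v, x v = rootVec B a z c v)
    (hcard : Nat.card X * Nat.card F = Nat.card (LinearMap.ker (B.flip a)))
    (hntv : ∀ x ∈ X, ∀ c : F, (∀ v, x v = v + (c * B v a) • a) → c = 0) :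
    ∃ κ, RootData B L a κ := by
  classical
  haveI : Finite V := Module.finite_of_finite F
  -- elements of `X`
  let InX : V → F → Prop := fun w c => ∃ x ∈ X, ∀ v, x v = rootVec B a w c v
  have hmul : ∀ {w w' c c'}, B w a = 0 → B w' a = 0 → InX w c → InX w' c' →
      InX (w + w') (c + c' + B w w') := by
    rintro w w' c c' hw hw' ⟨x, hx, hxv⟩ ⟨y, hy, hyv⟩
    refine ⟨x * y, X.mul_mem hx hy, fun v => ?_⟩
    rw [LinearEquiv.mul_apply, hyv, hxv, rootVec_comp hA _ _ hw hw']
  have huniq0 : ∀ {t : F} {c}, InX (t • a) c → c = 0 := by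
    rintro t c ⟨x, hx, hxv⟩
    refine hntv x hx c fun v => ?_
    rw [hxv]
    have := rootVec_shift hA a 0 c t v
    rw [zero_add] at this
    rw [this]
    simp [rootVec]
  have huniq : ∀ {w c c'}, B w a = 0 → InX w c → InX w c' → c = c' := by
    intro w c c' hw h h'
    have h1 := hmul hw hw h h'
    rw [V_add_self F, hA w, add_zero] at h1
    have h2 : InX ((0 : F) • a) (c + c') := by
      rwa [zero_smul]
    exact CharTwo.add_eq_zero.mp (huniq0 h2)
  -- surjectivity
  choose! z c hz hzv using hform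
  let A := LinearMap.ker (B.flip a)
  have hzA : ∀ x ∈ X, z x ∈ A := fun x hx => by
    simp [A, LinearMap.mem_ker, hz x hx]
  let Φ : X × F → A := fun p => ⟨z p.1 + p.2 • a, by
    have h0 := hz p.1 p.1.2
    simp [A, LinearMap.mem_ker, h0, hA a]⟩
  have hΦinj : Function.Injective Φ := by
    rintro ⟨x, t⟩ ⟨y, t'⟩ h
    have h1 : z x + t • a = z y + t' • a := congrArg Subtype.val h
    have h2 : z x + z y = (t + t') • a := by
      have h3 : z x + t • a + (z y + t • a) = z y + t' • a + (z y + t • a) :=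
        congrArg (· + (z y + t • a)) h1
      have h4 : z x + t • a + (z y + t • a) = z x + z y := by
        match_scalars <;> grind
      have h5 : z y + t' • a + (z y + t • a) = (t + t') • a := by
        match_scalars <;> grind
      rw [h4, h5] at h3
      exact h3
    have hxX : InX (z x) (c x) := ⟨x, x.2, hzv x x.2⟩
    have hyX : InX (z y) (c y) := ⟨y, y.2, hzv y y.2⟩
    have hxy := hmul (hz x x.2) (hz y y.2) hxX hyX
    rw [h2] at hxy
    have hc0 := huniq0 hxy
    obtain ⟨w, hw, hwv⟩ := hxy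
    -- `x y = 1`
    have hw1 : (x : V ≃ₗ[F] V) * (y : V ≃ₗ[F] V) = 1 := by
      ext1 v
      rw [LinearEquiv.mul_apply, hzv y y.2, hzv x x.2, rootVec_comp hA _ _ (hz x x.2) (hz y y.2), h2]
      have := rootVec_shift hA a 0 (c x + c y + B (z x) (z y)) (t + t') v
      rw [zero_add] at this
      rw [this, hc0]
      simp [rootVec]
    -- `y y = 1`
    have hyy : (y : V ≃ₗ[F] V) * (y : V ≃ₗ[F] V) = 1 := by
      ext1 v
      rw [LinearEquiv.mul_apply, hzv y y.2, hzv y y.2, rootVec_comp hA _ _ (hz y y.2) (hz y y.2),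
        V_add_self F, hA (z y), add_zero, CharTwo.add_self_eq_zero]
      simp [rootVec]
    have hxy' : x = y := by
      apply Subtype.ext
      have h6 : (x : V ≃ₗ[F] V) = (x : V ≃ₗ[F] V) * ((y : V ≃ₗ[F] V) * (y : V ≃ₗ[F] V)) := by
        rw [hyy, mul_one]
      rw [h6, ← mul_assoc, hw1, one_mul]
    subst hxy'
    have h7 : (t + t') • a = 0 := by
      rw [← h2, V_add_self F]
    have h8 : t + t' = 0 := (smul_eq_zero.mp h7).resolve_right ha
    rw [CharTwo.add_eq_zero.mp h8]
  have hΦbij := hΦinj.bijective_of_nat_card_le (by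
    rw [Nat.card_prod]
    exact hcard.symm.le)
  have hex : ∀ w, B w a = 0 → ∃ c, InX w c := by
    intro w hw
    have hwA : w ∈ A := by simp [A, LinearMap.mem_ker, hw]
    obtain ⟨⟨x, t⟩, hxt⟩ := hΦbij.2 ⟨w, hwA⟩
    have h1 : z x + t • a = w := congrArg Subtype.val hxt
    refine ⟨c x, x, x.2, fun v => ?_⟩
    rw [hzv x x.2, ← h1, rootVec_shift hA]
  choose! κ hκ using hex
  refine ⟨κ, ha, fun w hw => ?_, fun w w' hw hw' => ?_, fun t => ?_⟩
  · obtain ⟨x, hx, hxv⟩ := hκ w hw
    exact ⟨x, hXL hx, hxv⟩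
  · have hw'' : B (w + w') a = 0 := by simp [hw, hw']
    exact huniq hw'' (hκ _ hw'') (hmul hw hw' (hκ w hw) (hκ w' hw'))
  · have hta : B (t • a) a = 0 := by simp [hA a]
    exact huniq0 (hκ _ hta)

end Cfsg.Agent.Lib.SpRoot
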