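/-
Bridge between the matrix statement and the abstract theorem.
-/
import Cfsg.Agent.Lib.SpRoot.FromX
import Cfsg.Agent.Lib.Classical.MatrixBridge
import Cfsg.Agent.Lib.Core.Basic
import Cfsg.Prelude.Def_Classical
import Cfsg.Prelude.Def_Solvable

set_option autoImplicit false
set_option linter.unusedSectionVars false
set_option linter.unusedVariables false
set_option linter.unusedSimpArgs false

namespace Cfsg.Agent.Lib.SpRoot

open Cfsg.Agent.Lib.Classical.Alt Cfsg.Agent.Lib.Classical.MatrixBridge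
open Matrix

variable {n : ℕ} {F : Type*} [Field F] [Fintype F] [CharP F 2]

variable (n F) in
/-- The form of the statement. -/
noncomputable def stdB : LinearMap.BilinForm F (Fin n ⊕ Fin n → F) :=
  LinearMap.mk₂ F (fun u v => ∑ i : Fin n, (u (Sum.inl i) * v (Sum.inr i) + u (Sum.inr i) * v (Sum.inl i)))
    (fun a b c => by
      simp only [Pi.add_apply, ← Finset.sum_add_distrib]
      exact Finset.sum_congr rfl fun i _ => by ring)
    (fun s a b => by
      simp only [Pi.smul_apply, smul_eq_mul, Finset.mul_sum]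
      exact Finset.sum_congr rfl fun i _ => by ring)
    (fun a b c => by
      simp only [Pi.add_apply, ← Finset.sum_add_distrib]
      exact Finset.sum_congr rfl fun i _ => by ring)
    (fun s a b => by
      simp only [Pi.smul_apply, smul_eq_mul, Finset.mul_sum]
      exact Finset.sum_congr rfl fun i _ => by ring)

theorem stdB_apply (u v : Fin n ⊕ Fin n → F) :
    stdB n F u v = ∑ i : Fin n, (u (Sum.inl i) * v (Sum.inr i) + u (Sum.inr i) * v (Sum.inl i)) := rfl

theorem stdB_alt : (stdB n F).IsAlt := by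
  intro u
  rw [stdB_apply]
  refine Finset.sum_eq_zero fun i _ => ?_
  grind

theorem stdB_nondeg : (stdB n F).Nondegenerate := by
  have hL : LinearMap.SeparatingLeft (stdB n F) := by
    intro x hx
    ext (i | i)
    · have := hx (Pi.single (Sum.inr i) 1)
      rw [stdB_apply, Finset.sum_eq_single i] at this
      · simpa using this
      · intro j _ hj
        simp [Pi.single_apply, hj]
      · simp
    · have := hx (Pi.single (Sum.inl i) 1)
      rw [stdB_apply, Finset.sum_eq_single i] at this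
      · simpa using this
      · intro j _ hj
        simp [Pi.single_apply, hj]
      · simp
  exact (LinearMap.IsRefl.nondegenerate_iff_separatingLeft (stdB_alt (n := n) (F := F)).isRefl).2 hL

theorem finrank_std : Module.finrank F (Fin n ⊕ Fin n → F) = 2 * n := by
  rw [Module.finrank_fintype_fun_eq_card, Fintype.card_sum, Fintype.card_fin]
  ring

/-- Membership in `preserving` through the bridge. -/
theorem mem_preserving_iff (g : GL (Fin n ⊕ Fin n) F) :
    g ∈ Cfsg.preserving (Units.coeHom (Matrix (Fin n ⊕ Fin n) (Fin n ⊕ Fin n) F))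
      (fun u v : (Fin n ⊕ Fin n → F) => ∑ i : Fin n, (u (Sum.inl i) * v (Sum.inr i) + u (Sum.inr i) * v (Sum.inl i)))
    ↔ glToLin g ∈ isomGroup (stdB n F) := Iff.rfl

theorem mem_isometryGroup_iff (Q : (Fin n ⊕ Fin n → F) → F) (g : GL (Fin n ⊕ Fin n) F) :
    g ∈ Cfsg.isometryGroup F Q ↔ glToLin g ∈ orthGroup Q := by
  constructor
  · intro h v
    exact h v v
  · intro h u v
    exact h u

/-- The rank of `g - 1` through the bridge. -/
theorem rk_glToLin (g : GL (Fin n ⊕ Fin n) F) :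
    rk (glToLin g) = ((g : Matrix (Fin n ⊕ Fin n) (Fin n ⊕ Fin n) F) - 1).rank := by
  have h : ((glToLin g : (Fin n ⊕ Fin n → F) ≃ₗ[F] (Fin n ⊕ Fin n → F)) :
      (Fin n ⊕ Fin n → F) →ₗ[F] (Fin n ⊕ Fin n → F)) - LinearMap.id
      = ((g : Matrix (Fin n ⊕ Fin n) (Fin n ⊕ Fin n) F) - 1).mulVecLin := by
    apply LinearMap.ext
    intro x
    simp [Matrix.sub_mulVec]
  unfold rk Matrix.rank
  rw [h]

/-- The stabiliser of `a` in the symplectic group of the statement, as a subgroup of `GL`. -/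
def stabH (n : ℕ) (F : Type*) [Field F] [Fintype F] [CharP F 2] (a : Fin n ⊕ Fin n → F) :
    Subgroup (GL (Fin n ⊕ Fin n) F) where
  carrier := {g | g ∈ Cfsg.preserving (Units.coeHom (Matrix (Fin n ⊕ Fin n) (Fin n ⊕ Fin n) F))
      (fun u v : (Fin n ⊕ Fin n → F) => ∑ i : Fin n, (u (Sum.inl i) * v (Sum.inr i) + u (Sum.inr i) * v (Sum.inl i))) ∧
      Matrix.mulVec (g : Matrix (Fin n ⊕ Fin n) (Fin n ⊕ Fin n) F) a = a}
  mul_mem' := by
    rintro x y ⟨hx1, hx2⟩ ⟨hy1, hy2⟩
    refine ⟨Subgroup.mul_mem _ hx1 hy1, ?_⟩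
    rw [Units.val_mul, ← Matrix.mulVec_mulVec, hy2, hx2]
  one_mem' := ⟨Subgroup.one_mem _, by simp⟩
  inv_mem' := by
    rintro x ⟨hx1, hx2⟩
    refine ⟨Subgroup.inv_mem _ hx1, ?_⟩
    have h1 : ((x⁻¹ : GL (Fin n ⊕ Fin n) F) : Matrix (Fin n ⊕ Fin n) (Fin n ⊕ Fin n) F) *ᵥ
        ((x : Matrix (Fin n ⊕ Fin n) (Fin n ⊕ Fin n) F) *ᵥ a) = a := by
      rw [Matrix.mulVec_mulVec, ← Units.val_mul, inv_mul_cancel]
      simp
    rwa [hx2] at h1

section
variable {a : Fin n ⊕ Fin n → F}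

/-- The image of `O₂(H)` in the group of linear automorphisms. -/
noncomputable def coreP (n : ℕ) (F : Type*) [Field F] [Fintype F] [CharP F 2] (a : Fin n ⊕ Fin n → F) :
    Subgroup ((Fin n ⊕ Fin n → F) ≃ₗ[F] (Fin n ⊕ Fin n → F)) :=
  ((Cfsg.pCore 2 ↥(stabH n F a)).map (stabH n F a).subtype).map glToLin.toMonoidHom

theorem coreP_isom : coreP n F a ≤ isomGroup (stdB n F) := by
  rintro _ ⟨_, ⟨⟨h, hh⟩, -, rfl⟩, rfl⟩
  exact hh.1

theorem coreP_fix : ∀ g ∈ coreP n F a, g a = a := by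
  rintro _ ⟨_, ⟨⟨h, hh⟩, -, rfl⟩, rfl⟩
  exact hh.2

theorem coreP_pgroup : IsPGroup 2 (coreP n F a) := by
  rintro ⟨_, _, ⟨x, hx, rfl⟩, rfl⟩
  have hp : IsPGroup 2 (Cfsg.pCore 2 ↥(stabH n F a)) := Cfsg.Agent.Lib.Core.Basic.pCore_isPGroup
  obtain ⟨k, hk⟩ := hp ⟨x, hx⟩
  refine ⟨k, ?_⟩
  apply Subtype.ext
  have h1 : x ^ 2 ^ k = 1 := by
    have := congrArg Subtype.val hk
    simpa using this
  have h2 : ((stabH n F a).subtype x) ^ 2 ^ k = 1 := by
    rw [← map_pow, h1, map_one]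
  simp only [Subgroup.coe_pow, Subgroup.coe_one]
  rw [← map_pow, h2, map_one]

theorem coreP_normal : ∀ h ∈ isomGroup (stdB n F), h a = a → ∀ g ∈ coreP n F a, h * g * h⁻¹ ∈ coreP n F a := by
  rintro h hi hfix _ ⟨_, ⟨x, hx, rfl⟩, rfl⟩
  have hn := Cfsg.pCore_normal 2 ↥(stabH n F a)
  set h₀ : GL (Fin n ⊕ Fin n) F := glToLin.symm h with hh₀
  have hh : glToLin h₀ = h := by simp [hh₀]
  have hm : h₀ ∈ stabH n F a := by
    refine ⟨?_, ?_⟩
    · rw [mem_preserving_iff, hh]
      exact hi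
    · have := hfix
      rw [← hh] at this
      exact this
  refine ⟨(stabH n F a).subtype (⟨h₀, hm⟩ * x * (⟨h₀, hm⟩ : ↥(stabH n F a))⁻¹),
    ⟨_, hn.conj_mem x hx _, rfl⟩, ?_⟩
  simp only [MonoidHom.coe_comp, map_mul, map_inv]
  rw [← hh]
  simp

end

end Cfsg.Agent.Lib.SpRoot
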