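/-
Assembling the statement from the abstract theorem.
-/
import Cfsg.Agent.Lib.SpRoot.Bridge

set_option autoImplicit false
set_option linter.unusedSectionVars false
set_option linter.unusedVariables false
set_option linter.unusedSimpArgs false

namespace Cfsg.Agent.Lib.SpRoot

open Cfsg.Agent.Lib.Classical.Alt Cfsg.Agent.Lib.Classical.MatrixBridge
open Matrix

variable {n : ℕ} {F : Type*} [Field F] [Fintype F] [CharP F 2]

/-- The abstract conclusion. -/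
def AbsConcl (n : ℕ) (F : Type*) [Field F] [Fintype F] [CharP F 2]
    (L : Subgroup ((Fin n ⊕ Fin n → F) ≃ₗ[F] (Fin n ⊕ Fin n → F))) : Prop :=
  L = isomGroup (stdB n F) ∨
    (∃ Q : (Fin n ⊕ Fin n → F) → F, IsQF (stdB n F) Q ∧
      (L = orthGroup Q ∨ ∀ g, g ∈ L ↔ g ∈ orthGroup Q ∧ Even (rk g))) ∨
    (Nonempty (L ≃* ↥(alternatingGroup (Fin 6))) ∨ Nonempty (L ≃* Equiv.Perm (Fin 5)))

theorem assemble (hn : 2 ≤ n) (a : (Fin n ⊕ Fin n → F)) (ha : a ≠ 0)
    (hsmall : Fintype.card F = 2 → n = 2 → ∀ L : Subgroup ((Fin n ⊕ Fin n → F) ≃ₗ[F] (Fin n ⊕ Fin n → F)),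
      L ≤ isomGroup (stdB n F) →
      (∀ W : Submodule F (Fin n ⊕ Fin n → F), (∀ g ∈ L, ∀ w ∈ W, g w ∈ W) → W = ⊥ ∨ W = ⊤) →
      a ∈ Pts (stdB n F) L → AbsConcl n F L)
    (X : Subgroup (GL (Fin n ⊕ Fin n) F)) (hXG : X ≤ Cfsg.preserving (Units.coeHom (Matrix (Fin n ⊕ Fin n) (Fin n ⊕ Fin n) F)) (fun u v : (Fin n ⊕ Fin n → F) => ∑ i : Fin n, (u (Sum.inl i) * v (Sum.inr i) + u (Sum.inr i) * v (Sum.inl i))))
    (hXO : ∀ H : Subgroup (GL (Fin n ⊕ Fin n) F),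
      (∀ g : GL (Fin n ⊕ Fin n) F, g ∈ H ↔ (g ∈ Cfsg.preserving (Units.coeHom (Matrix (Fin n ⊕ Fin n) (Fin n ⊕ Fin n) F)) (fun u v : (Fin n ⊕ Fin n → F) => ∑ i : Fin n, (u (Sum.inl i) * v (Sum.inr i) + u (Sum.inr i) * v (Sum.inl i))) ∧ Matrix.mulVec (g : Matrix (Fin n ⊕ Fin n) (Fin n ⊕ Fin n) F) a = a)) →
      X ≤ (Cfsg.pCore 2 ↥H).map H.subtype)
    (hcard : Nat.card ↥X = Fintype.card F ^ (2 * n - 2))
    (hntv : ∀ x ∈ X, ((x : Matrix (Fin n ⊕ Fin n) (Fin n ⊕ Fin n) F) - 1).rank ≠ 1)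
    (L : Subgroup (GL (Fin n ⊕ Fin n) F)) (hXL : X ≤ L) (hLG : L ≤ Cfsg.preserving (Units.coeHom (Matrix (Fin n ⊕ Fin n) (Fin n ⊕ Fin n) F)) (fun u v : (Fin n ⊕ Fin n → F) => ∑ i : Fin n, (u (Sum.inl i) * v (Sum.inr i) + u (Sum.inr i) * v (Sum.inl i))))
    (hirr : ∀ W : Submodule F (Fin n ⊕ Fin n → F), (∀ g ∈ L, ∀ w ∈ W, Matrix.mulVec (g : Matrix (Fin n ⊕ Fin n) (Fin n ⊕ Fin n) F) w ∈ W) → W = ⊥ ∨ W = ⊤) :
    L = Cfsg.preserving (Units.coeHom (Matrix (Fin n ⊕ Fin n) (Fin n ⊕ Fin n) F)) (fun u v : (Fin n ⊕ Fin n → F) => ∑ i : Fin n, (u (Sum.inl i) * v (Sum.inr i) + u (Sum.inr i) * v (Sum.inl i))) ∨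
    (∃ Q : QuadraticForm F (Fin n ⊕ Fin n → F), (∀ u v, QuadraticMap.polar ⇑Q u v = (fun u v : (Fin n ⊕ Fin n → F) => ∑ i : Fin n, (u (Sum.inl i) * v (Sum.inr i) + u (Sum.inr i) * v (Sum.inl i))) u v) ∧
      (L = Cfsg.isometryGroup F ⇑Q ∨
        ∀ g : GL (Fin n ⊕ Fin n) F, g ∈ L ↔ (g ∈ Cfsg.isometryGroup F ⇑Q ∧ Even ((g : Matrix (Fin n ⊕ Fin n) (Fin n ⊕ Fin n) F) - 1).rank))) ∨
    (Fintype.card F = 2 ∧ n = 2 ∧ (Nonempty (↥L ≃* ↥(alternatingGroup (Fin 6))) ∨ Nonempty (↥L ≃* Equiv.Perm (Fin 5)))) := by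
  classical
  have hA := stdB_alt (n := n) (F := F)
  have hN := stdB_nondeg (n := n) (F := F)
  have hfr := finrank_std (n := n) (F := F)
  have hdim : 3 ≤ Module.finrank F (Fin n ⊕ Fin n → F) := by omega
  set L' := L.map glToLin.toMonoidHom with hL'
  set X' := X.map glToLin.toMonoidHom with hX'
  have hmem : ∀ g : GL (Fin n ⊕ Fin n) F, glToLin g ∈ L' ↔ g ∈ L := by
    intro g
    rw [hL']
    exact Subgroup.mem_map_iff_mem glToLin.injective
  have hmem' : ∀ g, g ∈ L' ↔ glToLin.symm g ∈ L := by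
    intro g
    rw [← hmem (glToLin.symm g), MulEquiv.apply_symm_apply]
  have hLi : L' ≤ isomGroup (stdB n F) := by
    rintro _ ⟨g, hg, rfl⟩
    exact hLG hg
  have hirr' : ∀ W : Submodule F (Fin n ⊕ Fin n → F), (∀ g ∈ L', ∀ w ∈ W, g w ∈ W) → W = ⊥ ∨ W = ⊤ := by
    intro W hW
    refine hirr W fun g hg w hw => ?_
    exact hW (glToLin g) ((hmem g).2 hg) w hw
  -- the root data
  have hXP : X' ≤ coreP n F a := by
    apply Subgroup.map_mono
    exact hXO (stabH n F a) (fun g => Iff.rfl)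
  have hform : ∀ x ∈ X', ∃ z c, stdB n F z a = 0 ∧ ∀ v, x v = rootVec (stdB n F) a z c v := fun x hx =>
    P_form hA hN coreP_isom coreP_fix coreP_pgroup coreP_normal ha (hXP hx)
  have hker : Nat.card (LinearMap.ker ((stdB n F).flip a)) = Fintype.card F ^ (2 * n - 1) := by
    have hne : (stdB n F).flip a ≠ 0 := by
      intro h0
      apply ha
      apply hN.2
      intro x
      have := congrArg (fun f => f x) h0
      simpa using this
    have h1 := Module.Dual.finrank_ker_add_one_of_ne_zero hne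
    rw [hfr] at h1
    rw [Module.natCard_eq_pow_finrank (K := F), Nat.card_eq_fintype_card]
    congr 1
    omega
  have hcard' : Nat.card X' * Nat.card F = Nat.card (LinearMap.ker ((stdB n F).flip a)) := by
    have h1 : Nat.card X' = Nat.card X := by
      rw [hX']
      exact Nat.card_congr (X.equivMapOfInjective _ glToLin.injective).symm.toEquiv
    rw [h1, hcard, hker, Nat.card_eq_fintype_card, ← pow_succ]
    congr 1
    omega
  have hntv' : ∀ x ∈ X', ∀ c : F, (∀ v, x v = v + (c * stdB n F v a) • a) → c = 0 := by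
    rintro _ ⟨x, hx, rfl⟩ c hc
    by_contra hc0
    apply hntv x hx
    obtain ⟨t, ht⟩ := exists_B_eq_one hN ha
    have hcv : ∀ v, ((x : Matrix (Fin n ⊕ Fin n) (Fin n ⊕ Fin n) F) - 1) *ᵥ v
        = (c * stdB n F v a) • a := by
      intro v
      have h1 : (x : Matrix (Fin n ⊕ Fin n) (Fin n ⊕ Fin n) F) *ᵥ v = v + (c * stdB n F v a) • a := hc v
      rw [Matrix.sub_mulVec, h1, Matrix.one_mulVec, add_sub_cancel_left]
    have hrange : ((x : Matrix (Fin n ⊕ Fin n) (Fin n ⊕ Fin n) F) - 1).mulVecLin.range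
        = Submodule.span F {a} := by
      apply le_antisymm
      · rintro _ ⟨v, rfl⟩
        rw [Matrix.mulVecLin_apply, hcv]
        exact Submodule.smul_mem _ _ (Submodule.mem_span_singleton_self a)
      · rw [Submodule.span_singleton_le_iff_mem]
        refine ⟨c⁻¹ • t, ?_⟩
        rw [Matrix.mulVecLin_apply, hcv]
        simp [ht, hc0]
    rw [Matrix.rank, hrange]
    exact finrank_span_singleton ha
  obtain ⟨κ, hκ⟩ := rootData_of_X hA hN ha (X := X') (L := L') (Subgroup.map_mono hXL) hform hcard'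
    hntv'
  have haP : a ∈ Pts (stdB n F) L' := ⟨κ, hκ⟩
  -- conversion of the conclusions
  have c1 : L' = isomGroup (stdB n F) → L = Cfsg.preserving (Units.coeHom (Matrix (Fin n ⊕ Fin n) (Fin n ⊕ Fin n) F)) (fun u v : (Fin n ⊕ Fin n → F) => ∑ i : Fin n, (u (Sum.inl i) * v (Sum.inr i) + u (Sum.inr i) * v (Sum.inl i))) := by
    intro h
    ext g
    rw [← hmem g, h, mem_preserving_iff]
  have c2 : ∀ Q, IsQF (stdB n F) Q → (L' = orthGroup Q ∨ ∀ g, g ∈ L' ↔ g ∈ orthGroup Q ∧ Even (rk g)) →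
      ∃ Q : QuadraticForm F (Fin n ⊕ Fin n → F), (∀ u v, QuadraticMap.polar ⇑Q u v = (fun u v : (Fin n ⊕ Fin n → F) => ∑ i : Fin n, (u (Sum.inl i) * v (Sum.inr i) + u (Sum.inr i) * v (Sum.inl i))) u v) ∧
      (L = Cfsg.isometryGroup F ⇑Q ∨
        ∀ g : GL (Fin n ⊕ Fin n) F, g ∈ L ↔ (g ∈ Cfsg.isometryGroup F ⇑Q ∧ Even ((g : Matrix (Fin n ⊕ Fin n) (Fin n ⊕ Fin n) F) - 1).rank)) := by
    intro Q hQ h
    let Q' : QuadraticForm F (Fin n ⊕ Fin n → F) :=
      { toFun := Q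
        toFun_smul := fun s v => by
          rw [hQ.smul, smul_eq_mul, sq]
        exists_companion' := ⟨stdB n F, fun u v => hQ.add u v⟩ }
    have hQ' : (⇑Q' : (Fin n ⊕ Fin n → F) → F) = Q := rfl
    refine ⟨Q', fun u v => ?_, ?_⟩
    · rw [QuadraticMap.polar, hQ', hQ.add, stdB_apply]
      ring
    · rw [hQ']
      rcases h with h | h
      · left
        ext g
        rw [← hmem g, h, mem_isometryGroup_iff]
      · right
        intro g
        rw [← hmem g, h, mem_isometryGroup_iff, rk_glToLin]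
  by_cases hbig : 2 < Nat.card F ∨ 6 ≤ Module.finrank F (Fin n ⊕ Fin n → F)
  · rcases main_abstract hA hN hLi hirr' hdim hbig haP with h | ⟨Q, hQ, h⟩
    · exact Or.inl (c1 h)
    · exact Or.inr (Or.inl (c2 Q hQ h))
  · push Not at hbig
    have hq : Fintype.card F = 2 := by
      have h1 : 1 < Fintype.card F := Fintype.one_lt_card
      rw [Nat.card_eq_fintype_card] at hbig
      omega
    have hn2 : n = 2 := by
      have := hbig.2
      omega
    rcases hsmall hq hn2 L' hLi hirr' haP with h | ⟨Q, hQ, h⟩ | h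
    · exact Or.inl (c1 h)
    · exact Or.inr (Or.inl (c2 Q hQ h))
    · refine Or.inr (Or.inr ⟨hq, hn2, ?_⟩)
      have e : ↥L ≃* ↥L' := L.equivMapOfInjective _ glToLin.injective
      rcases h with h | h
      · obtain ⟨h⟩ := h
        exact Or.inl ⟨e.trans h⟩
      · obtain ⟨h⟩ := h
        exact Or.inr ⟨e.trans h⟩

end Cfsg.Agent.Lib.SpRoot
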