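/-
A small kernel-checked closure engine for permutations of six points.
-/
import Mathlib

set_option autoImplicit false
set_option linter.unusedSectionVars false
set_option linter.unusedVariables false
set_option linter.unusedSimpArgs false

namespace Cfsg.Agent.Lib.SpRoot.Six

abbrev P6 := Equiv.Perm (Fin 6)

/-- Digits in base 6. -/
def dg (c i : ℕ) : ℕ := Nat.mod (Nat.div c (Nat.pow 6 i)) 6

/-- Product of codes. -/
def mulC (c d : ℕ) : ℕ :=
  Nat.add (dg c (dg d 0)) (Nat.mul 6 (Nat.add (dg c (dg d 1)) (Nat.mul 6 (Nat.add (dg c (dg d 2))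
    (Nat.mul 6 (Nat.add (dg c (dg d 3)) (Nat.mul 6 (Nat.add (dg c (dg d 4))
      (Nat.mul 6 (dg c (dg d 5)))))))))))

/-- The code of a permutation. -/
def enc (σ : P6) : ℕ :=
  (σ 0).val + 6 * ((σ 1).val + 6 * ((σ 2).val + 6 * ((σ 3).val + 6 * ((σ 4).val + 6 * (σ 5).val))))

/-- Add the images of `x` under the steps to the set `S`. -/
def addAll : List (ℕ → ℕ) → ℕ → ℕ → List ℕ → ℕ × List ℕ
  | [], _, S, acc => (S, acc)
  | g :: gs, x, S, acc =>
    let y := g x
    bif Nat.testBit S y then addAll gs x S acc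
    else addAll gs x (Nat.lor S (Nat.shiftLeft 1 y)) (y :: acc)

/-- One breadth-first layer. -/
def layerC (gens : List (ℕ → ℕ)) : List ℕ → ℕ → List ℕ → ℕ × List ℕ
  | [], S, acc => (S, acc)
  | x :: xs, S, acc =>
    let r := addAll gens x S acc
    layerC gens xs r.1 r.2

/-- Breadth-first closure with fuel. -/
def closC (gens : List (ℕ → ℕ)) : ℕ → ℕ → List ℕ → ℕ
  | 0, S, _ => S
  | k + 1, S, fr =>
    match fr with
    | [] => S
    | _ =>
      let r := layerC gens fr S []
      closC gens k r.1 r.2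

/-- The set with the given elements. -/
def setOf : List ℕ → ℕ
  | [] => 0
  | x :: xs => Nat.lor (setOf xs) (Nat.shiftLeft 1 x)

/-- The closure of a set of start points under steps. -/
def closFrom (gens : List (ℕ → ℕ)) (start : List ℕ) : ℕ := closC gens 60 (setOf start) start

/-- Right multiplications. -/
def rightSteps (G : List ℕ) : List (ℕ → ℕ) := G.map fun g x => mulC x g

/-- Left multiplications. -/
def leftSteps (G : List ℕ) : List (ℕ → ℕ) := G.map fun g x => mulC g x

/-- The code of the identity. -/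
def idC : ℕ := 0 + 6 * (1 + 6 * (2 + 6 * (3 + 6 * (4 + 6 * 5))))

/-- The group generated by `gens`. -/
def grp (G : List ℕ) : ℕ := closFrom (rightSteps G) [idC]

/-- The union of the double cosets of the given representatives. -/
def dbl (G reps : List ℕ) : ℕ := closFrom (rightSteps G ++ leftSteps G) reps

/-! ### Soundness -/

theorem testBit_lor_shift (S y c : ℕ) :
    Nat.testBit (Nat.lor S (Nat.shiftLeft 1 y)) c = (Nat.testBit S c || decide (c = y)) := by
  have h1 : Nat.lor S (Nat.shiftLeft 1 y) = S ||| (1 <<< y) := rfl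
  rw [h1, Nat.testBit_or, Nat.one_shiftLeft, Nat.testBit_two_pow]
  by_cases h : c = y
  · simp [h]
  · simp [h, Ne.symm h]

theorem addAll_sound (P : ℕ → Prop) (gens' : List (ℕ → ℕ)) (x : ℕ)
    (hstep : ∀ g ∈ gens', P (g x)) :
    ∀ (S : ℕ) (acc : List ℕ), (∀ c, Nat.testBit S c = true → P c) → (∀ c ∈ acc, P c) →
      (∀ c, Nat.testBit (addAll gens' x S acc).1 c = true → P c) ∧
        (∀ c ∈ (addAll gens' x S acc).2, P c) := by
  induction gens' with
  | nil => exact fun S acc h1 h2 => ⟨h1, h2⟩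
  | cons g gs ih =>
    intro S acc h1 h2
    have hy := hstep g (by simp)
    have hg : ∀ g ∈ gs, P (g x) := fun g' hg' => hstep g' (by simp [hg'])
    simp only [addAll]
    cases hb : Nat.testBit S (g x) with
    | true => exact ih hg S acc h1 h2
    | false =>
      refine ih hg _ _ (fun c hc => ?_) (fun c hc => ?_)
      · rw [testBit_lor_shift] at hc
        simp only [Bool.or_eq_true, decide_eq_true_eq] at hc
        rcases hc with hc | hc
        · exact h1 c hc
        · rw [hc]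
          exact hy
      · simp only [List.mem_cons] at hc
        rcases hc with hc | hc
        · rw [hc]
          exact hy
        · exact h2 c hc

theorem layerC_sound (P : ℕ → Prop) (gens : List (ℕ → ℕ))
    (hstep : ∀ x, ∀ g ∈ gens, P x → P (g x)) :
    ∀ (fr : List ℕ) (S : ℕ) (acc : List ℕ), (∀ c ∈ fr, P c) → (∀ c, Nat.testBit S c = true → P c) →
      (∀ c ∈ acc, P c) →
      (∀ c, Nat.testBit (layerC gens fr S acc).1 c = true → P c) ∧
        (∀ c ∈ (layerC gens fr S acc).2, P c) := by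
  intro fr
  induction fr with
  | nil => exact fun S acc _ h1 h2 => ⟨h1, h2⟩
  | cons x xs ih =>
    intro S acc h0 h1 h2
    simp only [layerC]
    have hx : P x := h0 x (by simp)
    obtain ⟨h3, h4⟩ := addAll_sound P gens x (fun g hg => hstep x g hg hx) S acc h1 h2
    exact ih _ _ (fun c hc => h0 c (by simp [hc])) h3 h4

theorem closC_sound (P : ℕ → Prop) (gens : List (ℕ → ℕ))
    (hstep : ∀ x, ∀ g ∈ gens, P x → P (g x)) :
    ∀ (k S : ℕ) (fr : List ℕ), (∀ c, Nat.testBit S c = true → P c) → (∀ c ∈ fr, P c) →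
      ∀ c, Nat.testBit (closC gens k S fr) c = true → P c := by
  intro k
  induction k with
  | zero => exact fun S fr h1 _ => h1
  | succ k ih =>
    intro S fr h1 h2
    cases fr with
    | nil => exact h1
    | cons x xs =>
      obtain ⟨h3, h4⟩ := layerC_sound P gens hstep (x :: xs) S [] h2 h1 (by simp)
      exact ih _ _ h3 h4

theorem setOf_sound (P : ℕ → Prop) (l : List ℕ) (h : ∀ c ∈ l, P c) :
    ∀ c, Nat.testBit (setOf l) c = true → P c := by
  induction l with
  | nil =>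
    intro c hc
    simp [setOf] at hc
  | cons x xs ih =>
    intro c hc
    simp only [setOf] at hc
    rw [testBit_lor_shift] at hc
    simp only [Bool.or_eq_true, decide_eq_true_eq] at hc
    rcases hc with hc | hc
    · exact ih (fun c hc' => h c (by simp [hc'])) c hc
    · rw [hc]
      exact h x (by simp)

theorem closFrom_sound (P : ℕ → Prop) (gens : List (ℕ → ℕ)) (start : List ℕ)
    (hstep : ∀ x, ∀ g ∈ gens, P x → P (g x)) (h0 : ∀ c ∈ start, P c) :
    ∀ c, Nat.testBit (closFrom gens start) c = true → P c :=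
  closC_sound P gens hstep 60 _ _ (setOf_sound P start h0) h0

/-! ### Digits and permutations -/

/-- `c` is the code of `σ` (up to leading digits). -/
def Rep (c : ℕ) (σ : P6) : Prop := ∀ i : Fin 6, dg c i.val = (σ i).val

theorem dg_lt (c i : ℕ) : dg c i < 6 := Nat.mod_lt _ (by norm_num)

theorem dg_code (a0 a1 a2 a3 a4 a5 : ℕ) (h0 : a0 < 6) (h1 : a1 < 6) (h2 : a2 < 6) (h3 : a3 < 6)
    (h4 : a4 < 6) (h5 : a5 < 6) :
    dg (a0 + 6 * (a1 + 6 * (a2 + 6 * (a3 + 6 * (a4 + 6 * a5))))) 0 = a0 ∧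
    dg (a0 + 6 * (a1 + 6 * (a2 + 6 * (a3 + 6 * (a4 + 6 * a5))))) 1 = a1 ∧
    dg (a0 + 6 * (a1 + 6 * (a2 + 6 * (a3 + 6 * (a4 + 6 * a5))))) 2 = a2 ∧
    dg (a0 + 6 * (a1 + 6 * (a2 + 6 * (a3 + 6 * (a4 + 6 * a5))))) 3 = a3 ∧
    dg (a0 + 6 * (a1 + 6 * (a2 + 6 * (a3 + 6 * (a4 + 6 * a5))))) 4 = a4 ∧
    dg (a0 + 6 * (a1 + 6 * (a2 + 6 * (a3 + 6 * (a4 + 6 * a5))))) 5 = a5 := by
  have hp (k v : ℕ) (x : ℕ) (h : Nat.pow 6 k = v) : dg x k = (x / v) % 6 := by
    show Nat.mod (Nat.div x (Nat.pow 6 k)) 6 = _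
    rw [h]
    rfl
  rw [hp 0 1 _ (by norm_num), hp 1 6 _ (by norm_num), hp 2 36 _ (by norm_num),
    hp 3 216 _ (by norm_num), hp 4 1296 _ (by norm_num), hp 5 7776 _ (by norm_num)]
  omega

theorem dg_mulC (c d : ℕ) (i : Fin 6) : dg (mulC c d) i.val = dg c (dg d i.val) := by
  have h := dg_code _ _ _ _ _ _ (dg_lt c (dg d 0)) (dg_lt c (dg d 1)) (dg_lt c (dg d 2))
    (dg_lt c (dg d 3)) (dg_lt c (dg d 4)) (dg_lt c (dg d 5))
  obtain ⟨h0, h1, h2, h3, h4, h5⟩ := h
  have : mulC c d = (dg c (dg d 0)) + 6 * ((dg c (dg d 1)) + 6 * ((dg c (dg d 2)) + 6 * ((dg c (dg d 3)) + 6 * ((dg c (dg d 4)) + 6 * (dg c (dg d 5)))))) := rfl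
  rw [this]
  fin_cases i
  · exact h0
  · exact h1
  · exact h2
  · exact h3
  · exact h4
  · exact h5

theorem rep_enc (σ : P6) : Rep (enc σ) σ := by
  have h := dg_code _ _ _ _ _ _ (σ 0).isLt (σ 1).isLt (σ 2).isLt (σ 3).isLt (σ 4).isLt (σ 5).isLt
  obtain ⟨h0, h1, h2, h3, h4, h5⟩ := h
  intro i
  fin_cases i
  · exact h0
  · exact h1
  · exact h2
  · exact h3
  · exact h4
  · exact h5

theorem rep_unique {c : ℕ} {σ τ : P6} (h1 : Rep c σ) (h2 : Rep c τ) : σ = τ := by
  ext i
  rw [← h1 i, h2 i]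

theorem rep_mul {c d : ℕ} {σ τ : P6} (h1 : Rep c σ) (h2 : Rep d τ) : Rep (mulC c d) (σ * τ) := by
  intro i
  rw [dg_mulC, h2 i, Equiv.Perm.mul_apply]
  exact h1 (τ i)

theorem rep_one : Rep idC (1 : P6) := by
  intro i
  fin_cases i <;> decide

/-- The two-sided inverse helper: right cancellation. -/
theorem rep_of_mul_right {x g : ℕ} {σ γ : P6} (h1 : Rep (mulC x g) σ) (h2 : Rep g γ) :
    Rep x (σ * γ⁻¹) := by
  intro i
  have h := h1 (γ⁻¹ i)
  rw [dg_mulC, h2 (γ⁻¹ i)] at h
  simpa using h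

theorem rep_of_mul_left {x g : ℕ} {σ γ : P6} (h1 : Rep (mulC g x) σ) (h2 : Rep g γ) :
    Rep x (γ⁻¹ * σ) := by
  intro i
  have h := h1 i
  rw [dg_mulC] at h
  have h3 := h2 ⟨dg x i.val, dg_lt _ _⟩
  simp only at h3
  rw [h3] at h
  have h4 : γ ⟨dg x i.val, dg_lt _ _⟩ = σ i := Fin.ext h
  rw [Equiv.Perm.mul_apply, ← h4]
  simp

/-- The codes lying in a subgroup. -/
def InL (L : Subgroup P6) (G : List ℕ) : Prop := ∀ c ∈ G, ∃ τ ∈ L, Rep c τ

theorem grp_sound {L : Subgroup P6} {G : List ℕ} (hG : InL L G) :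
    ∀ c, Nat.testBit (grp G) c = true → ∃ τ ∈ L, Rep c τ := by
  refine closFrom_sound (fun c => ∃ τ ∈ L, Rep c τ) _ _ ?_ ?_
  · intro x g hg ⟨τ, hτ, hr⟩
    simp only [rightSteps, List.mem_map] at hg
    obtain ⟨g', hg', rfl⟩ := hg
    obtain ⟨γ, hγ, hrg⟩ := hG g' hg'
    exact ⟨τ * γ, L.mul_mem hτ hγ, rep_mul hr hrg⟩
  · intro c hc
    simp only [List.mem_singleton] at hc
    subst hc
    exact ⟨1, L.one_mem, rep_one⟩

theorem dbl_sound {L : Subgroup P6} {G reps : List ℕ} (hG : InL L G) :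
    ∀ c, Nat.testBit (dbl G reps) c = true → ∀ σ, Rep c σ → σ ∈ L → ∃ r ∈ reps, ∃ ρ ∈ L, Rep r ρ := by
  refine closFrom_sound (fun c => ∀ σ, Rep c σ → σ ∈ L → ∃ r ∈ reps, ∃ ρ ∈ L, Rep r ρ) _ _ ?_ ?_
  · intro x f hf hx σ hσ hσL
    simp only [rightSteps, leftSteps, List.mem_append, List.mem_map] at hf
    rcases hf with ⟨g', hg', rfl⟩ | ⟨g', hg', rfl⟩
    · obtain ⟨γ, hγ, hrg⟩ := hG g' hg'
      exact hx _ (rep_of_mul_right hσ hrg) (L.mul_mem hσL (L.inv_mem hγ))
    · obtain ⟨γ, hγ, hrg⟩ := hG g' hg'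
      exact hx _ (rep_of_mul_left hσ hrg) (L.mul_mem (L.inv_mem hγ) hσL)
  · intro c hc σ hσ hσL
    exact ⟨c, hc, σ, hσL, hσ⟩

/-- The check of a node: every permutation code is covered or allowed, and each representative
leads to a kid. -/
def nodeC (ok : ℕ → Bool) (allP G reps : List ℕ) (kids : List (List ℕ)) : Bool :=
  (let U := dbl G reps; allP.all fun c => ok c || Nat.testBit U c) &&
    reps.all fun r =>
      let S := grp (r :: G)
      kids.any fun K => K.all fun c => Nat.testBit S c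

theorem nodeC_sound {ok : ℕ → Bool} {allP G reps : List ℕ} {kids : List (List ℕ)}
    (hall : ∀ σ : P6, enc σ ∈ allP) (h : nodeC ok allP G reps kids = true)
    {L : Subgroup P6} (hG : InL L G) {σ : P6} (hσ : σ ∈ L) (hok : ok (enc σ) = false) :
    ∃ K ∈ kids, InL L K := by
  simp only [nodeC, Bool.and_eq_true, List.all_eq_true, Bool.or_eq_true, List.any_eq_true] at h
  obtain ⟨h1, h2⟩ := h
  have h3 := h1 _ (hall σ)
  rcases h3 with h3 | h3
  · rw [hok] at h3
    cases h3
  obtain ⟨r, hr, ρ, hρ, hrep⟩ := dbl_sound hG _ h3 σ (rep_enc σ) hσ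
  obtain ⟨K, hK, hK2⟩ := h2 r hr
  refine ⟨K, hK, ?_⟩
  have hG' : InL L (r :: G) := by
    intro c hc
    simp only [List.mem_cons] at hc
    rcases hc with rfl | hc
    · exact ⟨ρ, hρ, hrep⟩
    · exact hG c hc
  intro c hc
  exact grp_sound hG' c (hK2 c hc)

/-! ### Odd sets, involutions, and the hypotheses -/

/-- `σ` stabilises the set `S` up to complement. -/
def StabOdd (σ : P6) (S : Fin 6 → Bool) : Prop := (∀ i, S (σ i) = S i) ∨ (∀ i, S (σ i) = !S i)

/-- Code check of `StabOdd`. -/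
def oddC (mask c : ℕ) : Bool :=
  ((Nat.testBit mask (dg c 0) == Nat.testBit mask 0) && (Nat.testBit mask (dg c 1) == Nat.testBit mask 1) &&
    (Nat.testBit mask (dg c 2) == Nat.testBit mask 2) && (Nat.testBit mask (dg c 3) == Nat.testBit mask 3) &&
    (Nat.testBit mask (dg c 4) == Nat.testBit mask 4) && (Nat.testBit mask (dg c 5) == Nat.testBit mask 5)) ||
  ((Nat.testBit mask (dg c 0) != Nat.testBit mask 0) && (Nat.testBit mask (dg c 1) != Nat.testBit mask 1) &&
    (Nat.testBit mask (dg c 2) != Nat.testBit mask 2) && (Nat.testBit mask (dg c 3) != Nat.testBit mask 3) &&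
    (Nat.testBit mask (dg c 4) != Nat.testBit mask 4) && (Nat.testBit mask (dg c 5) != Nat.testBit mask 5))

theorem oddC_sound {mask : ℕ} {σ : P6} (h : oddC mask (enc σ) = true) :
    StabOdd σ (fun i => Nat.testBit mask i.val) := by
  have hr := rep_enc σ
  have h0 : dg (enc σ) 0 = (σ 0).val := hr 0
  have h1 : dg (enc σ) 1 = (σ 1).val := hr 1
  have h2 : dg (enc σ) 2 = (σ 2).val := hr 2
  have h3 : dg (enc σ) 3 = (σ 3).val := hr 3
  have h4 : dg (enc σ) 4 = (σ 4).val := hr 4
  have h5 : dg (enc σ) 5 = (σ 5).val := hr 5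
  simp only [oddC, Bool.or_eq_true, Bool.and_eq_true, beq_iff_eq, bne_iff_ne] at h
  rw [h0, h1, h2, h3, h4, h5] at h
  rcases h with ⟨⟨⟨⟨⟨a0, a1⟩, a2⟩, a3⟩, a4⟩, a5⟩ | ⟨⟨⟨⟨⟨a0, a1⟩, a2⟩, a3⟩, a4⟩, a5⟩
  · left
    intro i
    fin_cases i
    · exact a0
    · exact a1
    · exact a2
    · exact a3
    · exact a4
    · exact a5
  · right
    intro i
    have key : ∀ x y : Bool, x ≠ y → x = !y := by decide
    fin_cases i
    · exact key _ _ a0
    · exact key _ _ a1
    · exact key _ _ a2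
    · exact key _ _ a3
    · exact key _ _ a4
    · exact key _ _ a5

/-- Code check of commuting. -/
def invC (m c : ℕ) : Bool := Nat.beq (mulC c m) (mulC m c)

theorem invC_sound {mc : ℕ} {m σ : P6} (hm : Rep mc m) (h : invC mc (enc σ) = true) :
    σ * m = m * σ := by
  have h1 : mulC (enc σ) mc = mulC mc (enc σ) := Nat.eq_of_beq_eq_true h
  have h2 := rep_mul (rep_enc σ) hm
  have h3 := rep_mul hm (rep_enc σ)
  rw [h1] at h2
  exact rep_unique h2 h3

/-- The hypotheses on the subgroup. -/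
structure Hyp (L : Subgroup P6) : Prop where
  noT : Equiv.swap (0 : Fin 6) 1 ∉ L
  odd : ∀ S : Fin 6 → Bool, Odd (Finset.univ.filter fun i => S i = true).card →
    ∃ σ ∈ L, ¬ StabOdd σ S
  inv : ∀ m : P6, m * m = 1 → m ≠ 1 → ∃ σ ∈ L, σ * m ≠ m * σ

/-- The goal. -/
def Goal (L : Subgroup P6) : Prop := Nat.card L = 360 ∨ Nat.card L = 120

/-- All permutation codes. -/
def t0C : ℕ := 1 + 6 * (0 + 6 * (2 + 6 * (3 + 6 * (4 + 6 * 5))))

theorem rep_t0 : Rep t0C (Equiv.swap (0 : Fin 6) 1) := by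
  unfold Rep
  decide

theorem dead_of {L : Subgroup P6} (H : Hyp L) (h : InL L [t0C]) {A : Prop} : A := by
  obtain ⟨τ, hτ, hr⟩ := h t0C (by simp)
  rw [rep_unique hr rep_t0] at hτ
  exact absurd hτ H.noT

theorem node_odd {allP G reps : List ℕ} {kids : List (List ℕ)} (hall : ∀ σ : P6, enc σ ∈ allP)
    {L : Subgroup P6} (H : Hyp L) (mask : ℕ)
    (hodd : Odd (Finset.univ.filter fun i : Fin 6 => Nat.testBit mask i.val = true).card)
    (hG : InL L G) (h : nodeC (oddC mask) allP G reps kids = true) :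
    ∃ K ∈ kids, InL L K := by
  obtain ⟨σ, hσ, hn⟩ := H.odd _ hodd
  refine nodeC_sound hall h hG hσ ?_
  cases hc : oddC mask (enc σ) with
  | false => rfl
  | true => exact absurd (oddC_sound hc) hn

theorem node_inv {allP G reps : List ℕ} {kids : List (List ℕ)} (hall : ∀ σ : P6, enc σ ∈ allP)
    {L : Subgroup P6} (H : Hyp L) {mc : ℕ} {m : P6} (hm : Rep mc m) (h1 : m * m = 1) (h2 : m ≠ 1)
    (hG : InL L G) (h : nodeC (invC mc) allP G reps kids = true) :
    ∃ K ∈ kids, InL L K := by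
  obtain ⟨σ, hσ, hn⟩ := H.inv m h1 h2
  refine nodeC_sound hall h hG hσ ?_
  cases hc : invC mc (enc σ) with
  | false => rfl
  | true => exact absurd (invC_sound hm hc) hn

theorem enc_injective : Function.Injective enc := by
  intro σ τ h
  have h1 := rep_enc σ
  rw [h] at h1
  exact rep_unique h1 (rep_enc τ)

theorem eq_enc_of_rep {c : ℕ} {τ : P6} (hc : c < 46656) (h : Rep c τ) : enc τ = c := by
  have hp (k v : ℕ) (x : ℕ) (h : Nat.pow 6 k = v) : dg x k = (x / v) % 6 := by
    show Nat.mod (Nat.div x (Nat.pow 6 k)) 6 = _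
    rw [h]
    rfl
  have h0 : dg c 0 = (τ 0).val := h 0
  have h1 : dg c 1 = (τ 1).val := h 1
  have h2 : dg c 2 = (τ 2).val := h 2
  have h3 : dg c 3 = (τ 3).val := h 3
  have h4 : dg c 4 = (τ 4).val := h 4
  have h5 : dg c 5 = (τ 5).val := h 5
  rw [hp 0 1 _ (by norm_num)] at h0
  rw [hp 1 6 _ (by norm_num)] at h1
  rw [hp 2 36 _ (by norm_num)] at h2
  rw [hp 3 216 _ (by norm_num)] at h3
  rw [hp 4 1296 _ (by norm_num)] at h4
  rw [hp 5 7776 _ (by norm_num)] at h5
  unfold enc
  omega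

theorem node_term {allP G reps : List ℕ} (hall : ∀ σ : P6, enc σ ∈ allP) (hnd : allP.Nodup)
    (hlt : ∀ c ∈ allP, c < 46656)
    {L : Subgroup P6} (H : Hyp L) (hG : InL L G)
    (h : nodeC (fun c => Nat.testBit (grp G) c) allP G reps [[t0C]] = true) :
    Nat.card L = (allP.filter fun c => Nat.testBit (grp G) c).length := by
  classical
  have h1 : ∀ σ ∈ L, Nat.testBit (grp G) (enc σ) = true := by
    intro σ hσ
    cases hc : Nat.testBit (grp G) (enc σ) with
    | true => rfl
    | false =>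
      obtain ⟨K, hK, hKL⟩ := nodeC_sound hall h hG hσ hc
      simp only [List.mem_singleton] at hK
      subst hK
      exact dead_of H hKL
  set l := allP.filter fun c => Nat.testBit (grp G) c with hl
  have hnd' : l.Nodup := hnd.filter _
  have himg : enc '' (L : Set P6) = (l.toFinset : Set ℕ) := by
    ext c
    simp only [Set.mem_image, SetLike.mem_coe, Finset.mem_coe, List.mem_toFinset]
    constructor
    · rintro ⟨σ, hσ, rfl⟩
      exact List.mem_filter.2 ⟨hall σ, h1 σ hσ⟩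
    · intro hc
      obtain ⟨τ, hτ, hr⟩ := grp_sound hG c (List.mem_filter.1 hc).2
      exact ⟨τ, hτ, eq_enc_of_rep (hlt c (List.mem_filter.1 hc).1) hr⟩
  rw [← List.toFinset_card_of_nodup hnd', ← Set.ncard_coe_finset, ← himg,
    Set.ncard_image_of_injective _ enc_injective]
  rfl

/-! ### The list of all codes -/

/-- Strictly increasing lists. -/
def incC : ℕ → List ℕ → Bool
  | _, [] => true
  | a, b :: l => Nat.blt a b && incC b l

theorem inc_sound : ∀ (l : List ℕ) (a : ℕ), incC a l = true → (∀ x ∈ l, a < x) ∧ l.Nodup := by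
  intro l
  induction l with
  | nil => simp
  | cons b l ih =>
    intro a h
    simp only [incC, Bool.and_eq_true] at h
    obtain ⟨h1, h2⟩ := h
    have h3 : a < b := by
      have : Nat.ble (a + 1) b = true := h1
      exact Nat.le_of_ble_eq_true this
    obtain ⟨h4, h5⟩ := ih b h2
    refine ⟨?_, ?_⟩
    · intro x hx
      simp only [List.mem_cons] at hx
      rcases hx with rfl | hx
      · exact h3
      · exact h3.trans (h4 x hx)
    · refine List.nodup_cons.2 ⟨fun hb => lt_irrefl _ (h4 b hb), h5⟩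

/-- The digits of `c` are distinct. -/
def distinctC (c : ℕ) : Bool :=
  (dg c 0 != dg c 1) && (dg c 0 != dg c 2) && (dg c 0 != dg c 3) && (dg c 0 != dg c 4) && (dg c 0 != dg c 5) &&
  (dg c 1 != dg c 2) && (dg c 1 != dg c 3) && (dg c 1 != dg c 4) && (dg c 1 != dg c 5) &&
  (dg c 2 != dg c 3) && (dg c 2 != dg c 4) && (dg c 2 != dg c 5) &&
  (dg c 3 != dg c 4) && (dg c 3 != dg c 5) && (dg c 4 != dg c 5)

theorem distinctC_enc (σ : P6) : distinctC (enc σ) = true := by
  have hr := rep_enc σ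
  have h0 : dg (enc σ) 0 = (σ 0).val := hr 0
  have h1 : dg (enc σ) 1 = (σ 1).val := hr 1
  have h2 : dg (enc σ) 2 = (σ 2).val := hr 2
  have h3 : dg (enc σ) 3 = (σ 3).val := hr 3
  have h4 : dg (enc σ) 4 = (σ 4).val := hr 4
  have h5 : dg (enc σ) 5 = (σ 5).val := hr 5
  have key : ∀ i j : Fin 6, i ≠ j → (σ i).val ≠ (σ j).val := fun i j hij h =>
    hij (σ.injective (Fin.ext h))
  simp only [distinctC, h0, h1, h2, h3, h4, h5, Bool.and_eq_true, bne_iff_ne]
  simp only [and_assoc]
  refine ⟨key _ _ (by decide), key _ _ (by decide), key _ _ (by decide), key _ _ (by decide),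
    key _ _ (by decide), key _ _ (by decide), key _ _ (by decide), key _ _ (by decide),
    key _ _ (by decide), key _ _ (by decide), key _ _ (by decide), key _ _ (by decide),
    key _ _ (by decide), key _ _ (by decide), key _ _ (by decide)⟩

theorem enc_lt (σ : P6) : enc σ < 46656 := by
  have h0 := (σ 0).isLt
  have h1 := (σ 1).isLt
  have h2 := (σ 2).isLt
  have h3 := (σ 3).isLt
  have h4 := (σ 4).isLt
  have h5 := (σ 5).isLt
  unfold enc
  omega

/-- Check that a list contains all codes of permutations. -/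
def allCheck (l : List ℕ) : Bool :=
  let U := setOf l
  (List.range 46656).all fun c => !distinctC c || Nat.testBit U c

theorem allCheck_sound {l : List ℕ} (h : allCheck l = true) (σ : P6) : enc σ ∈ l := by
  simp only [allCheck, List.all_eq_true, List.mem_range, Bool.or_eq_true, Bool.not_eq_true'] at h
  rcases h _ (enc_lt σ) with h1 | h1
  · rw [distinctC_enc] at h1
    cases h1
  · exact setOf_sound (fun c => c ∈ l) l (fun c hc => hc) _ h1

theorem inL_of_grp {L : Subgroup P6} {G K : List ℕ} (hG : InL L G)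
    (h : K.all (fun c => Nat.testBit (grp G) c) = true) : InL L K := by
  intro c hc
  simp only [List.all_eq_true] at h
  exact grp_sound hG c (h c hc)

end Cfsg.Agent.Lib.SpRoot.Six
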