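/-
The exceptional isomorphism `S₆ ≅ Sp₄(2)` in coordinates.
-/
import Cfsg.Agent.Lib.SpRoot.Assemble
import Cfsg.Agent.Lib.SpRoot.SixEngine

set_option autoImplicit false
set_option linter.unusedSectionVars false
set_option linter.unusedVariables false
set_option linter.unusedSimpArgs false

namespace Cfsg.Agent.Lib.SpRoot.Six

open Cfsg.Agent.Lib.Classical.Alt

variable {F : Type*} [Field F] [Fintype F] [CharP F 2]

/-- The four dimensional space. -/
abbrev V4 (F : Type*) := Fin 2 ⊕ Fin 2 → F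

/-- The form. -/
noncomputable abbrev B4 (F : Type*) [Field F] : LinearMap.BilinForm F (V4 F) := stdB 2 F

theorem V4_ext {z w : V4 F} (h1 : z (Sum.inl 0) = w (Sum.inl 0)) (h2 : z (Sum.inl 1) = w (Sum.inl 1))
    (h3 : z (Sum.inr 0) = w (Sum.inr 0)) (h4 : z (Sum.inr 1) = w (Sum.inr 1)) : z = w := by
  funext s
  rcases s with s | s <;> fin_cases s
  · exact h1
  · exact h2
  · exact h3
  · exact h4

theorem B4_apply (u v : V4 F) : B4 F u v =
    u (Sum.inl 0) * v (Sum.inr 0) + u (Sum.inr 0) * v (Sum.inl 0) +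
      (u (Sum.inl 1) * v (Sum.inr 1) + u (Sum.inr 1) * v (Sum.inl 1)) := by
  rw [stdB_apply, Fin.sum_univ_two]

/-- The embedding of the four dimensional space into the even vectors. -/
def psi (z : V4 F) : Fin 6 → F :=
  ![z (Sum.inl 0), z (Sum.inl 0) + z (Sum.inr 0), z (Sum.inr 0),
    z (Sum.inl 1), z (Sum.inl 1) + z (Sum.inr 1), z (Sum.inr 1)]

/-- The retraction to the four dimensional space. -/
def piV (x : Fin 6 → F) : V4 F :=
  Sum.elim ![x 1 + x 2, x 4 + x 5] ![x 0 + x 1, x 3 + x 4]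

@[simp] theorem psi_0 (z : V4 F) : psi z 0 = z (Sum.inl 0) := rfl
@[simp] theorem psi_1 (z : V4 F) : psi z 1 = z (Sum.inl 0) + z (Sum.inr 0) := rfl
@[simp] theorem psi_2 (z : V4 F) : psi z 2 = z (Sum.inr 0) := rfl
@[simp] theorem psi_3 (z : V4 F) : psi z 3 = z (Sum.inl 1) := rfl
@[simp] theorem psi_4 (z : V4 F) : psi z 4 = z (Sum.inl 1) + z (Sum.inr 1) := rfl
@[simp] theorem psi_5 (z : V4 F) : psi z 5 = z (Sum.inr 1) := rfl

@[simp] theorem piV_l0 (x : Fin 6 → F) : piV x (Sum.inl 0) = x 1 + x 2 := rfl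
@[simp] theorem piV_l1 (x : Fin 6 → F) : piV x (Sum.inl 1) = x 4 + x 5 := rfl
@[simp] theorem piV_r0 (x : Fin 6 → F) : piV x (Sum.inr 0) = x 0 + x 1 := rfl
@[simp] theorem piV_r1 (x : Fin 6 → F) : piV x (Sum.inr 1) = x 3 + x 4 := rfl

theorem ext6 {x y : Fin 6 → F} (h0 : x 0 = y 0) (h1 : x 1 = y 1) (h2 : x 2 = y 2) (h3 : x 3 = y 3)
    (h4 : x 4 = y 4) (h5 : x 5 = y 5) : x = y := by
  funext i
  fin_cases i
  · exact h0
  · exact h1
  · exact h2
  · exact h3
  · exact h4
  · exact h5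

/-- The sum of the coordinates. -/
def ev (x : Fin 6 → F) : F := ∑ i, x i

/-- The dot product. -/
def dot (x y : Fin 6 → F) : F := ∑ i, x i * y i

theorem ev_eq (x : Fin 6 → F) : ev x = x 0 + x 1 + x 2 + x 3 + x 4 + x 5 := by
  simp only [ev, Fin.sum_univ_six]

theorem dot_eq (x y : Fin 6 → F) :
    dot x y = x 0 * y 0 + x 1 * y 1 + x 2 * y 2 + x 3 * y 3 + x 4 * y 4 + x 5 * y 5 := by
  simp only [dot, Fin.sum_univ_six]

theorem piV_psi (z : V4 F) : piV (psi z) = z := by
  apply V4_ext <;> simp <;> grind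

theorem ev_psi (z : V4 F) : ev (psi z) = 0 := by
  rw [ev_eq]
  simp
  grind

theorem psi_piV {y : Fin 6 → F} (hy : ev y = 0) : psi (piV y) = y + fun _ => y 0 + y 1 + y 2 := by
  rw [ev_eq] at hy
  apply ext6 <;> simp <;> grind

theorem piV_add (x y : Fin 6 → F) : piV (x + y) = piV x + piV y := by
  apply V4_ext <;> simp <;> ring

theorem psi_add (x y : V4 F) : psi (x + y) = psi x + psi y := by
  apply ext6 <;> simp <;> ring

theorem piV_smul (c : F) (x : Fin 6 → F) : piV (c • x) = c • piV x := by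
  apply V4_ext <;> simp <;> ring

theorem psi_smul (c : F) (x : V4 F) : psi (c • x) = c • psi x := by
  apply ext6 <;> simp <;> ring

theorem piV_const (s : F) : piV (fun _ => s) = 0 := by
  apply V4_ext <;> simp <;> grind

theorem dot_psi (u v : V4 F) : dot (psi u) (psi v) = B4 F u v := by
  rw [dot_eq, B4_apply]
  simp
  grind

theorem B_piV (x : Fin 6 → F) (z : V4 F) : B4 F (piV x) z = dot x (psi z) := by
  rw [dot_eq, B4_apply]
  simp
  grind

/-- The permutation action. -/
def P (σ : P6) (x : Fin 6 → F) : Fin 6 → F := fun i => x (σ⁻¹ i)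

theorem P_apply (σ : P6) (x : Fin 6 → F) (i : Fin 6) : P σ x i = x (σ⁻¹ i) := rfl

theorem P_mul (σ τ : P6) (x : Fin 6 → F) : P (σ * τ) x = P σ (P τ x) := by
  funext i
  simp [P]

theorem P_one (x : Fin 6 → F) : P 1 x = x := by
  funext i
  simp [P]

theorem P_add (σ : P6) (x y : Fin 6 → F) : P σ (x + y) = P σ x + P σ y := rfl

theorem P_smul (σ : P6) (c : F) (x : Fin 6 → F) : P σ (c • x) = c • P σ x := rfl

theorem P_const (σ : P6) (s : F) : P σ (fun _ => s) = fun _ => s := rfl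

theorem ev_P (σ : P6) (x : Fin 6 → F) : ev (P σ x) = ev x :=
  Equiv.sum_comp σ⁻¹ x

theorem dot_P (σ : P6) (x y : Fin 6 → F) : dot (P σ x) (P σ y) = dot x y :=
  Equiv.sum_comp σ⁻¹ (fun i => x i * y i)

/-- The map attached to a permutation. -/
def T (σ : P6) (z : V4 F) : V4 F := piV (P σ (psi z))

theorem T_add (σ : P6) (u v : V4 F) : T σ (u + v) = T σ u + T σ v := by
  simp only [T, psi_add, P_add, piV_add]

theorem T_smul (σ : P6) (c : F) (v : V4 F) : T σ (c • v) = c • T σ v := by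
  simp only [T, psi_smul, P_smul, piV_smul]

theorem psi_T (σ : P6) (z : V4 F) :
    psi (T σ z) = P σ (psi z) + fun _ => P σ (psi z) 0 + P σ (psi z) 1 + P σ (psi z) 2 :=
  psi_piV (by rw [ev_P, ev_psi])

theorem T_mul (σ τ : P6) (z : V4 F) : T (σ * τ) z = T σ (T τ z) := by
  conv_rhs => rw [T, psi_T, P_add, piV_add, P_const, piV_const, add_zero, ← P_mul]
  rfl

theorem T_one (z : V4 F) : T 1 z = z := by
  simp only [T, P_one, piV_psi]

/-- The linear automorphism attached to a permutation. -/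
noncomputable def ThetaE (σ : P6) : V4 F ≃ₗ[F] V4 F where
  toFun := T σ
  map_add' := T_add σ
  map_smul' := T_smul σ
  invFun := T σ⁻¹
  left_inv z := by
    rw [← T_mul, inv_mul_cancel, T_one]
  right_inv z := by
    rw [← T_mul, mul_inv_cancel, T_one]

theorem ThetaE_apply (σ : P6) (z : V4 F) : ThetaE σ z = T σ z := rfl

/-- The homomorphism from the symmetric group. -/
noncomputable def Theta : P6 →* (V4 F ≃ₗ[F] V4 F) where
  toFun := ThetaE
  map_one' := by
    ext1 z
    exact T_one z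
  map_mul' σ τ := by
    ext1 z
    exact T_mul σ τ z

theorem Theta_apply (σ : P6) (z : V4 F) : Theta σ z = T σ z := rfl

theorem T_isom (σ : P6) (u v : V4 F) : B4 F (T σ u) (T σ v) = B4 F u v := by
  rw [← dot_psi (T σ u), psi_T, psi_T]
  have h1 := ev_P σ (psi u)
  have h2 := ev_P σ (psi v)
  rw [ev_psi] at h1 h2
  have h3 := dot_P σ (psi u) (psi v)
  rw [dot_psi] at h3
  rw [← h3]
  generalize P σ (psi u) = x at *
  generalize P σ (psi v) = y at *
  rw [ev_eq] at h1 h2
  simp only [dot_eq, Pi.add_apply]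
  grind

theorem Theta_mem (σ : P6) : Theta σ ∈ isomGroup (B4 F) := fun x y => T_isom σ x y

/-! ### Pairs -/

/-- The sum of two coordinate vectors. -/
def ee (i j : Fin 6) : Fin 6 → F := Pi.single i 1 + Pi.single j 1

/-- The vector of a pair of points. -/
def vv (i j : Fin 6) : V4 F := piV (ee i j)

theorem ev_single (i : Fin 6) (c : F) : ev (Pi.single i c : Fin 6 → F) = c := by
  simp [ev]

theorem ev_add (x y : Fin 6 → F) : ev (x + y) = ev x + ev y := by
  simp [ev, Finset.sum_add_distrib]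

theorem ev_ee (i j : Fin 6) : ev (ee i j : Fin 6 → F) = 0 := by
  rw [ee, ev_add, ev_single, ev_single]
  grind

theorem dot_single (i : Fin 6) (y : Fin 6 → F) : dot (Pi.single i 1) y = y i := by
  simp [dot, Pi.single_apply, ite_mul]

theorem dot_add_left (x x' y : Fin 6 → F) : dot (x + x') y = dot x y + dot x' y := by
  simp [dot, add_mul, Finset.sum_add_distrib]

theorem dot_ee (i j : Fin 6) (y : Fin 6 → F) : dot (ee i j) y = y i + y j := by
  rw [ee, dot_add_left, dot_single, dot_single]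

theorem B_vv_left (i j : Fin 6) (z : V4 F) : B4 F (vv i j) z = psi z i + psi z j := by
  rw [vv, B_piV, dot_ee]

theorem P_single (σ : P6) (i : Fin 6) (c : F) : P σ (Pi.single i c) = Pi.single (σ i) c := by
  funext k
  simp only [P, Pi.single_apply]
  have : σ⁻¹ k = i ↔ k = σ i := by
    constructor
    · rintro rfl
      simp
    · rintro rfl
      simp
  simp only [this]

theorem P_ee (σ : P6) (i j : Fin 6) : P σ (ee i j : Fin 6 → F) = ee (σ i) (σ j) := by
  rw [ee, P_add, P_single, P_single, ee]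

theorem T_piV (σ : P6) {y : Fin 6 → F} (hy : ev y = 0) : T σ (piV y) = piV (P σ y) := by
  rw [T, psi_piV hy, P_add, P_const, piV_add, piV_const, add_zero]

theorem T_vv (σ : P6) (i j : Fin 6) : T σ (vv i j : V4 F) = vv (σ i) (σ j) := by
  rw [vv, T_piV σ (ev_ee i j), P_ee, vv]

theorem psi_vv (i j : Fin 6) (k : Fin 6) :
    psi (vv i j : V4 F) k = ee i j k + (ee i j 0 + ee i j 1 + ee i j 2 : F) := by
  rw [vv, psi_piV (ev_ee i j)]
  rfl

theorem B_vv_vv (i j k l : Fin 6) :
    B4 F (vv i j) (vv k l) = ee k l i + ee k l j := by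
  rw [B_vv_left, psi_vv, psi_vv]
  grind

theorem P_swap (i j : Fin 6) (x : Fin 6 → F) :
    P (Equiv.swap i j) x = x + (x i + x j) • ee i j := by
  funext k
  simp only [P, Equiv.swap_inv, Pi.add_apply, Pi.smul_apply, smul_eq_mul, ee, Pi.single_apply]
  by_cases h1 : k = i
  · subst h1
    by_cases h2 : k = j
    · subst h2
      simp
      grind
    · simp [h2]
      grind
  · by_cases h2 : k = j
    · subst h2
      simp [h1]
      grind
    · simp [h1, h2, Equiv.swap_apply_of_ne_of_ne]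

theorem T_swap (i j : Fin 6) (z : V4 F) :
    T (Equiv.swap i j) z = z + (1 * B4 F z (vv i j)) • vv i j := by
  have h1 : B4 F z (vv i j) = psi z i + psi z j := by
    rw [B_comm stdB_alt, B_vv_left]
  rw [T, P_swap, piV_add, piV_psi, piV_smul, h1, one_mul, vv]

/-! ### Coordinates of the pairs over the field with two elements -/

/-- `false`, `true` as elements of the field. -/
def emb (b : Bool) : F := if b then 1 else 0

theorem emb_xor (a b : Bool) : (emb (xor a b) : F) = emb a + emb b := by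
  cases a <;> cases b <;> simp [emb] <;> grind

theorem emb_inj {a b : Bool} (h : (emb a : F) = emb b) : a = b := by
  cases a <;> cases b <;> simp_all [emb]

/-- Coordinates of the images of the coordinate vectors. -/
def ubl0 : Fin 6 → Bool := ![false, true, true, false, false, false]
/-- Coordinates of the images of the coordinate vectors. -/
def ubl1 : Fin 6 → Bool := ![false, false, false, false, true, true]
/-- Coordinates of the images of the coordinate vectors. -/
def ubr0 : Fin 6 → Bool := ![true, true, false, false, false, false]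
/-- Coordinates of the images of the coordinate vectors. -/
def ubr1 : Fin 6 → Bool := ![false, false, false, true, true, false]

theorem vv_l0 (i j : Fin 6) : (vv i j : V4 F) (Sum.inl 0) = emb (xor (ubl0 i) (ubl0 j)) := by
  rw [emb_xor, vv, piV_l0, ee]
  have h : ∀ k : Fin 6, (Pi.single k (1 : F) : Fin 6 → F) 1 + (Pi.single k (1 : F) : Fin 6 → F) 2 = emb (ubl0 k) := by
    intro k
    fin_cases k <;> simp [ubl0, emb, Pi.single_apply]
  rw [← h i, ← h j]
  simp only [Pi.add_apply]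
  ring

theorem vv_l1 (i j : Fin 6) : (vv i j : V4 F) (Sum.inl 1) = emb (xor (ubl1 i) (ubl1 j)) := by
  rw [emb_xor, vv, piV_l1, ee]
  have h : ∀ k : Fin 6, (Pi.single k (1 : F) : Fin 6 → F) 4 + (Pi.single k (1 : F) : Fin 6 → F) 5 = emb (ubl1 k) := by
    intro k
    fin_cases k <;> simp [ubl1, emb, Pi.single_apply]
  rw [← h i, ← h j]
  simp only [Pi.add_apply]
  ring

theorem vv_r0 (i j : Fin 6) : (vv i j : V4 F) (Sum.inr 0) = emb (xor (ubr0 i) (ubr0 j)) := by
  rw [emb_xor, vv, piV_r0, ee]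
  have h : ∀ k : Fin 6, (Pi.single k (1 : F) : Fin 6 → F) 0 + (Pi.single k (1 : F) : Fin 6 → F) 1 = emb (ubr0 k) := by
    intro k
    fin_cases k <;> simp [ubr0, emb, Pi.single_apply]
  rw [← h i, ← h j]
  simp only [Pi.add_apply]
  ring

theorem vv_r1 (i j : Fin 6) : (vv i j : V4 F) (Sum.inr 1) = emb (xor (ubr1 i) (ubr1 j)) := by
  rw [emb_xor, vv, piV_r1, ee]
  have h : ∀ k : Fin 6, (Pi.single k (1 : F) : Fin 6 → F) 3 + (Pi.single k (1 : F) : Fin 6 → F) 4 = emb (ubr1 k) := by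
    intro k
    fin_cases k <;> simp [ubr1, emb, Pi.single_apply]
  rw [← h i, ← h j]
  simp only [Pi.add_apply]
  ring

theorem table_inj : ∀ i j k l : Fin 6, i ≠ j → k ≠ l →
    xor (ubl0 i) (ubl0 j) = xor (ubl0 k) (ubl0 l) →
    xor (ubl1 i) (ubl1 j) = xor (ubl1 k) (ubl1 l) →
    xor (ubr0 i) (ubr0 j) = xor (ubr0 k) (ubr0 l) →
    xor (ubr1 i) (ubr1 j) = xor (ubr1 k) (ubr1 l) → (i = k ∧ j = l) ∨ (i = l ∧ j = k) := by
  decide +kernel

theorem table_surj : ∀ a b c d : Bool, (a || b || c || d) = true →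
    ∃ i j : Fin 6, i ≠ j ∧ xor (ubl0 i) (ubl0 j) = a ∧ xor (ubl1 i) (ubl1 j) = b ∧
      xor (ubr0 i) (ubr0 j) = c ∧ xor (ubr1 i) (ubr1 j) = d := by
  decide +kernel

theorem table_ne : ∀ i j : Fin 6, i ≠ j →
    (xor (ubl0 i) (ubl0 j) || xor (ubl1 i) (ubl1 j) || xor (ubr0 i) (ubr0 j) ||
      xor (ubr1 i) (ubr1 j)) = true := by
  decide +kernel

theorem vv_inj {i j k l : Fin 6} (hij : i ≠ j) (hkl : k ≠ l) (h : (vv i j : V4 F) = vv k l) :
    (i = k ∧ j = l) ∨ (i = l ∧ j = k) := by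
  refine table_inj i j k l hij hkl (emb_inj (F := F) ?_) (emb_inj (F := F) ?_) (emb_inj (F := F) ?_)
    (emb_inj (F := F) ?_)
  · rw [← vv_l0, ← vv_l0, h]
  · rw [← vv_l1, ← vv_l1, h]
  · rw [← vv_r0, ← vv_r0, h]
  · rw [← vv_r1, ← vv_r1, h]

theorem vv_ne_zero {i j : Fin 6} (hij : i ≠ j) : (vv i j : V4 F) ≠ 0 := by
  intro h
  have h0 := table_ne i j hij
  have h1 : emb (xor (ubl0 i) (ubl0 j)) = (0 : F) := by rw [← vv_l0, h]; rfl
  have h2 : emb (xor (ubl1 i) (ubl1 j)) = (0 : F) := by rw [← vv_l1, h]; rfl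
  have h3 : emb (xor (ubr0 i) (ubr0 j)) = (0 : F) := by rw [← vv_r0, h]; rfl
  have h4 : emb (xor (ubr1 i) (ubr1 j)) = (0 : F) := by rw [← vv_r1, h]; rfl
  have key : ∀ b : Bool, emb b = (0 : F) → b = false := by
    intro b hb
    cases b
    · rfl
    · simp [emb] at hb
  rw [key _ h1, key _ h2, key _ h3, key _ h4] at h0
  cases h0

theorem Theta_injective : Function.Injective (Theta : P6 →* (V4 F ≃ₗ[F] V4 F)) := by
  rw [injective_iff_map_eq_one]
  intro σ hσ
  have h1 : ∀ i j : Fin 6, i ≠ j → (σ i = i ∧ σ j = j) ∨ (σ i = j ∧ σ j = i) := by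
    intro i j hij
    have h2 : (vv (σ i) (σ j) : V4 F) = vv i j := by
      rw [← T_vv, ← Theta_apply, hσ]
      rfl
    exact vv_inj (fun h => hij (σ.injective h)) hij h2
  ext1 a
  by_contra hne
  have hne' : σ a ≠ a := fun h => hne (by simpa using h)
  have h3 : ∀ a : Fin 6, ∃ b c : Fin 6, a ≠ b ∧ a ≠ c ∧ b ≠ c := by decide
  obtain ⟨b, c, hb, hc, hbc⟩ := h3 a
  have h4 : σ a = b := by
    rcases h1 a b hb with h | h
    · exact absurd h.1 hne'
    · exact h.1
  have h5 : σ a = c := by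
    rcases h1 a c hc with h | h
    · exact absurd h.1 hne'
    · exact h.1
  exact hbc (h4.symm.trans h5)

theorem exists_emb (hF : Fintype.card F = 2) (x : F) : ∃ b : Bool, x = emb b := by
  classical
  have h : ({0, 1} : Finset F) = Finset.univ := by
    apply Finset.eq_univ_of_card
    rw [hF, Finset.card_pair]
    exact zero_ne_one
  have hx : x ∈ ({0, 1} : Finset F) := by
    rw [h]
    exact Finset.mem_univ x
  simp only [Finset.mem_insert, Finset.mem_singleton] at hx
  rcases hx with rfl | rfl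
  · exact ⟨false, rfl⟩
  · exact ⟨true, rfl⟩

theorem exists_vv (hF : Fintype.card F = 2) {z : V4 F} (hz : z ≠ 0) :
    ∃ i j : Fin 6, i ≠ j ∧ z = vv i j := by
  obtain ⟨a, ha⟩ := exists_emb hF (z (Sum.inl 0))
  obtain ⟨b, hb⟩ := exists_emb hF (z (Sum.inl 1))
  obtain ⟨c, hc⟩ := exists_emb hF (z (Sum.inr 0))
  obtain ⟨d, hd⟩ := exists_emb hF (z (Sum.inr 1))
  have h0 : (a || b || c || d) = true := by
    by_contra h
    simp only [Bool.not_eq_true, Bool.or_eq_false_iff] at h
    obtain ⟨⟨⟨rfl, rfl⟩, rfl⟩, rfl⟩ := h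
    apply hz
    apply V4_ext
    · exact ha
    · exact hb
    · exact hc
    · exact hd
  obtain ⟨i, j, hij, h1, h2, h3, h4⟩ := table_surj a b c d h0
  refine ⟨i, j, hij, V4_ext ?_ ?_ ?_ ?_⟩
  · rw [ha, vv_l0, h1]
  · rw [hb, vv_l1, h2]
  · rw [hc, vv_r0, h3]
  · rw [hd, vv_r1, h4]

theorem isom_le_range (hF : Fintype.card F = 2) :
    isomGroup (B4 F) ≤ (Theta : P6 →* (V4 F ≃ₗ[F] V4 F)).range := by
  rw [← tGroup_eq_isomGroup stdB_nondeg stdB_alt]
  refine (Subgroup.closure_le _).2 ?_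
  rintro g ⟨w, c, hg⟩
  by_cases hw : w = 0
  · refine ⟨1, ?_⟩
    ext1 x
    rw [map_one, hg, hw]
    simp
  obtain ⟨b, rfl⟩ := exists_emb hF c
  cases b with
  | false =>
    refine ⟨1, ?_⟩
    ext1 x
    rw [map_one, hg]
    simp [emb]
  | true =>
    obtain ⟨i, j, hij, rfl⟩ := exists_vv hF hw
    refine ⟨Equiv.swap i j, ?_⟩
    ext1 x
    rw [hg, Theta_apply, T_swap]
    simp [emb]

end Cfsg.Agent.Lib.SpRoot.Six
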