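/-
Quadratic forms and isotropic subspaces in the coordinates of `S₆ ≅ Sp₄(2)`.
-/
import Cfsg.Agent.Lib.SpRoot.SixTheta

set_option autoImplicit false
set_option linter.unusedSectionVars false
set_option linter.unusedVariables false
set_option linter.unusedSimpArgs false

namespace Cfsg.Agent.Lib.SpRoot.Six

open Cfsg.Agent.Lib.Classical.Alt

variable {F : Type*} [Field F] [Fintype F] [CharP F 2]

/-- The second elementary symmetric function. -/
def e2 (x : Fin 6 → F) : F :=
  x 0 * x 1 + x 0 * x 2 + x 0 * x 3 + x 0 * x 4 + x 0 * x 5 + x 1 * x 2 + x 1 * x 3 + x 1 * x 4 +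
    x 1 * x 5 + x 2 * x 3 + x 2 * x 4 + x 2 * x 5 + x 3 * x 4 + x 3 * x 5 + x 4 * x 5

theorem e2_comp (σ : P6) (x : Fin 6 → F) : e2 (x ∘ σ) = e2 x := by
  have h : ∀ σ ∈ Submonoid.closure (Set.range fun i : Fin 5 ↦
      Equiv.swap (Fin.castSucc i) (Fin.succ i)), ∀ x : Fin 6 → F, e2 (x ∘ σ) = e2 x := by
    intro σ hσ
    induction hσ using Submonoid.closure_induction with
    | mem g hg =>
      obtain ⟨i, rfl⟩ := hg
      intro x
      have key : ∀ (k : Fin 6), (x ∘ (Equiv.swap (Fin.castSucc i) (Fin.succ i))) k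
          = x ((Equiv.swap (Fin.castSucc i) (Fin.succ i)) k) := fun k => rfl
      simp only [e2, key]
      fin_cases i <;> simp [Equiv.swap_apply_def] <;> ring
    | one => exact fun x => rfl
    | mul a b _ _ ha hb =>
      intro x
      have : x ∘ (a * b : P6) = (x ∘ a) ∘ b := rfl
      rw [this, hb, ha]
  exact h σ (by rw [Equiv.Perm.mclosure_swap_castSucc_succ]; trivial) x

theorem e2_P (σ : P6) (x : Fin 6 → F) : e2 (P σ x) = e2 x := e2_comp σ⁻¹ x

theorem e2_add (x y : Fin 6 → F) : e2 (x + y) = e2 x + e2 y + ev x * ev y + dot x y := by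
  have h : e2 (x + y) = e2 x + e2 y + ev x * ev y - dot x y := by
    simp only [e2, ev_eq, dot_eq, Pi.add_apply]
    ring
  rw [h, CharTwo.sub_eq_add]

theorem e2_smul (c : F) (x : Fin 6 → F) : e2 (c • x) = c ^ 2 * e2 x := by
  simp only [e2, Pi.smul_apply, smul_eq_mul]
  ring

/-- The linear form of a subset. -/
def linS (S : Fin 6 → Bool) (x : Fin 6 → F) : F := ∑ i, if S i = true then x i else 0

theorem linS_add (S : Fin 6 → Bool) (x y : Fin 6 → F) : linS S (x + y) = linS S x + linS S y := by
  simp only [linS, ← Finset.sum_add_distrib]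
  refine Finset.sum_congr rfl fun i _ => ?_
  simp only [Pi.add_apply]
  split_ifs <;> simp

theorem linS_smul (S : Fin 6 → Bool) (c : F) (x : Fin 6 → F) : linS S (c • x) = c * linS S x := by
  simp only [linS, Finset.mul_sum]
  refine Finset.sum_congr rfl fun i _ => ?_
  simp only [Pi.smul_apply, smul_eq_mul]
  split_ifs <;> simp

theorem linS_const {S : Fin 6 → Bool} (hS : Odd (Finset.univ.filter fun i => S i = true).card) (s : F) :
    linS S (fun _ => s) = s := by
  rw [linS, Finset.sum_ite, Finset.sum_const, Finset.sum_const_zero, add_zero]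
  obtain ⟨k, hk⟩ := hS
  rw [hk, nsmul_eq_mul]
  have h2 : (2 : F) = 0 := CharTwo.two_eq_zero
  push_cast
  rw [h2]
  simp

theorem linS_P {S : Fin 6 → Bool} {σ : P6} (hσ : StabOdd σ S) {x : Fin 6 → F} (hx : ev x = 0) :
    linS S (P σ x) = linS S x := by
  have h1 : linS S (P σ x) = ∑ j, if S (σ j) = true then x j else 0 := by
    rw [linS, ← Equiv.sum_comp σ]
    refine Finset.sum_congr rfl fun j _ => ?_
    simp [P]
  rw [h1]
  rcases hσ with hσ | hσ
  · simp only [hσ, linS]
  · simp only [hσ]
    have h2 : (∑ j, if (!S j) = true then x j else 0) + linS S x = ev x := by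
      simp only [linS, ev, ← Finset.sum_add_distrib]
      refine Finset.sum_congr rfl fun i _ => ?_
      cases S i <;> simp
    rw [hx] at h2
    exact V_eq_of_add_eq_zero F h2

/-- The quadratic form of a subset. -/
def qS (S : Fin 6 → Bool) (z : V4 F) : F := e2 (psi z) + linS S (psi z) ^ 2

theorem qS_isQF (S : Fin 6 → Bool) : IsQF (B4 F) (qS S) := by
  refine ⟨fun s v => ?_, fun u v => ?_⟩
  · simp only [qS, psi_smul, e2_smul, linS_smul]
    ring
  · simp only [qS, psi_add, e2_add, linS_add, ev_psi, dot_psi, sq_add_sq]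
    simp only [mul_zero, add_zero]
    ring

theorem qS_T {S : Fin 6 → Bool} (hS : Odd (Finset.univ.filter fun i => S i = true).card) {σ : P6}
    (hσ : StabOdd σ S) (z : V4 F) : qS S (T σ z) = qS S z := by
  have hy : ev (P σ (psi z)) = 0 := by rw [ev_P, ev_psi]
  rw [qS, psi_T, e2_add, linS_add, linS_const hS, linS_P hσ (ev_psi z), e2_P, sq_add_sq]
  generalize (P σ (psi z) 0 + P σ (psi z) 1 + P σ (psi z) 2) = s
  have h1 : e2 (fun _ : Fin 6 => s) = s ^ 2 := by
    simp only [e2]
    grind
  have h2 : ev (fun _ : Fin 6 => s) = 0 := by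
    simp only [ev_eq]
    grind
  have h3 : dot (P σ (psi z)) (fun _ : Fin 6 => s) = s * ev (P σ (psi z)) := by
    simp only [dot_eq, ev_eq]
    ring
  rw [h1, h2, h3, hy, qS]
  grind

/-- The isotropic subspace of an involution. -/
theorem B_vv_invol {m : P6} (hm : m * m = 1) (i k : Fin 6) :
    B4 F (vv i (m i)) (vv k (m k)) = 0 := by
  have hm' : ∀ x, m (m x) = x := fun x => by
    have := congrArg (fun g : P6 => g x) hm
    simpa using this
  have h1 : m i = m k ↔ i = k := m.injective.eq_iff
  have h2 : i = m k ↔ m i = k := by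
    constructor
    · rintro rfl
      exact hm' k
    · rintro rfl
      exact (hm' i).symm
  rw [B_vv_vv]
  simp only [ee, Pi.add_apply, Pi.single_apply, h1, h2]
  split_ifs <;> grind

end Cfsg.Agent.Lib.SpRoot.Six
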