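/-
Kernel-checked case tree for subgroups of the symmetric group on six points.
(Generated table of cases; see `SixEngine`.)
-/
import Cfsg.Agent.Lib.SpRoot.SixEngine

set_option autoImplicit false
set_option linter.unusedSectionVars false
set_option linter.unusedVariables false
set_option linter.unusedSimpArgs false
set_option maxRecDepth 100000

namespace Cfsg.Agent.Lib.SpRoot.Six

/-- All codes of permutations. -/
def allP : List ℕ := [1865, 1870, 1895, 1905, 1930, 1935, 2045, 2050, 2105, 2120, 2140, 2150, 2255, 2265, 2285, 2300, 2355, 2360, 2470, 2475, 2500, 2510, 2535, 2540, 2945, 2950, 2975, 2985, 3010, 3015, 3305, 3310, 3395, 3415, 3430, 3445, 3515, 3525, 3575, 3595, 3645, 3655, 3730, 3735, 3790, 3805, 3825, 3835, 4205, 4210, 4265, 4280, 4300, 4310, 4385, 4390, 4475, 4495, 4510, 4525, 4805, 4820, 4835, 4855, 4940, 4945, 5020, 5030, 5050, 5065, 5120, 5125, 5495, 5505, 5525, 5540, 5595, 5600, 5675, 5685, 5735, 5755, 5805, 5815, 5885, 5900, 5915, 5935, 6020, 6025, 6315, 6320, 6345, 6355, 6380, 6385, 6790, 6795, 6820, 6830, 6855,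 6860, 6970, 6975, 7030, 7045, 7065, 7075, 7180, 7190, 7210, 7225, 7280, 7285, 7395, 7400, 7425, 7435, 7460, 7465, 8345, 8350, 8375, 8385, 8410, 8415, 8525, 8530, 8585, 8600, 8620, 8630, 8735, 8745, 8765, 8780, 8835, 8840, 8950, 8955, 8980, 8990, 9015, 9020, 10505, 10510, 10535, 10545, 10570, 10575, 11045, 11050, 11165, 11190, 11200, 11220, 11255, 11265, 11345, 11370, 11415, 11430, 11470, 11475, 11560, 11580, 11595, 11610, 11765, 11770, 11825, 11840, 11860, 11870, 12125, 12130, 12245, 12270, 12280, 12300, 12545, 12560, 12605, 12630, 12710, 12720, 12760, 12770, 12820, 12840, 12890, 12900, 13055, 13065, 13085, 13100, 13155, 13160, 13415, 13425, 13505, 13530, 13575, 13590, 13625, 13640, 13685, 13710, 13790, 13800, 14055, 14060, 14115, 14130, 14150, 14160, 14350, 14355, 14380, 14390, 14415, 14420, 14710, 14715, 14800, 14820, 14835, 14850, 14920, 14930, 14980, 15000, 15050, 15060, 15135, 15140, 15195, 15210, 15230, 15240, 15905, 15910, 15935, 15945, 15970, 15975, 16265, 16270, 16355, 16375, 16390, 16405, 16475, 16485, 16535, 16555, 16605,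 16615, 16690, 16695, 16750, 16765, 16785, 16795, 16985, 16990, 17015, 17025, 17050, 17055, 17525, 17530, 17645, 17670, 17680, 17700, 17735, 17745, 17825, 17850, 17895, 17910, 17950, 17955, 18040, 18060, 18075, 18090, 19505, 19510, 19595, 19615, 19630, 19645, 19685, 19690, 19805, 19830, 19840, 19860, 20315, 20335, 20345, 20370, 20485, 20490, 20530, 20545, 20560, 20580, 20665, 20670, 20795, 20805, 20855, 20875, 20925, 20935, 20975, 20985, 21065, 21090, 21135, 21150, 21395, 21415, 21425, 21450, 21565, 21570, 21825, 21835, 21855, 21870, 21925, 21930, 22090, 22095, 22150, 22165, 22185, 22195, 22270, 22275, 22360, 22380, 22395, 22410, 22690, 22705, 22720, 22740, 22825, 22830, 22905, 22915, 22935, 22950, 23005, 23010, 23645, 23650, 23705, 23720, 23740, 23750, 23825, 23830, 23915, 23935, 23950, 23965, 24245, 24260, 24275, 24295, 24380, 24385, 24460, 24470, 24490, 24505, 24560, 24565, 24725, 24730, 24785, 24800, 24820, 24830, 25085, 25090, 25205, 25230, 25240, 25260, 25505, 25520, 25565, 25590, 25670, 25680, 25720, 25730, 25780, 25800, 25850,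 25860, 25985, 25990, 26075, 26095, 26110, 26125, 26165, 26170, 26285, 26310, 26320, 26340, 26795, 26815, 26825, 26850, 26965, 26970, 27010, 27025, 27040, 27060, 27145, 27150, 28565, 28580, 28595, 28615, 28700, 28705, 28745, 28760, 28805, 28830, 28910, 28920, 28955, 28975, 28985, 29010, 29125, 29130, 29600, 29605, 29630, 29640, 29665, 29670, 29860, 29870, 29890, 29905, 29960, 29965, 30040, 30050, 30100, 30120, 30170, 30180, 30250, 30265, 30280, 30300, 30385, 30390, 30680, 30685, 30710, 30720, 30745, 30750, 31415, 31425, 31445, 31460, 31515, 31520, 31595, 31605, 31655, 31675, 31725, 31735, 31805, 31820, 31835, 31855, 31940, 31945, 32235, 32240, 32265, 32275, 32300, 32305, 32495, 32505, 32525, 32540, 32595, 32600, 32855, 32865, 32945, 32970, 33015, 33030, 33065, 33080, 33125, 33150, 33230, 33240, 33495, 33500, 33555, 33570, 33590, 33600, 33755, 33765, 33815, 33835, 33885, 33895, 33935, 33945, 34025, 34050, 34095, 34110, 34355, 34375, 34385, 34410, 34525, 34530, 34785, 34795, 34815, 34830, 34885, 34890, 35045, 35060, 35075, 35095, 35180,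 35185, 35225, 35240, 35285, 35310, 35390, 35400, 35435, 35455, 35465, 35490, 35605, 35610, 36080, 36085, 36110, 36120, 36145, 36150, 37635, 37640, 37665, 37675, 37700, 37705, 37815, 37820, 37875, 37890, 37910, 37920, 38025, 38035, 38055, 38070, 38125, 38130, 38240, 38245, 38270, 38280, 38305, 38310, 39190, 39195, 39220, 39230, 39255, 39260, 39370, 39375, 39430, 39445, 39465, 39475, 39580, 39590, 39610, 39625, 39680, 39685, 39795, 39800, 39825, 39835, 39860, 39865, 40270, 40275, 40300, 40310, 40335, 40340, 40630, 40635, 40720, 40740, 40755, 40770, 40840, 40850, 40900, 40920, 40970, 40980, 41055, 41060, 41115, 41130, 41150, 41160, 41530, 41535, 41590, 41605, 41625, 41635, 41710, 41715, 41800, 41820, 41835, 41850, 42130, 42145, 42160, 42180, 42265, 42270, 42345, 42355, 42375, 42390, 42445, 42450, 42820, 42830, 42850, 42865, 42920, 42925, 43000, 43010, 43060, 43080, 43130, 43140, 43210, 43225, 43240, 43260, 43345, 43350, 43640, 43645, 43670, 43680, 43705, 43710, 44115, 44120, 44145, 44155, 44180, 44185, 44295, 44300, 44355, 44370, 44390,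 44400, 44505, 44515, 44535, 44550, 44605, 44610, 44720, 44725, 44750, 44760, 44785, 44790]

theorem all_mem (σ : P6) : enc σ ∈ allP :=
  allCheck_sound (by decide +kernel) σ

theorem allP_nodup : allP.Nodup := (inc_sound allP 0 (by decide +kernel)).2

theorem allP_lt : ∀ c ∈ allP, c < 46656 := by decide +kernel

theorem N0 (L : Subgroup P6) (H : Hyp L) (hG : InL L [30750, 38130, 38280, 38305]) : Goal L := by
  have h := node_term all_mem allP_nodup allP_lt (reps := [38310]) H hG (by decide +kernel)
  have h2 : (allP.filter fun c => Nat.testBit (grp [30750, 38130, 38280, 38305]) c).length = 360 := by decide +kernel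
  rw [h2] at h
  exact Or.inl h

theorem N1 (L : Subgroup P6) (H : Hyp L) (hG : InL L [38130, 27150, 38305, 44300]) : Goal L := by
  have hc : nodeC (invC 38125) allP [38130, 27150, 38305, 44300] [43710, 30750, 43680, 30720] [[t0C], [30750, 38130, 38280, 38305]] = true := by decide +kernel
  obtain ⟨K, hK, hKL⟩ := node_inv all_mem H (mc := 38125) (m := Equiv.swap (0 : Fin 6) 1 * Equiv.swap (2 : Fin 6) 3 * Equiv.swap (4 : Fin 6) 5) (by unfold Rep; decide) (by decide) (by decide) hG hc
  clear hc
  simp only [List.mem_cons, List.not_mem_nil, or_false] at hK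
  rcases hK with rfl | rfl
  · exact dead_of H hKL
  · exact N0 L H hKL

theorem N2 (L : Subgroup P6) (H : Hyp L) (hG : InL L [38130, 27150, 38305]) : Goal L := by
  have hc : nodeC (invC 44785) allP [38130, 27150, 38305] [44760, 38280, 43680, 30720, 36120, 29640, 44300, 37820, 41060, 15140, 43010, 30050, 40850, 14930] [[t0C], [30750, 38130, 38280, 38305], [38130, 27150, 38305, 44300]] = true := by decide +kernel
  obtain ⟨K, hK, hKL⟩ := node_inv all_mem H (mc := 44785) (m := Equiv.swap (0 : Fin 6) 1) (by unfold Rep; decide) (by decide) (by decide) hG hc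
  clear hc
  simp only [List.mem_cons, List.not_mem_nil, or_false] at hK
  rcases hK with rfl | rfl | rfl
  · exact dead_of H hKL
  · exact N0 L H hKL
  · exact N1 L H hKL

theorem N3 (L : Subgroup P6) (H : Hyp L) (hG : InL L [38130, 27150, 43705, 13640]) : Goal L := by
  have hc : nodeC (invC 20485) allP [38130, 27150, 43705, 13640] [38310, 30750, 38280, 30720] [[t0C], [30750, 38130, 38280, 38305]] = true := by decide +kernel
  obtain ⟨K, hK, hKL⟩ := node_inv all_mem H (mc := 20485) (m := Equiv.swap (0 : Fin 6) 1 * Equiv.swap (2 : Fin 6) 5 * Equiv.swap (3 : Fin 6) 4) (by unfold Rep; decide) (by decide) (by decide) hG hc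
  clear hc
  simp only [List.mem_cons, List.not_mem_nil, or_false] at hK
  rcases hK with rfl | rfl
  · exact dead_of H hKL
  · exact N0 L H hKL

theorem N4 (L : Subgroup P6) (H : Hyp L) (hG : InL L [38130, 27150, 43705]) : Goal L := by
  have hc : nodeC (invC 44785) allP [38130, 27150, 43705] [44760, 38280, 43680, 30720, 36120, 29640, 44300, 37820, 15140, 14060, 35240, 28760, 13640, 12560] [[t0C], [30750, 38130, 38280, 38305], [38130, 27150, 43705, 13640]] = true := by decide +kernel
  obtain ⟨K, hK, hKL⟩ := node_inv all_mem H (mc := 44785) (m := Equiv.swap (0 : Fin 6) 1) (by unfold Rep; decide) (by decide) (by decide) hG hc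
  clear hc
  simp only [List.mem_cons, List.not_mem_nil, or_false] at hK
  rcases hK with rfl | rfl | rfl
  · exact dead_of H hKL
  · exact N0 L H hKL
  · exact N3 L H hKL

theorem N5 (L : Subgroup P6) (H : Hyp L) (hG : InL L [38130, 27150, 29665, 40850]) : Goal L := by
  have hc : nodeC (invC 27145) allP [38130, 27150, 29665, 40850] [38310, 30750, 38280, 30720] [[t0C], [30750, 38130, 38280, 38305]] = true := by decide +kernel
  obtain ⟨K, hK, hKL⟩ := node_inv all_mem H (mc := 27145) (m := Equiv.swap (0 : Fin 6) 1 * Equiv.swap (2 : Fin 6) 4 * Equiv.swap (3 : Fin 6) 5) (by unfold Rep; decide) (by decide) (by decide) hG hc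
  clear hc
  simp only [List.mem_cons, List.not_mem_nil, or_false] at hK
  rcases hK with rfl | rfl
  · exact dead_of H hKL
  · exact N0 L H hKL

theorem N6 (L : Subgroup P6) (H : Hyp L) (hG : InL L [38130, 27150, 29665]) : Goal L := by
  have hc : nodeC (invC 44785) allP [38130, 27150, 29665] [44760, 38280, 43680, 30720, 36120, 29640, 44300, 37820, 41060, 33500, 43010, 30050, 40850, 25730] [[t0C], [30750, 38130, 38280, 38305], [38130, 27150, 29665, 40850]] = true := by decide +kernel
  obtain ⟨K, hK, hKL⟩ := node_inv all_mem H (mc := 44785) (m := Equiv.swap (0 : Fin 6) 1) (by unfold Rep; decide) (by decide) (by decide) hG hc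
  clear hc
  simp only [List.mem_cons, List.not_mem_nil, or_false] at hK
  rcases hK with rfl | rfl | rfl
  · exact dead_of H hKL
  · exact N0 L H hKL
  · exact N5 L H hKL

theorem N7 (L : Subgroup P6) (H : Hyp L) (hG : InL L [38310, 43710, 44610, 44720]) : Goal L := by
  have hc : nodeC (oddC 2) allP [38310, 43710, 44610, 44720] [44760] [[t0C]] = true := by decide +kernel
  obtain ⟨K, hK, hKL⟩ := node_odd all_mem H 2 (by decide) hG hc
  clear hc
  simp only [List.mem_cons, List.not_mem_nil, or_false] at hK
  subst hK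
  · exact dead_of H hKL

theorem N8 (L : Subgroup P6) (H : Hyp L) (hG : InL L [30750, 38130, 38240]) : Goal L := by
  have hc : nodeC (oddC 2) allP [30750, 38130, 38240] [44760, 38280] [[t0C], [30750, 38130, 38280, 38305]] = true := by decide +kernel
  obtain ⟨K, hK, hKL⟩ := node_odd all_mem H 2 (by decide) hG hc
  clear hc
  simp only [List.mem_cons, List.not_mem_nil, or_false] at hK
  rcases hK with rfl | rfl
  · exact dead_of H hKL
  · exact N0 L H hKL

theorem N9 (L : Subgroup P6) (H : Hyp L) (hG : InL L [38130, 27150]) : Goal L := by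
  have hc : nodeC (oddC 1) allP [38130, 27150] [44785, 38305, 43705, 30745, 36145, 29665, 44725, 38245, 43645, 30685, 36085, 29605, 44750, 38270, 43670, 30710, 36110, 29630, 44720, 38240, 43640, 30680, 36080, 29600, 44300, 37820, 41060, 15140, 33500, 14060, 43010, 30050, 40850, 14930, 25730, 12770, 35240, 28760, 33080, 13640, 25520, 12560] [[t0C], [38130, 27150, 38305], [38130, 27150, 43705], [38130, 27150, 29665], [30750, 38130, 38280, 38305], [38310, 43710, 44610, 44720], [30750, 38130, 38240], [38130, 27150, 38305, 44300], [38130, 27150, 29665, 40850], [38130, 27150, 43705, 13640]] = true := by decide +kernel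
  obtain ⟨K, hK, hKL⟩ := node_odd all_mem H 1 (by decide) hG hc
  clear hc
  simp only [List.mem_cons, List.not_mem_nil, or_false] at hK
  rcases hK with rfl | rfl | rfl | rfl | rfl | rfl | rfl | rfl | rfl | rfl
  · exact dead_of H hKL
  · exact N2 L H hKL
  · exact N4 L H hKL
  · exact N6 L H hKL
  · exact N0 L H hKL
  · exact N7 L H hKL
  · exact N8 L H hKL
  · exact N1 L H hKL
  · exact N5 L H hKL
  · exact N3 L H hKL

theorem N10 (L : Subgroup P6) (H : Hyp L) (hG : InL L [38130, 20670, 43680, 38305]) : Goal L := by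
  have h := node_term all_mem allP_nodup allP_lt (reps := [38310]) H hG (by decide +kernel)
  have h2 : (allP.filter fun c => Nat.testBit (grp [38130, 20670, 43680, 38305]) c).length = 120 := by decide +kernel
  rw [h2] at h
  exact Or.inr h

theorem N11 (L : Subgroup P6) (H : Hyp L) (hG : InL L [38130, 20670, 29640, 38305]) : Goal L := by
  have h := node_term all_mem allP_nodup allP_lt (reps := [38310]) H hG (by decide +kernel)
  have h2 : (allP.filter fun c => Nat.testBit (grp [38130, 20670, 29640, 38305]) c).length = 120 := by decide +kernel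
  rw [h2] at h
  exact Or.inr h

theorem N12 (L : Subgroup P6) (H : Hyp L) (hG : InL L [38130, 20670, 38305]) : Goal L := by
  have hc : nodeC (invC 38125) allP [38130, 20670, 38305] [43710, 44760, 38280, 43680, 30720, 36120, 29640, 41060, 43010, 40850, 14930, 25730, 12770] [[t0C], [38130, 20670, 43680, 38305], [38130, 20670, 29640, 38305]] = true := by decide +kernel
  obtain ⟨K, hK, hKL⟩ := node_inv all_mem H (mc := 38125) (m := Equiv.swap (0 : Fin 6) 1 * Equiv.swap (2 : Fin 6) 3 * Equiv.swap (4 : Fin 6) 5) (by unfold Rep; decide) (by decide) (by decide) hG hc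
  clear hc
  simp only [List.mem_cons, List.not_mem_nil, or_false] at hK
  rcases hK with rfl | rfl | rfl
  · exact dead_of H hKL
  · exact N10 L H hKL
  · exact N11 L H hKL

theorem N13 (L : Subgroup P6) (H : Hyp L) (hG : InL L [38310, 44610, 44760, 27145]) : Goal L := by
  have hc : nodeC (oddC 49) allP [38310, 44610, 44760, 27145] [43710] [[t0C]] = true := by decide +kernel
  obtain ⟨K, hK, hKL⟩ := node_odd all_mem H 49 (by decide) hG hc
  clear hc
  simp only [List.mem_cons, List.not_mem_nil, or_false] at hK
  subst hK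
  · exact dead_of H hKL

theorem N14 (L : Subgroup P6) (H : Hyp L) (hG : InL L [38130, 38280, 27145]) : Goal L := by
  have hc : nodeC (oddC 49) allP [38130, 38280, 27145] [43710, 30750] [[t0C]] = true := by decide +kernel
  obtain ⟨K, hK, hKL⟩ := node_odd all_mem H 49 (by decide) hG hc
  clear hc
  simp only [List.mem_cons, List.not_mem_nil, or_false] at hK
  subst hK
  · exact dead_of H hKL

theorem N15 (L : Subgroup P6) (H : Hyp L) (hG : InL L [38130, 20670, 38305, 37820]) : Goal L := by
  have hc : nodeC (invC 38125) allP [38130, 20670, 38305, 37820] [43710, 43680, 30720, 36120, 29640] [[t0C], [38130, 20670, 43680, 38305], [38130, 20670, 29640, 38305]] = true := by decide +kernel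
  obtain ⟨K, hK, hKL⟩ := node_inv all_mem H (mc := 38125) (m := Equiv.swap (0 : Fin 6) 1 * Equiv.swap (2 : Fin 6) 3 * Equiv.swap (4 : Fin 6) 5) (by unfold Rep; decide) (by decide) (by decide) hG hc
  clear hc
  simp only [List.mem_cons, List.not_mem_nil, or_false] at hK
  rcases hK with rfl | rfl | rfl
  · exact dead_of H hKL
  · exact N10 L H hKL
  · exact N11 L H hKL

theorem N16 (L : Subgroup P6) (H : Hyp L) (hG : InL L [38130, 27145, 25730]) : Goal L := by
  have hc : nodeC (oddC 49) allP [38130, 27145, 25730] [43710, 30750, 36150, 29670, 20670, 43680, 30720, 36120, 41160] [[t0C], [38130, 20670, 29640, 38305]] = true := by decide +kernel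
  obtain ⟨K, hK, hKL⟩ := node_odd all_mem H 49 (by decide) hG hc
  clear hc
  simp only [List.mem_cons, List.not_mem_nil, or_false] at hK
  rcases hK with rfl | rfl
  · exact dead_of H hKL
  · exact N11 L H hKL

theorem N17 (L : Subgroup P6) (H : Hyp L) (hG : InL L [38130, 27145, 12560]) : Goal L := by
  have hc : nodeC (oddC 49) allP [38130, 27145, 12560] [43710, 30750, 36150, 29670, 20670, 30720, 36120, 29640, 14160] [[t0C], [38130, 20670, 43680, 38305]] = true := by decide +kernel
  obtain ⟨K, hK, hKL⟩ := node_odd all_mem H 49 (by decide) hG hc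
  clear hc
  simp only [List.mem_cons, List.not_mem_nil, or_false] at hK
  rcases hK with rfl | rfl
  · exact dead_of H hKL
  · exact N10 L H hKL

theorem N18 (L : Subgroup P6) (H : Hyp L) (hG : InL L [38130, 27145]) : Goal L := by
  have hc : nodeC (oddC 13) allP [38130, 27145] [43710, 30750, 36150, 29670, 27150, 20670, 44760, 38280, 43680, 30720, 36120, 29640, 41160, 15240, 33600, 14160, 25860, 12900, 43260, 30300, 42180, 22740, 27060, 20580, 25800, 12840, 18060, 11580, 44300, 37820, 41060, 15140, 33500, 14060, 43010, 30050, 25730, 12770, 39590, 7190, 24470, 5030, 35240, 28760, 25520, 12560, 31820, 5900, 24260, 4820] [[t0C], [38130, 20670, 38305], [38310, 44610, 44760, 27145], [38130, 38280, 27145], [38130, 20670, 43680, 38305], [38130, 20670, 29640, 38305], [38130, 20670, 38305, 37820], [38130, 27145, 25730], [38130, 27145, 12560]] = true := by decide +kernel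
  obtain ⟨K, hK, hKL⟩ := node_odd all_mem H 13 (by decide) hG hc
  clear hc
  simp only [List.mem_cons, List.not_mem_nil, or_false] at hK
  rcases hK with rfl | rfl | rfl | rfl | rfl | rfl | rfl | rfl | rfl
  · exact dead_of H hKL
  · exact N12 L H hKL
  · exact N13 L H hKL
  · exact N14 L H hKL
  · exact N10 L H hKL
  · exact N11 L H hKL
  · exact N15 L H hKL
  · exact N16 L H hKL
  · exact N17 L H hKL

theorem N19 (L : Subgroup P6) (H : Hyp L) (hG : InL L [23010, 38280, 29665]) : Goal L := by
  have h := node_term all_mem allP_nodup allP_lt (reps := [38310]) H hG (by decide +kernel)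
  have h2 : (allP.filter fun c => Nat.testBit (grp [23010, 38280, 29665]) c).length = 120 := by decide +kernel
  rw [h2] at h
  exact Or.inr h

theorem N20 (L : Subgroup P6) (H : Hyp L) (hG : InL L [23010, 43680, 29665]) : Goal L := by
  have h := node_term all_mem allP_nodup allP_lt (reps := [38310]) H hG (by decide +kernel)
  have h2 : (allP.filter fun c => Nat.testBit (grp [23010, 43680, 29665]) c).length = 120 := by decide +kernel
  rw [h2] at h
  exact Or.inr h

theorem N21 (L : Subgroup P6) (H : Hyp L) (hG : InL L [23010, 29665]) : Goal L := by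
  have hc : nodeC (invC 27145) allP [23010, 29665] [38310, 44760, 38280, 43680, 30720, 36120, 29640, 44300, 37820, 41060, 15140, 14060, 43010] [[t0C], [23010, 38280, 29665], [23010, 43680, 29665]] = true := by decide +kernel
  obtain ⟨K, hK, hKL⟩ := node_inv all_mem H (mc := 27145) (m := Equiv.swap (0 : Fin 6) 1 * Equiv.swap (2 : Fin 6) 4 * Equiv.swap (3 : Fin 6) 5) (by unfold Rep; decide) (by decide) (by decide) hG hc
  clear hc
  simp only [List.mem_cons, List.not_mem_nil, or_false] at hK
  rcases hK with rfl | rfl | rfl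
  · exact dead_of H hKL
  · exact N19 L H hKL
  · exact N20 L H hKL

theorem N22 (L : Subgroup P6) (H : Hyp L) (hG : InL L [29670, 42270, 44760, 38125]) : Goal L := by
  have hc : nodeC (oddC 41) allP [29670, 42270, 44760, 38125] [38310] [[t0C]] = true := by decide +kernel
  obtain ⟨K, hK, hKL⟩ := node_odd all_mem H 41 (by decide) hG hc
  clear hc
  simp only [List.mem_cons, List.not_mem_nil, or_false] at hK
  subst hK
  · exact dead_of H hKL

theorem N23 (L : Subgroup P6) (H : Hyp L) (hG : InL L [27150, 29640, 38125]) : Goal L := by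
  have hc : nodeC (oddC 41) allP [27150, 29640, 38125] [38310, 30750] [[t0C]] = true := by decide +kernel
  obtain ⟨K, hK, hKL⟩ := node_odd all_mem H 41 (by decide) hG hc
  clear hc
  simp only [List.mem_cons, List.not_mem_nil, or_false] at hK
  subst hK
  · exact dead_of H hKL

theorem N24 (L : Subgroup P6) (H : Hyp L) (hG : InL L [27150, 38125, 37820]) : Goal L := by
  have hc : nodeC (oddC 41) allP [27150, 38125, 37820] [38310, 43710, 30750, 36150, 23010, 43680, 30720, 36120, 14160] [[t0C], [23010, 38280, 29665]] = true := by decide +kernel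
  obtain ⟨K, hK, hKL⟩ := node_odd all_mem H 41 (by decide) hG hc
  clear hc
  simp only [List.mem_cons, List.not_mem_nil, or_false] at hK
  rcases hK with rfl | rfl
  · exact dead_of H hKL
  · exact N19 L H hKL

theorem N25 (L : Subgroup P6) (H : Hyp L) (hG : InL L [23010, 29665, 25730]) : Goal L := by
  have hc : nodeC (invC 27145) allP [23010, 29665, 25730] [38310, 38280, 43680, 30720, 36120] [[t0C], [23010, 38280, 29665], [23010, 43680, 29665]] = true := by decide +kernel
  obtain ⟨K, hK, hKL⟩ := node_inv all_mem H (mc := 27145) (m := Equiv.swap (0 : Fin 6) 1 * Equiv.swap (2 : Fin 6) 4 * Equiv.swap (3 : Fin 6) 5) (by unfold Rep; decide) (by decide) (by decide) hG hc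
  clear hc
  simp only [List.mem_cons, List.not_mem_nil, or_false] at hK
  rcases hK with rfl | rfl | rfl
  · exact dead_of H hKL
  · exact N19 L H hKL
  · exact N20 L H hKL

theorem N26 (L : Subgroup P6) (H : Hyp L) (hG : InL L [27150, 38125, 12560]) : Goal L := by
  have hc : nodeC (oddC 41) allP [27150, 38125, 12560] [38310, 43710, 30750, 36150, 23010, 38280, 30720, 36120, 15060] [[t0C], [23010, 43680, 29665]] = true := by decide +kernel
  obtain ⟨K, hK, hKL⟩ := node_odd all_mem H 41 (by decide) hG hc
  clear hc
  simp only [List.mem_cons, List.not_mem_nil, or_false] at hK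
  rcases hK with rfl | rfl
  · exact dead_of H hKL
  · exact N20 L H hKL

theorem N27 (L : Subgroup P6) (H : Hyp L) (hG : InL L [27150, 38125]) : Goal L := by
  have hc : nodeC (oddC 21) allP [27150, 38125] [38310, 43710, 30750, 36150, 38130, 23010, 44760, 38280, 43680, 30720, 36120, 29640, 44400, 37920, 15240, 14160, 30180, 15060, 44550, 38070, 42390, 22950, 34830, 21870, 37890, 15210, 22410, 14850, 37820, 41060, 15140, 33500, 44120, 37640, 7400, 6320, 43010, 30050, 40850, 14930, 25730, 12770, 35240, 33080, 25520, 12560, 35060, 28580, 5900, 4820] [[t0C], [23010, 29665], [29670, 42270, 44760, 38125], [23010, 38280, 29665], [23010, 43680, 29665], [27150, 29640, 38125], [27150, 38125, 37820], [23010, 29665, 25730], [27150, 38125, 12560]] = true := by decide +kernel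
  obtain ⟨K, hK, hKL⟩ := node_odd all_mem H 21 (by decide) hG hc
  clear hc
  simp only [List.mem_cons, List.not_mem_nil, or_false] at hK
  rcases hK with rfl | rfl | rfl | rfl | rfl | rfl | rfl | rfl | rfl
  · exact dead_of H hKL
  · exact N21 L H hKL
  · exact N22 L H hKL
  · exact N19 L H hKL
  · exact N20 L H hKL
  · exact N23 L H hKL
  · exact N24 L H hKL
  · exact N25 L H hKL
  · exact N26 L H hKL

theorem N28 (L : Subgroup P6) (H : Hyp L) (hG : InL L [34890, 38280, 43705]) : Goal L := by
  have h := node_term all_mem allP_nodup allP_lt (reps := [38310]) H hG (by decide +kernel)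
  have h2 : (allP.filter fun c => Nat.testBit (grp [34890, 38280, 43705]) c).length = 120 := by decide +kernel
  rw [h2] at h
  exact Or.inr h

theorem N29 (L : Subgroup P6) (H : Hyp L) (hG : InL L [34890, 29640, 43705]) : Goal L := by
  have h := node_term all_mem allP_nodup allP_lt (reps := [38310]) H hG (by decide +kernel)
  have h2 : (allP.filter fun c => Nat.testBit (grp [34890, 29640, 43705]) c).length = 120 := by decide +kernel
  rw [h2] at h
  exact Or.inr h

theorem N30 (L : Subgroup P6) (H : Hyp L) (hG : InL L [34890, 43705]) : Goal L := by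
  have hc : nodeC (invC 20485) allP [34890, 43705] [38310, 44760, 38280, 43680, 30720, 36120, 29640, 44300, 37820, 41060, 15140, 33500, 35240] [[t0C], [34890, 38280, 43705], [34890, 29640, 43705]] = true := by decide +kernel
  obtain ⟨K, hK, hKL⟩ := node_inv all_mem H (mc := 20485) (m := Equiv.swap (0 : Fin 6) 1 * Equiv.swap (2 : Fin 6) 5 * Equiv.swap (3 : Fin 6) 4) (by unfold Rep; decide) (by decide) (by decide) hG hc
  clear hc
  simp only [List.mem_cons, List.not_mem_nil, or_false] at hK
  rcases hK with rfl | rfl | rfl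
  · exact dead_of H hKL
  · exact N28 L H hKL
  · exact N29 L H hKL

theorem N31 (L : Subgroup P6) (H : Hyp L) (hG : InL L [43710, 21570, 44370, 38125]) : Goal L := by
  have hc : nodeC (oddC 37) allP [43710, 21570, 44370, 38125] [38310] [[t0C]] = true := by decide +kernel
  obtain ⟨K, hK, hKL⟩ := node_odd all_mem H 37 (by decide) hG hc
  clear hc
  simp only [List.mem_cons, List.not_mem_nil, or_false] at hK
  subst hK
  · exact dead_of H hKL

theorem N32 (L : Subgroup P6) (H : Hyp L) (hG : InL L [20490, 41130, 38125]) : Goal L := by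
  have hc : nodeC (oddC 37) allP [20490, 41130, 38125] [38310, 30750] [[t0C]] = true := by decide +kernel
  obtain ⟨K, hK, hKL⟩ := node_odd all_mem H 37 (by decide) hG hc
  clear hc
  simp only [List.mem_cons, List.not_mem_nil, or_false] at hK
  subst hK
  · exact dead_of H hKL

theorem N33 (L : Subgroup P6) (H : Hyp L) (hG : InL L [20490, 38125, 44300]) : Goal L := by
  have hc : nodeC (oddC 37) allP [20490, 38125, 44300] [38310, 30750, 36150, 29670, 34890, 43680, 29640, 41160, 34830] [[t0C], [34890, 29640, 43705]] = true := by decide +kernel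
  obtain ⟨K, hK, hKL⟩ := node_odd all_mem H 37 (by decide) hG hc
  clear hc
  simp only [List.mem_cons, List.not_mem_nil, or_false] at hK
  rcases hK with rfl | rfl
  · exact dead_of H hKL
  · exact N29 L H hKL

theorem N34 (L : Subgroup P6) (H : Hyp L) (hG : InL L [20490, 38125, 40850]) : Goal L := by
  have hc : nodeC (oddC 37) allP [20490, 38125, 40850] [38310, 30750, 36150, 29670, 34890, 38280, 43680, 33600, 42390] [[t0C], [34890, 38280, 43705]] = true := by decide +kernel
  obtain ⟨K, hK, hKL⟩ := node_odd all_mem H 37 (by decide) hG hc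
  clear hc
  simp only [List.mem_cons, List.not_mem_nil, or_false] at hK
  rcases hK with rfl | rfl
  · exact dead_of H hKL
  · exact N28 L H hKL

theorem N35 (L : Subgroup P6) (H : Hyp L) (hG : InL L [34890, 43705, 12560]) : Goal L := by
  have hc : nodeC (invC 20485) allP [34890, 43705, 12560] [38310, 38280, 30720, 36120, 29640] [[t0C], [34890, 38280, 43705], [34890, 29640, 43705]] = true := by decide +kernel
  obtain ⟨K, hK, hKL⟩ := node_inv all_mem H (mc := 20485) (m := Equiv.swap (0 : Fin 6) 1 * Equiv.swap (2 : Fin 6) 5 * Equiv.swap (3 : Fin 6) 4) (by unfold Rep; decide) (by decide) (by decide) hG hc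
  clear hc
  simp only [List.mem_cons, List.not_mem_nil, or_false] at hK
  rcases hK with rfl | rfl | rfl
  · exact dead_of H hKL
  · exact N28 L H hKL
  · exact N29 L H hKL

theorem N36 (L : Subgroup P6) (H : Hyp L) (hG : InL L [20490, 38125]) : Goal L := by
  have hc : nodeC (oddC 25) allP [20490, 38125] [38310, 30750, 36150, 29670, 38130, 34890, 38280, 30720, 36120, 29640, 44400, 37920, 41160, 33600, 43140, 40980, 44550, 38070, 42390, 22950, 34830, 21870, 44370, 37890, 41130, 33570, 41850, 40770, 44300, 41060, 15140, 14060, 44120, 37640, 39800, 32240, 43010, 40850, 14930, 12770, 42830, 29870, 39590, 24470, 35240, 28760, 33080, 13640, 25520, 12560] [[t0C], [34890, 43705], [34890, 38280, 43705], [34890, 29640, 43705], [43710, 21570, 44370, 38125], [20490, 41130, 38125], [20490, 38125, 44300], [20490, 38125, 40850], [34890, 43705, 12560]] = true := by decide +kernel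
  obtain ⟨K, hK, hKL⟩ := node_odd all_mem H 25 (by decide) hG hc
  clear hc
  simp only [List.mem_cons, List.not_mem_nil, or_false] at hK
  rcases hK with rfl | rfl | rfl | rfl | rfl | rfl | rfl | rfl | rfl
  · exact dead_of H hKL
  · exact N30 L H hKL
  · exact N28 L H hKL
  · exact N29 L H hKL
  · exact N31 L H hKL
  · exact N32 L H hKL
  · exact N33 L H hKL
  · exact N34 L H hKL
  · exact N35 L H hKL

theorem rep_a1 : Rep 38130 (Equiv.swap (2 : Fin 6) 3 * Equiv.swap (4 : Fin 6) 5) := by
  unfold Rep
  decide

theorem rep_a2 : Rep 38125 (Equiv.swap (0 : Fin 6) 1 * (Equiv.swap (2 : Fin 6) 3 * Equiv.swap (4 : Fin 6) 5)) := by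
  unfold Rep
  decide

theorem rep_b1 : Rep 27150 (Equiv.swap (2 : Fin 6) 4 * Equiv.swap (3 : Fin 6) 5) := by
  unfold Rep
  decide

theorem rep_b2 : Rep 27145 (Equiv.swap (0 : Fin 6) 1 * (Equiv.swap (2 : Fin 6) 4 * Equiv.swap (3 : Fin 6) 5)) := by
  unfold Rep
  decide

theorem inL_pair {L : Subgroup P6} {c d : ℕ} {σ τ : P6} (hc : Rep c σ) (hd : Rep d τ) (h1 : σ ∈ L) (h2 : τ ∈ L) :
    InL L [c, d] := by
  intro x hx
  simp only [List.mem_cons, List.not_mem_nil, or_false] at hx
  rcases hx with rfl | rfl
  · exact ⟨σ, h1, hc⟩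
  · exact ⟨τ, h2, hd⟩

/-- **The finite theorem.** -/
theorem fs_main (L : Subgroup P6) (H : Hyp L)
    (x1 : Equiv.swap (2 : Fin 6) 3 * Equiv.swap (4 : Fin 6) 5 ∈ L ∨
      Equiv.swap (0 : Fin 6) 1 * (Equiv.swap (2 : Fin 6) 3 * Equiv.swap (4 : Fin 6) 5) ∈ L)
    (x2 : Equiv.swap (2 : Fin 6) 4 * Equiv.swap (3 : Fin 6) 5 ∈ L ∨
      Equiv.swap (0 : Fin 6) 1 * (Equiv.swap (2 : Fin 6) 4 * Equiv.swap (3 : Fin 6) 5) ∈ L) : Goal L := by
  rcases x1 with x1 | x1 <;> rcases x2 with x2 | x2
  · exact N9 L H (inL_of_grp (inL_pair rep_a1 rep_b1 x1 x2) (by decide +kernel))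
  · exact N18 L H (inL_of_grp (inL_pair rep_a1 rep_b2 x1 x2) (by decide +kernel))
  · exact N27 L H (inL_of_grp (inL_pair rep_a2 rep_b1 x1 x2) (by decide +kernel))
  · exact N36 L H (inL_of_grp (inL_pair rep_a2 rep_b2 x1 x2) (by decide +kernel))

end Cfsg.Agent.Lib.SpRoot.Six
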