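/-
The case of the field with two elements in dimension four.
-/
import Cfsg.Agent.Lib.SpRoot.SixForms
import Cfsg.Agent.Lib.SpRoot.SixNodes
import Cfsg.Agent.Lib.PermIndex.Six

set_option autoImplicit false
set_option linter.unusedSectionVars false
set_option linter.unusedVariables false
set_option linter.unusedSimpArgs false

namespace Cfsg.Agent.Lib.SpRoot.Six

open Cfsg.Agent.Lib.Classical.Alt

variable {F : Type*} [Field F] [Fintype F] [CharP F 2]

/-- The relabelled action. -/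
noncomputable def Phi (ρ : P6) : P6 →* (V4 F ≃ₗ[F] V4 F) :=
  Theta.comp (MulAut.conj ρ).toMonoidHom

theorem Phi_def (ρ σ : P6) : (Phi ρ σ : V4 F ≃ₗ[F] V4 F) = Theta (ρ * σ * ρ⁻¹) := rfl

theorem Phi_apply (ρ σ : P6) (z : V4 F) : Phi ρ σ z = T ρ (T σ (T ρ⁻¹ z)) := by
  rw [Phi_def, Theta_apply, T_mul, T_mul]

theorem Phi_injective (ρ : P6) : Function.Injective (Phi ρ : P6 →* (V4 F ≃ₗ[F] V4 F)) :=
  Theta_injective.comp (MulAut.conj ρ).injective

theorem Phi_mem (ρ σ : P6) : (Phi ρ σ : V4 F ≃ₗ[F] V4 F) ∈ isomGroup (B4 F) := Theta_mem _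

theorem range_Phi (hF : Fintype.card F = 2) (ρ : P6) :
    isomGroup (B4 F) ≤ (Phi ρ : P6 →* (V4 F ≃ₗ[F] V4 F)).range := by
  intro g hg
  obtain ⟨τ, rfl⟩ := isom_le_range hF hg
  refine ⟨ρ⁻¹ * τ * ρ, ?_⟩
  rw [Phi_def]
  congr 1
  group

theorem T_inv_T (ρ : P6) (z : V4 F) : T ρ⁻¹ (T ρ z) = z := by
  rw [← T_mul, inv_mul_cancel, T_one]

theorem T_T_inv (ρ : P6) (z : V4 F) : T ρ (T ρ⁻¹ z) = z := by
  rw [← T_mul, mul_inv_cancel, T_one]

/-- Transport of root elements. -/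
theorem transport {ρ σ : P6} {e w : V4 F} {c : F}
    (h : ∀ v, T σ v = rootVec (B4 F) e w c v) (v : V4 F) :
    Phi ρ σ v = rootVec (B4 F) (T ρ e) (T ρ w) c v := by
  rw [Phi_apply, h]
  have := apply_rootVec (B := B4 F) (Theta ρ) (Theta_mem ρ) e w c (T ρ⁻¹ v)
  simp only [Theta_apply, T_T_inv] at this
  exact this

theorem rootVec_pair {x y : V4 F} (hxy : B4 F x y = 0) (v : V4 F) :
    (v + (1 * B4 F v y) • y) + (1 * B4 F (v + (1 * B4 F v y) • y) x) • x
      = rootVec (B4 F) (x + y) x 1 v := by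
  have hyx : B4 F y x = 0 := B_zero_comm stdB_alt hxy
  simp only [rootVec, map_add, map_smul, LinearMap.add_apply, LinearMap.smul_apply, smul_eq_mul,
    hyx, mul_zero, add_zero, one_mul]
  match_scalars <;> grind

theorem rootVec_triple {x y : V4 F} (hxy : B4 F x y = 0) (v : V4 F) :
    rootVec (B4 F) (x + y) x 1 v + (1 * B4 F (rootVec (B4 F) (x + y) x 1 v) (x + y)) • (x + y)
      = rootVec (B4 F) (x + y) x 0 v := by
  have hyx : B4 F y x = 0 := B_zero_comm stdB_alt hxy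
  have hxx : B4 F x x = 0 := stdB_alt x
  have hyy : B4 F y y = 0 := stdB_alt y
  simp only [rootVec, map_add, map_smul, LinearMap.add_apply, LinearMap.smul_apply, smul_eq_mul,
    hyx, hxy, hxx, hyy, mul_zero, add_zero, one_mul, zero_mul, zero_add, zero_smul]
  match_scalars <;> grind

theorem T_pair {i j k l : Fin 6} {e : V4 F} (hs : vv i j + vv k l = e)
    (hB : B4 F (vv i j) (vv k l) = 0) (v : V4 F) :
    T (Equiv.swap i j * Equiv.swap k l) v = rootVec (B4 F) e (vv i j) 1 v := by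
  rw [T_mul, T_swap, T_swap, ← hs]
  exact rootVec_pair hB v

theorem T_triple {i j k l p q : Fin 6} (hs : (vv i j + vv k l : V4 F) = vv p q)
    (hB : B4 F (vv i j) (vv k l) = 0) (v : V4 F) :
    T (Equiv.swap p q * (Equiv.swap i j * Equiv.swap k l)) v = rootVec (B4 F) (vv p q) (vv i j) 0 v := by
  rw [T_mul, T_swap, T_pair hs hB, ← hs]
  exact rootVec_triple hB v

theorem vv_sum1 : (vv 2 3 + vv 4 5 : V4 F) = vv 0 1 := by
  apply V4_ext <;> rw [Pi.add_apply]
  · rw [vv_l0, vv_l0, vv_l0, ← emb_xor]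
    rfl
  · rw [vv_l1, vv_l1, vv_l1, ← emb_xor]
    rfl
  · rw [vv_r0, vv_r0, vv_r0, ← emb_xor]
    rfl
  · rw [vv_r1, vv_r1, vv_r1, ← emb_xor]
    rfl

theorem vv_sum2 : (vv 2 4 + vv 3 5 : V4 F) = vv 0 1 := by
  apply V4_ext <;> rw [Pi.add_apply]
  · rw [vv_l0, vv_l0, vv_l0, ← emb_xor]
    rfl
  · rw [vv_l1, vv_l1, vv_l1, ← emb_xor]
    rfl
  · rw [vv_r0, vv_r0, vv_r0, ← emb_xor]
    rfl
  · rw [vv_r1, vv_r1, vv_r1, ← emb_xor]
    rfl

theorem B_a1 : B4 F (vv 2 3) (vv 4 5) = 0 := by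
  rw [B_vv_vv]
  simp [ee, Pi.single_apply]

theorem B_a2 : B4 F (vv 2 4) (vv 3 5) = 0 := by
  rw [B_vv_vv]
  simp [ee, Pi.single_apply]

theorem B_w1 : B4 F (vv 2 3) (vv 0 1) = 0 := by
  rw [B_vv_vv]
  simp [ee, Pi.single_apply]

theorem B_w2 : B4 F (vv 2 4) (vv 0 1) = 0 := by
  rw [B_vv_vv]
  simp [ee, Pi.single_apply]

/-- Restriction of the group with `x = 0 ∨ x = 1`. -/
theorem two_cases (hF : Fintype.card F = 2) (x : F) : x = 0 ∨ x = 1 := by
  obtain ⟨b, rfl⟩ := exists_emb hF x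
  cases b
  · exact Or.inl rfl
  · exact Or.inr rfl

/-- The facts about the relabelled group coming from the root data. -/
theorem x_fact (hF : Fintype.card F = 2) {L : Subgroup (V4 F ≃ₗ[F] V4 F)} {ρ : P6} {κ : V4 F → F}
    (hκ : RootData (B4 F) L (T ρ (vv 0 1)) κ) {i j k l : Fin 6}
    (hs : vv i j + vv k l = (vv 0 1 : V4 F)) (hB : B4 F (vv i j) (vv k l) = 0)
    (hw : B4 F (vv i j) (vv 0 1) = 0) :
    Equiv.swap i j * Equiv.swap k l ∈ L.comap (Phi ρ) ∨
      Equiv.swap 0 1 * (Equiv.swap i j * Equiv.swap k l) ∈ L.comap (Phi ρ) := by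
  have hw' : B4 F (T ρ (vv i j)) (T ρ (vv 0 1)) = 0 := by
    rw [T_isom, hw]
  obtain ⟨g, hg, hgv⟩ := hκ.root _ hw'
  rcases two_cases hF (κ (T ρ (vv i j))) with h0 | h1
  · right
    rw [h0] at hgv
    have : Phi ρ (Equiv.swap 0 1 * (Equiv.swap i j * Equiv.swap k l)) = g := by
      ext1 v
      rw [hgv, transport (T_triple hs hB) v]
    rw [Subgroup.mem_comap, this]
    exact hg
  · left
    rw [h1] at hgv
    have : Phi ρ (Equiv.swap i j * Equiv.swap k l) = g := by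
      ext1 v
      rw [hgv, transport (T_pair hs hB) v]
    rw [Subgroup.mem_comap, this]
    exact hg

/-- A transvection in the relabelled group gives root elements with `w = 0`. -/
theorem hasRoot_of_swap {L : Subgroup (V4 F ≃ₗ[F] V4 F)} {ρ : P6}
    (h : Equiv.swap 0 1 ∈ L.comap (Phi ρ)) :
    HasRoot (B4 F) L (T ρ (vv 0 1)) 0 1 := by
  refine ⟨_, h, fun v => ?_⟩
  have h1 : ∀ v : V4 F, T (Equiv.swap 0 1) v = rootVec (B4 F) (vv 0 1) 0 1 v := by
    intro v
    rw [T_swap]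
    simp [rootVec]
  rw [transport h1 v]
  have h0 : T ρ (0 : V4 F) = 0 := by
    have := T_smul ρ (0 : F) (0 : V4 F)
    simpa using this
  rw [h0]

/-- The permutations `ρ` exist. -/
theorem exists_rho {i j : Fin 6} (hij : i ≠ j) : ∃ ρ : P6, ρ 0 = i ∧ ρ 1 = j := by
  have h1 : Equiv.swap (0 : Fin 6) i j ≠ 0 := by
    intro h
    have : Equiv.swap (0 : Fin 6) i (Equiv.swap (0 : Fin 6) i j) = Equiv.swap (0 : Fin 6) i 0 := by
      rw [h]
    rw [Equiv.swap_apply_self, Equiv.swap_apply_left] at this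
    exact hij this.symm
  refine ⟨Equiv.swap (0 : Fin 6) i * Equiv.swap (1 : Fin 6) (Equiv.swap (0 : Fin 6) i j), ?_, ?_⟩
  · rw [Equiv.Perm.mul_apply, Equiv.swap_apply_of_ne_of_ne (by decide) h1.symm,
      Equiv.swap_apply_left]
  · rw [Equiv.Perm.mul_apply, Equiv.swap_apply_left, Equiv.swap_apply_self]

/-- **The small case.** -/
theorem small_case (hF : Fintype.card F = 2) {a : V4 F} {L : Subgroup (V4 F ≃ₗ[F] V4 F)}
    (hL : L ≤ isomGroup (B4 F))
    (hirr : ∀ W : Submodule F (V4 F), (∀ g ∈ L, ∀ w ∈ W, g w ∈ W) → W = ⊥ ∨ W = ⊤)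
    (ha : a ∈ Pts (B4 F) L) : AbsConcl 2 F L := by
  classical
  have hA : (B4 F).IsAlt := stdB_alt
  have hN : (B4 F).Nondegenerate := stdB_nondeg
  have hdim : 3 ≤ Module.finrank F (V4 F) := by
    have : Module.finrank F (V4 F) = 2 * 2 := finrank_std
    omega
  obtain ⟨κ, hκ⟩ := id ha
  obtain ⟨i, j, hij, rfl⟩ := exists_vv hF hκ.ne
  obtain ⟨ρ, hρ0, hρ1⟩ := exists_rho hij
  have hT0 : T ρ (vv 0 1) = (vv i j : V4 F) := by
    rw [T_vv, hρ0, hρ1]
  rw [← hT0] at hκ ha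
  set M := L.comap (Phi ρ : P6 →* (V4 F ≃ₗ[F] V4 F)) with hM
  have hLM : ∀ g ∈ L, ∃ σ ∈ M, Phi ρ σ = g := by
    intro g hg
    obtain ⟨σ, rfl⟩ := range_Phi hF ρ (hL hg)
    exact ⟨σ, hg, rfl⟩
  by_cases hT : Equiv.swap (0 : Fin 6) 1 ∈ M
  · left
    exact eq_isom_of_tv hA hN hL hirr hdim hκ one_ne_zero (hasRoot_of_swap hT)
  by_cases hQ : ∃ S : Fin 6 → Bool, Odd (Finset.univ.filter fun i => S i = true).card ∧
      ∀ σ ∈ M, StabOdd σ S
  · obtain ⟨S, hS, hSM⟩ := hQ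
    right
    left
    have hQF : IsQF (B4 F) (fun v => qS S ((Theta ρ : V4 F ≃ₗ[F] V4 F).symm v)) :=
      IsQF.conj (qS_isQF S) (Theta_mem ρ)
    refine ⟨_, hQF, dichotomy_of_preserving hA hN hL hirr hdim hQF ?_ ha⟩
    intro g hg v
    obtain ⟨σ, hσ, rfl⟩ := hLM g hg
    have h1 : ∀ z : V4 F, (Theta ρ : V4 F ≃ₗ[F] V4 F).symm z = T ρ⁻¹ z := fun z => rfl
    simp only [h1]
    rw [Phi_apply, T_inv_T, qS_T hS (hSM σ hσ)]
  by_cases hU : ∃ m : P6, m * m = 1 ∧ m ≠ 1 ∧ ∀ σ ∈ M, σ * m = m * σ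
  · exfalso
    obtain ⟨m, hm1, hm2, hmM⟩ := hU
    have hm' : ∀ x, m (m x) = x := fun x => by
      have := congrArg (fun g : P6 => g x) hm1
      simpa using this
    let U : Submodule F (V4 F) := Submodule.span F (Set.range fun i => T ρ (vv i (m i)))
    have hinv : ∀ g ∈ L, ∀ w ∈ U, g w ∈ U := by
      intro g hg w hw
      obtain ⟨σ, hσ, rfl⟩ := hLM g hg
      have h1 : U ≤ U.comap (Phi ρ σ : V4 F ≃ₗ[F] V4 F).toLinearMap := by
        refine Submodule.span_le.2 ?_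
        rintro _ ⟨i, rfl⟩
        have h2 : (Phi ρ σ : V4 F ≃ₗ[F] V4 F) (T ρ (vv i (m i))) = T ρ (vv (σ i) (m (σ i))) := by
          rw [Phi_apply, T_inv_T, T_vv]
          congr 2
          have := congrArg (fun g : P6 => g i) (hmM σ hσ)
          simpa using this
        show (Phi ρ σ : V4 F ≃ₗ[F] V4 F) (T ρ (vv i (m i))) ∈ U
        rw [h2]
        exact Submodule.subset_span ⟨σ i, rfl⟩
      exact h1 hw
    have hiso : ∀ x ∈ U, ∀ y ∈ U, B4 F x y = 0 := by
      intro x hx y hy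
      have h1 : U ≤ LinearMap.ker ((B4 F).flip y) := by
        refine Submodule.span_le.2 ?_
        rintro _ ⟨i, rfl⟩
        have h2 : U ≤ LinearMap.ker (B4 F (T ρ (vv i (m i)))) := by
          refine Submodule.span_le.2 ?_
          rintro _ ⟨k, rfl⟩
          show B4 F (T ρ (vv i (m i))) (T ρ (vv k (m k))) = 0
          rw [T_isom, B_vv_invol hm1]
        exact h2 hy
      exact h1 hx
    rcases hirr U hinv with h | h
    · have : ∃ i, m i ≠ i := by
        by_contra hno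
        push_neg at hno
        exact hm2 (Equiv.ext hno)
      obtain ⟨i, hi⟩ := this
      have h1 : T ρ (vv i (m i)) ∈ U := Submodule.subset_span ⟨i, rfl⟩
      rw [h, Submodule.mem_bot] at h1
      have h2 : (vv i (m i) : V4 F) = 0 := by
        rw [← T_inv_T ρ (vv i (m i)), h1]
        have := T_smul ρ⁻¹ (0 : F) (0 : V4 F)
        simpa using this
      exact vv_ne_zero hi.symm h2
    · obtain ⟨t, ht⟩ := exists_B_eq_one hN hκ.ne
      have h1 := hiso t (by rw [h]; trivial) (T ρ (vv 0 1)) (by rw [h]; trivial)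
      rw [h1] at ht
      exact zero_ne_one ht
  have hH : Hyp M := by
    refine ⟨hT, fun S hS => ?_, fun m h1 h2 => ?_⟩
    · by_contra hno
      push_neg at hno
      exact hQ ⟨S, hS, hno⟩
    · by_contra hno
      push_neg at hno
      exact hU ⟨m, h1, h2, hno⟩
  have hG := fs_main M hH (x_fact hF hκ vv_sum1 B_a1 B_w1) (x_fact hF hκ vv_sum2 B_a2 B_w2)
  right
  right
  -- the isomorphism
  have hLr : L ≤ (Phi ρ : P6 →* (V4 F ≃ₗ[F] V4 F)).range := hL.trans (range_Phi hF ρ)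
  let e : M ≃* L := (M.equivMapOfInjective _ (Phi_injective ρ)).trans
    (MulEquiv.subgroupCongr (Subgroup.map_comap_eq_self hLr))
  have hcardP : Nat.card P6 = 720 := by
    rw [Nat.card_eq_fintype_card, Fintype.card_perm, Fintype.card_fin]
    rfl
  rcases hG with h | h
  · left
    have hidx : M.index = 2 := by
      have := M.card_mul_index
      rw [h, hcardP] at this
      omega
    have hE := Equiv.Perm.eq_alternatingGroup_of_index_eq_two hidx
    exact ⟨e.symm.trans (MulEquiv.subgroupCongr hE)⟩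
  · right
    have hidx : M.index = 6 := by
      have := M.card_mul_index
      rw [h, hcardP] at this
      omega
    obtain ⟨e2⟩ := Cfsg.Agent.Lib.PermIndex.Six.index_six_mulEquiv (Ω := Fin 6) (by simp) M hidx
    exact ⟨e.symm.trans e2⟩

end Cfsg.Agent.Lib.SpRoot.Six
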